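import Cfsg.Agent.H14.MCls
import Cfsg.Agent.H14.MKit
import Cfsg.Agent.H14.Co1
import Cfsg.Agent.H16.PiHall

/-!
# Involutions of the first Conway group (helper23)

`cls0`: an element of `Co0` with square `±1` is conjugate to a sign change or to `w0`; `y13`, `y11`: elements of order 13, 11
commuting with `w0`, with a dodecad sign change; `not_anti`; `dod_cent`: the centralizer of a dodecad sign change is monomial.
-/

set_option autoImplicit false
set_option maxRecDepth 100000

namespace H23.CoT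
open Cfsg H14 H14.PK Finset MulAction Matrix
open scoped symmDiff Pointwise

variable {σ τ : Equiv.Perm GolayPt} {c d : Finset GolayPt}

theorem mono_congr {hσ : σ ∈ M24} {hτ : τ ∈ M24} {hc : c ∈ Code} {hd : d ∈ Code} (e : σ = τ) (e' : c = d) :
    mono σ hσ c hc = mono τ hτ d hd := by subst e e'; rfl

theorem mono_mul (hσ : σ ∈ M24) (hτ : τ ∈ M24) (hc : c ∈ Code) (hd : d ∈ Code) :
    mono σ hσ c hc * mono τ hτ d hd = mono (σ * τ) (mul_mem hσ hτ) (c ∆ (σ • d)) (Code_symmDiff hc (M24_smul_mem hσ hd)) :=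
  co_ext' fun v => Subtype.ext (funext fun i => by
    have : σ.symm i ∈ d ↔ i ∈ σ • d := by rw [← Finset.inv_smul_mem_iff]; rfl
    simp only [mul_smul, mono_smul, signedPerm, this, mem_symmDiff]
    by_cases i ∈ c <;> by_cases i ∈ σ • d <;> simp [*] <;> rfl)

theorem sgn_mul (hc : c ∈ Code) (hd : d ∈ Code) : sgn c hc * sgn d hd = sgn (c ∆ d) (Code_symmDiff hc hd) :=
  (mono_mul _ _ hc hd).trans (mono_congr (one_mul _) (by rw [one_smul]))

theorem sgn_empty : sgn ∅ Code_empty = 1 := co_ext' fun v => Subtype.ext (funext fun i => by simp [sgn_apply])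

theorem sgn_sq (hc : c ∈ Code) : sgn c hc * sgn c hc = 1 :=
  (sgn_mul hc hc).trans ((mono_congr rfl (by simp)).trans sgn_empty)

theorem sgn_neg (hc : c ∈ Code) : sgn c hc * negCo = sgn cᶜ (Code_compl hc) :=
  (sgn_mul hc Code_univ).trans (mono_congr rfl (by ext; simp [mem_symmDiff]))

theorem mono_cj (hσ : σ ∈ M24) (hc : c ∈ Code) (hd : d ∈ Code) :
    mono σ hσ c hc * sgn d hd * (mono σ hσ c hc)⁻¹ = sgn (σ • d) (M24_smul_mem hσ hd) := by
  rw [mul_inv_eq_iff_eq_mul, sgn, sgn, mono_mul, mono_mul]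
  exact mono_congr (by simp) (by rw [one_smul, symmDiff_comm])

/-- the packed matrix with given entries -/
noncomputable def mkM (f : ℕ → ℕ → ℕ) : List ℕ :=
  mapL (fun p => Nat.rec 0 (fun q s => Nat.add s (Nat.shiftLeft (f p q) (Nat.mul 16 q))) 24) (List.range 24)

/-- entries of a monomial matrix -/
noncomputable def mE (T m p q : ℕ) : ℕ := bif' (Nat.beq (ap T q) p) (bif' (bit m p) 0 16) 8

/-- entries of the matrix of a sextet -/
noncomputable def xE (L p q : ℕ) : ℕ :=
  bif' (Nat.beq (H13.get 3 L p) (H13.get 3 L q)) (bif' (Nat.beq p q) (bif' (Nat.beq (H13.get 3 L p) 0) 4 12)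
    (bif' (Nat.beq (H13.get 3 L p) 0) 12 4)) 8

/-- the matrix of a monomial map, checked -/
noncomputable def monoK (T m : ℕ) (k : List ℕ → Bool) : Bool :=
  forceL (mkM (mE T m)) fun M => band (arrOk 16 24 M)
    (band (allLt 24 fun p => allLt 24 fun q => Nat.beq (H13.get 16 (M.getD p 0) q) (mE T m p q)) (k M))

theorem monoK_spec {T m : ℕ} (hσ : σ ∈ M24) (h : Tab σ T) (hc : toSet m ∈ Code) {k : List ℕ → Bool} (e : monoK T m k = true) :
    ∃ M, IsM (mono σ hσ _ hc) M ∧ k M = true := by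
  simp only [monoK, forceL_eq, band_iff, allLt_iff, Nat.beq_eq] at e
  refine ⟨_, ⟨arrB_of_ok le_rfl e.1, fun v => funext fun p => ?_⟩, e.2.2⟩
  have : ∀ q, mat (mkM (mE T m)) p q = if q = σ.symm p then (if p ∈ toSet m then -8 else 8) else 0 := fun q => by
    have a : ap T (idx q) = idx p ↔ q = σ.symm p := by
      rw [← h _ (idx_lt q), pt_idx, idx_inj.eq_iff, Equiv.eq_symm_apply]
    rw [mat, H14.vec, e.2.1 _ (idx_lt p) _ (idx_lt q), mE]
    by_cases r : q = σ.symm p
    · rw [Nat.beq_eq.mpr (a.2 r), if_pos r, bit_eq]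
      by_cases s : p ∈ toSet m
      · rw [if_pos s, mem_toSet.1 s]; rfl
      · rw [if_neg s, Bool.eq_false_iff.2 fun t => s (mem_toSet.2 t)]; rfl
    · rw [if_neg r, Bool.eq_false_iff.2 fun t => r (a.1 (Nat.beq_eq.mp t))]; rfl
  simp only [mulVec, dotProduct, this, ite_mul, zero_mul, sum_ite_eq', mem_univ, if_true, Pi.smul_apply, mono_smul, signedPerm]
  split_ifs <;> simp

theorem tab_el {T : ℕ} (h : SP.In M24 T) : Tab (SP.el T) T := by
  have := SP_tab (SP.el T); rwa [h.tb_el] at this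

theorem tab_one : Tab 1 (H13.idv 5 24) := by
  have := SP_tab 1; rwa [SP.tb_one] at this

/-- a monomial map is conjugate to a sign change -/
noncomputable def cjOk (T : ℕ) (x : ℕ × ℕ × ℕ) : Bool :=
  forceL (mkM (xE x.1)) fun X => band (band (matOk X) (isCw x.2.2)) (monoK T x.2.1 fun A => monoK (H13.idv 5 24) x.2.2 fun B =>
    mulK X A fun Y => mulK B X fun Z => allL2 Nat.beq Y Z)

theorem cj_spec {T : ℕ} (h : SP.In M24 T) {x : ℕ × ℕ × ℕ} (hc : toSet x.2.1 ∈ Code) (e : cjOk T x = true) :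
    ∃ d hd, IsConj (mono _ h.el_mem _ hc) (sgn d hd) := by
  simp only [cjOk, forceL_eq, band_iff] at e
  obtain ⟨A, hA, e1⟩ := monoK_spec h.el_mem (tab_el h) hc e.2
  obtain ⟨B, hB, e1⟩ := monoK_spec (one_mem _) tab_one (toSet_mem_Code e.1.2) e1
  obtain ⟨Y, hY, e1⟩ := mulK_spec (isM_coM e.1.1) hA e1
  obtain ⟨Z, hZ, e1⟩ := mulK_spec hB (isM_coM e.1.1) e1
  exact ⟨_, _, isConj_iff.2 ⟨_, mul_inv_eq_iff_eq_mul.2 (hY.eq (allL2_beq.1 e1 ▸ hZ))⟩⟩

/-- indices of codewords -/
def dI (i : ℕ) : ℕ := i % 8 + 16 * (i / 8 % 2) + 64 * (i / 16 % 2) + 512 * (i / 32 % 2)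

/-- representatives modulo conjugation by sign changes -/
noncomputable def repOk (T : ℕ) (R : List ℕ) : Bool :=
  forceL (mapL (fun i => Nat.xor (cw (dI i)) (pm T (cw (dI i)))) (List.range 64)) fun E => all2 64 64 fun a =>
    H13.force (cw a) fun c => H13.force (Nat.xor c (pm T c)) fun s =>
      bimp (bor (Nat.beq s 0) (Nat.beq s 0xffffff)) (H13.anyL (fun e => memL (Nat.xor c e) R) E)

theorem rep_spec {T : ℕ} (h : SP.In M24 T) {R : List ℕ} (e : repOk T R = true) (hc : c ∈ Code)
    (s : c ∆ (SP.el T • c) = ∅ ∨ c ∆ (SP.el T • c) = univ) : ∃ r ∈ R, ∃ hr, IsConj (mono _ h.el_mem c hc) (mono _ h.el_mem (toSet r) hr) := by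
  obtain ⟨a, ha, rfl⟩ := mem_Code_iff.1 hc
  simp only [repOk, forceL_eq, all2_iff, H13.force_eq, bimp_iff, bor_iff, Nat.beq_eq, H13.anyL_iff, memL_iff, mapL_eq,
    List.mem_map] at e
  rw [(tab_el h).smul_toSet, ← toSet_xor, ← toSet_zero, ← toSet_ones,
    toSet_eq_iff (xor_lt24 (cw_lt ha) ((tab_el h).pm_lt _)) (by norm_num),
    toSet_eq_iff (xor_lt24 (cw_lt ha) ((tab_el h).pm_lt _)) (by norm_num)] at s
  obtain ⟨_, ⟨i, -, rfl⟩, r⟩ := e a ha s
  have hd := toSet_cw_mem (a := dI i) (by unfold dI; omega)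
  have q : toSet (Nat.xor (cw a) (Nat.xor (cw (dI i)) (pm T (cw (dI i))))) =
      (toSet (cw (dI i)) ∆ ((1 : Equiv.Perm GolayPt) • toSet (cw a))) ∆ ((1 * SP.el T) • toSet (cw (dI i))) := by
    rw [one_smul, one_mul, (tab_el h).smul_toSet, symmDiff_comm (toSet _), symmDiff_assoc, ← toSet_xor, ← toSet_xor]; rfl
  refine ⟨_, r, q ▸ Code_symmDiff (Code_symmDiff hd (by rwa [one_smul])) (M24_smul_mem (by simpa using h.el_mem) hd),
    isConj_iff.2 ⟨sgn _ hd, ?_⟩⟩
  rw [inv_eq_of_mul_eq_one_right (sgn_sq hd), sgn, mono_mul, mono_mul]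
  exact mono_congr (by simp) q.symm

/-- conjugating data -/
def RA : List (ℕ × ℕ × ℕ) := [(0x4ed9548a965c2d1000, 0x1c4360, 0xe3a800), (0x4ed9548a965c2d1000, 0x15c26f, 0xea290f), (0x6a595daa045c2d0240, 0x9d373, 0xf63813),
  (0x92b6e5aa9813091240, 0x49d93c, 0xb6325c), (0xb234edaa181a2d0048, 0x29b3c6, 0xd658a6), (0x95d962498a5c0d1048, 0x1d93c9, 0xe278a9),
  (0xb1596b69185c0d0208, 0x1dc1b5, 0xe22ad5), (0xb2a6ac8a881b2d1208, 0x29e1ba, 0xd60ada), (0xb2a6ac8a881b2d1208, 0x29f525, 0xd61e45),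
  (0xb1596b69185c0d0208, 0x1dd52a, 0xe23e4a), (0x95d962498a5c0d1048, 0x1d8756, 0xe26c36), (0xb234edaa181a2d0048, 0x29a759, 0xd64c39),
  (0x92b6e5aa9813091240, 0x49cda3, 0xb626c3), (0x6a595daa045c2d0240, 0x9c7ec, 0xf62c8c), (0x4ed9548a965c2d1000, 0x15d6f0, 0xea3d90),
  (0x4ed9548a965c2d1000, 0x1c57ff, 0xe3bc9f)]

theorem okA : H13.allL (cjOk t2A) RA = true := by decide +kernel
theorem okB : cjOk t2B (0x4ed9548a965c2d1000, 0x11eabc, 0xee1543) = true := by decide +kernel
theorem repA : repOk t2A (RA.map fun x => x.2.1) = true := by decide +kernel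
theorem repB : repOk t2B [0x11eabc, 0x72d79] = true := by decide +kernel

/-- an element with square `-1` -/
noncomputable def w0 : Co0 := mono _ in2B.el_mem (toSet 0x72d79) (toSet_mem_Code (by decide +kernel))

theorem conj_N {U : Subgroup Co0} (h : IsPGroup 2 U) : ∃ g : Co0, ∀ u ∈ U, g * u * g⁻¹ ∈ Nmon := by
  have e := Nmon.index_mul_card
  rw [card_Nmon, card_Co0] at e
  obtain ⟨g, hg⟩ := H16.exists_conj_mem_of_not_dvd_index (H := Nmon) Nat.prime_two (by omega) h
  exact ⟨g, fun u hu => hg (Subgroup.smul_mem_pointwise_smul _ _ _ hu)⟩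

theorem cls0 {x : Co0} (h : x * x = 1 ∨ x * x = negCo) : (∃ d hd, IsConj x (sgn d hd)) ∨ IsConj x w0 := by
  obtain ⟨g, hg⟩ := conj_N (U := Subgroup.zpowers x) (IsPGroup.of_card_dvd_pow (n := 2) (by
    rw [Nat.card_zpowers]
    exact orderOf_dvd_of_pow_eq_one (by
      rw [show 2 ^ 2 = 2 * 2 from rfl, pow_mul, sq, sq]; rcases h with h | h <;> simp [h, negCo_mul_self])))
  obtain ⟨σ, hσ, c, hc, e⟩ := exists_mono_of_mem (hg x (Subgroup.mem_zpowers x))
  have key : ∀ {σ c} hσ hc, IsConj x (mono σ hσ c hc) → σ * σ = 1 ∧ (c ∆ (σ • c) = ∅ ∨ c ∆ (σ • c) = univ) := by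
    intro σ c hσ hc r
    obtain ⟨k, r⟩ := isConj_iff.1 r
    have : mono σ hσ c hc * mono σ hσ c hc = k * (x * x) * k⁻¹ := by rw [← r]; group
    rw [mono_mul] at this
    rcases h with h | h
    · rw [h, mul_one, mul_inv_cancel, ← sgn_empty] at this
      exact ⟨(mono_inj this).1, .inl (mono_inj this).2⟩
    · rw [h, negCo_comm, mul_inv_cancel_right, negCo, sgn] at this
      exact ⟨(mono_inj this).1, .inr (mono_inj this).2⟩
  have r : IsConj x (mono σ hσ c hc) := isConj_iff.2 ⟨g, e⟩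
  by_cases s1 : σ = 1
  · subst s1; exact .inl ⟨c, hc, r⟩
  obtain ⟨k, hk, s⟩ := cls2 hσ (orderOf_eq_prime (by rw [sq, (key _ _ r).1]) s1)
  have st : ∀ {T} (hT : SP.In M24 T), σ = k * SP.el T * k⁻¹ → ∃ c hc, IsConj x (mono _ hT.el_mem c hc) := fun hT s =>
    ⟨k⁻¹ • c, M24_smul_mem (inv_mem hk) hc, r.trans (IsConj.symm (isConj_iff.2 ⟨prm k hk, by
      rw [mul_inv_eq_iff_eq_mul, prm, mono_mul, mono_mul]; exact mono_congr (by simp [s]) (by simp [symmDiff_comm c])⟩))⟩
  rcases s with s | s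
  · obtain ⟨c, hc, r⟩ := st in2A s
    obtain ⟨_, m, hr, q⟩ := rep_spec in2A repA hc (key _ _ r).2
    obtain ⟨y, hy, rfl⟩ := List.mem_map.1 m
    obtain ⟨d, hd, t⟩ := cj_spec in2A hr (H13.allL_iff.1 okA y hy)
    exact .inl ⟨d, hd, (r.trans q).trans t⟩
  · obtain ⟨c, hc, r⟩ := st in2B s
    obtain ⟨_, m, hr, q⟩ := rep_spec in2B repB hc (key _ _ r).2
    simp only [List.mem_cons, List.not_mem_nil, or_false] at m
    rcases m with rfl | rfl
    · obtain ⟨d, hd, t⟩ := cj_spec in2B (x := (_, _, _)) hr okB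
      exact .inl ⟨d, hd, (r.trans q).trans t⟩
    · exact .inr (r.trans q)

/-- an element of order 13 -/
def My : List ℕ := [nat_lit 0x60008000a000a000a0004000800080006000600080008000600060008000800080006000800060008000600060008,
  nat_lit 0x800060004000800080006000a000a0008000800060006000800080006000600060008000a0008000a00080008000a,
  nat_lit 0x800060008000c0008000a0006000a000800080006000600080008000a000a000a0008000a0008000600080008000a,
  nat_lit 0xa00080006000a000600080008000800060006000c0008000a000600080008000800060008000a0008000a00060008,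
  nat_lit 0x8000a000800080008000a000a000a000800040006000600080008000a000600060008000600080006000800080006,
  nat_lit 0x800060008000800040006000a0006000800080006000600080008000a000a000a000800060008000a000800080006,
  nat_lit 0x8000a0008000800080006000a000600080008000a000600080008000a000a00060008000a000800060008000c000a,
  nat_lit 0xa0008000a00060006000800080008000a0006000800080006000a0008000800080006000c000a0008000600060008,
  nat_lit 0x600080006000a0006000800080008000a00060008000c0006000a0008000800080006000800060008000a000a0008,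
  nat_lit 0x600080006000600060008000800080006000a00080008000a000a0008000800080006000800060004000600060008,
  nat_lit 0xc0006000800080008000600060006000800080006000a00080008000a00060006000800060008000600080008000a,
  nat_lit 0x8000a00080008000800060006000600080008000600060008000800060006000a0008000a00080006000c00080006,
  nat_lit 0x60008000600060006000800040008000600060008000800060006000800080008000a0008000a00080006000a0008,
  nat_lit 0x8000a000800080008000a000600060008000800060006000800080006000a0006000400060008000a00080008000a,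
  nat_lit 0xa000800060006000a00080008000800060006000800080006000a0008000c0008000a000800060008000a00060008,
  nat_lit 0x80006000800080008000a0006000600080008000a000600080008000a000600060008000a0004000a000800080006,
  nat_lit 0xa000800060006000a000800080008000a000600080008000a000600080008000c00060008000600080006000a0008,
  nat_lit 0x8000600080008000800060006000a000c0008000a0006000800080006000a00060008000600080006000800080006,
  nat_lit 0x8000a00080008000800060006000a000800080006000a000c0008000a000a00060008000a0008000a000800080006,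
  nat_lit 0x80006000800080008000a000a0006000800080006000a000800040006000a00060008000a00080006000800080006,
  nat_lit 0x60004000a0006000a0008000800080006000600080008000a000a00080008000800060008000a0008000a000a0008,
  nat_lit 0x6000800060006000a000800080008000a000a0008000800060006000c0008000800060008000a0008000a00060008,
  nat_lit 0xa00080006000a000a0008000800080006000a000800080006000a00080008000800060008000a00080006000a0004,
  nat_lit 0x600080006000a000a000800080004000a000600080008000a000a000800080008000a0008000a0008000600060008]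

theorem okY : band (matOk My) (monoK t2B 0x72d79 fun W => mulK My W fun A => mulK W My fun B => band (allL2 Nat.beq A B)
    (powK My 8 13 fun C => band (allL2 Nat.beq C idM) (band (bn (allL2 Nat.beq My idM)) (mulK W W fun D => allL2 Nat.beq D negM)))) = true := by
  decide +kernel

theorem y13 : w0 * w0 = negCo ∧ ∃ y : Co0, y ^ 13 = 1 ∧ y ≠ 1 ∧ y * w0 = w0 * y := by
  obtain ⟨a, e⟩ := (band_iff _ _).1 okY
  obtain ⟨W, hW, e⟩ := monoK_spec in2B.el_mem (tab_el in2B) (toSet_mem_Code (by decide +kernel)) e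
  obtain ⟨A, hA, e⟩ := mulK_spec (isM_coM a) hW e
  obtain ⟨B, hB, e⟩ := mulK_spec hW (isM_coM a) e
  obtain ⟨b, e⟩ := (band_iff _ _).1 e
  obtain ⟨C, hC, e⟩ := powK_spec (isM_coM a) e
  simp only [band_iff, bn_iff, allL2_beq] at e b
  obtain ⟨D, hD, d⟩ := mulK_spec hW hW e.2.2
  exact ⟨hD.eq (allL2_beq.1 d ▸ isM_neg), _, hC.eq (e.1 ▸ isM_one), fun r => e.2.1 ((isM_coM a).uniq (r ▸ isM_one)),
    hA.eq (b ▸ hB)⟩

theorem sgn_conj (hc : c ∈ Code) (hd : d ∈ Code) (h : c.card = 8 ∧ d.card = 8 ∨ c.card = 12 ∧ d.card = 12) :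
    IsConj (sgn c hc) (sgn d hd) := by
  obtain ⟨g, hg, rfl⟩ : ∃ g ∈ M24, g • c = d := h.elim (fun h => octad_trans (mem_octads.2 ⟨hc, h.1⟩) (mem_octads.2 ⟨hd, h.2⟩))
    fun h => dodecad_trans (mem_dodecads.2 ⟨hc, h.1⟩) (mem_dodecads.2 ⟨hd, h.2⟩)
  exact isConj_iff.2 ⟨_, mono_cj hg Code_empty hc⟩

theorem y11 (hd : d ∈ Code) (h : d.card = 12) : ∃ y : Co0, y ^ 11 = 1 ∧ y ≠ 1 ∧ y * sgn d hd = sgn d hd * y := by
  have i : SP.In M24 0xbd6717b56939461b52507314831040 := in_M24 (by decide +kernel)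
  have o : orderOf (SP.el 0xbd6717b56939461b52507314831040) = 11 := i.order (by norm_num) (by decide +kernel)
  have h0 := mem_dodecads.1 dodec0_mem
  obtain ⟨g, e⟩ := isConj_iff.1 (sgn_conj h0.1 hd (.inr ⟨h0.2, h⟩))
  have pw : ∀ n : ℕ, prm _ i.el_mem ^ n = prm _ (pow_mem i.el_mem n) := fun n => by
    induction n with
    | zero => exact sgn_empty.symm.trans (mono_congr (by simp) rfl)
    | succ n ih => rw [pow_succ, ih, prm, prm, mono_mul]; exact mono_congr (pow_succ _ _).symm (by simp)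
  have c := mono_cj i.el_mem Code_empty h0.1
  rw [show sgn _ (M24_smul_mem i.el_mem h0.1) = sgn _ h0.1 from
    mono_congr rfl (by rw [(tab_el i).smul_toSet]; exact congrArg _ (by decide +kernel)), mul_inv_eq_iff_eq_mul] at c
  refine ⟨g * prm _ i.el_mem * g⁻¹, ?_, fun r => ?_, ?_⟩
  · rw [conj_pow, pw, show prm _ (pow_mem i.el_mem 11) = 1 from (mono_congr (o ▸ pow_orderOf_eq_one _) rfl).trans sgn_empty]; simp
  · have : prm _ i.el_mem = 1 := by simpa using r
    rw [← sgn_empty] at this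
    rw [(mono_inj this).1] at o; simp at o
  · rw [← e, conj_mul, conj_mul, prm, c]

/-- the trace, times eight -/
noncomputable def tr (g : Co0) : ℤ := ∑ i, ((g • e8 i : leechLattice) : V) i

theorem tr_comm (g h : Co0) : tr (g * h) = tr (h * g) := by
  have : ∀ g h : Co0, 8 * tr (g * h) = ∑ i, ∑ j, ((h • e8 i : leechLattice) : V) j * ((g • e8 j : leechLattice) : V) i := fun g h => by
    rw [tr, mul_sum]
    refine sum_congr rfl fun i _ => ?_
    have := congrArg (fun v : leechLattice => ((g • v : leechLattice) : V) i) (eight_smul_eq (h • e8 i))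
    simpa [smul_sum, co_zsmul, mul_smul] using this
  have e := (this g h).trans (sum_comm.trans ((sum_congr rfl fun i _ => sum_congr rfl fun j _ => mul_comm _ _).trans (this h g).symm))
  omega

theorem tr_sgn (hc : c ∈ Code) : tr (sgn c hc) = 192 - 16 * c.card := by
  have : ∀ i, ((sgn c hc • e8 i : leechLattice) : V) i = 8 - 16 * iZ c i := fun i => by
    rw [sgn_apply, coe_e8, iZ]; split_ifs <;> simp
  simp only [tr, this, sum_sub_distrib, ← mul_sum, sum_iZ, sum_const24]; rfl

theorem card_of_conj {hc : c ∈ Code} {hd : d ∈ Code} (h : IsConj (sgn c hc) (sgn d hd)) : c.card = d.card := by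
  obtain ⟨g, e⟩ := isConj_iff.1 h
  have := tr_comm (g * sgn c hc) g⁻¹
  rw [e, inv_mul_cancel_left, tr_sgn, tr_sgn] at this
  omega

theorem four_dvd {x : leechLattice} (hd : d ∈ Code) (h : d.card = 12) (hn : sqNorm (x : V) = 32) (s : ∀ i ∉ d, (x : V) i = 0)
    (i : GolayPt) : 4 ∣ (x : V) i := by
  obtain ⟨m, c, y, hm, hc, -, e⟩ := exists_param x.2
  obtain ⟨p, hp⟩ : ∃ p, p ∉ d := by
    by_contra r; push Not at r
    rw [eq_univ_iff_forall.2 r, card_univ, card_pt] at h; omega
  have m0 : m = 0 := by have := e p; rw [s p hp] at this; omega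
  rcases Code_subset hc hd (fun j hj => by_contra fun r => by
    have := e j; rw [s j r, iZ, if_pos hj] at this; omega) (by omega) with rfl | rfl
  · rw [e i, m0]; simp [iZ]
  · have : ∑ j ∈ c, (4 : ℤ) ≤ ∑ j, (x : V) j ^ 2 := (sum_le_sum fun j hj => by
      have := e j; rw [m0, iZ, if_pos hj] at this
      rw [this]; rcases le_or_gt 0 (y j) with a | a <;> nlinarith).trans
        (sum_le_sum_of_subset_of_nonneg (subset_univ _) fun _ _ _ => sq_nonneg _)
    rw [sqNorm] at hn
    simp [h, hn] at this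

theorem dod_cent (hd : d ∈ Code) (h : d.card = 12) {g : Co0} (e : g * sgn d hd = sgn d hd * g ∨ g * sgn d hd = sgn d hd * g * negCo) :
    g ∈ Nmon := by
  have hd' : dᶜ.card = 12 := by rw [card_compl, card_pt, h]
  have ei : ∀ v : leechLattice, (sgn d hd • v = v ∨ sgn d hd • v = -v) ↔ (∀ i ∉ dᶜ, (v : V) i = 0) ∨ ∀ i ∉ d, (v : V) i = 0 := fun v => by
    refine or_congr ⟨fun r i hi => ?_, fun r => Subtype.ext (funext fun i => ?_)⟩ ⟨fun r i hi => ?_, fun r => Subtype.ext (funext fun i => ?_)⟩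
    · have := sgn_apply d hd v i; rw [r, if_pos (by simpa using hi)] at this; omega
    · rw [sgn_apply]; split_ifs with a <;> simp [r i, a]
    · have := sgn_apply d hd v i; rw [r, if_neg hi] at this; simp at this; omega
    · rw [sgn_apply]; split_ifs with a <;> simp [r i, a]
  have pr : ∀ g : Co0, (g * sgn d hd = sgn d hd * g ∨ g * sgn d hd = sgn d hd * g * negCo) → ∀ v : leechLattice,
      (sgn d hd • v = v ∨ sgn d hd • v = -v) → (sgn d hd • g • v = g • v ∨ sgn d hd • g • v = -(g • v)) := fun g e v r => by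
    rcases e with e | e <;> have := congrArg (· • v) e <;> rcases r with r | r <;>
      simp only [mul_smul, r, negCo_smul, smul_neg, neg_inj] at this
    exacts [.inl this.symm, .inr this.symm, .inr (neg_eq_iff_eq_neg.1 this.symm), .inl this.symm]
  have e' : g⁻¹ * sgn d hd = sgn d hd * g⁻¹ ∨ g⁻¹ * sgn d hd = sgn d hd * g⁻¹ * negCo := e.imp
    (fun e => by rw [inv_mul_eq_iff_eq_mul, ← mul_assoc, e, mul_inv_cancel_right]) fun e => by
      rw [inv_mul_eq_iff_eq_mul, ← mul_assoc, ← mul_assoc, e, mul_assoc _ negCo, ← negCo_comm, ← mul_assoc, mul_inv_cancel_right,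
        mul_assoc, negCo_mul_self, mul_one]
  have key : ∀ i, ((g • e8 i : leechLattice) : V) ∈ stdCross := fun i => by
    obtain ⟨x, hx⟩ : ∃ x, x = g • e8 i := ⟨_, rfl⟩
    have n : sqNorm (x : V) = 64 := by rw [hx, co_norm, norm_e8]
    obtain ⟨E, E12, s, v⟩ : ∃ E : Finset GolayPt, E.card = 12 ∧ (∀ j ∉ E, (x : V) j = 0) ∧ (E = dᶜ ∨ E = d) :=
      ((ei x).1 (hx ▸ pr g e _ ((ei _).2 (by
        by_cases i ∈ d <;> [right; left] <;> intro j hj <;> rw [coe_e8, Pi.single_eq_of_ne] <;> rintro rfl <;> simp_all)))).elim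
        (fun r => ⟨_, hd', r, .inl rfl⟩) fun r => ⟨_, h, r, .inr rfl⟩
    have d8 : ∀ k ∈ E, ∀ l ∈ E, k ≠ l → ∀ t : ℤˣ, 8 ∣ (x : V) k + t * (x : V) l := fun k hk l hl ne t => by
      have z : ∀ j ∉ E, (v44 k l t : V) j = 0 := fun j hj => by
        rw [v44_apply, if_neg, if_neg] <;> [simp; skip; skip] <;> rintro rfl <;> contradiction
      obtain ⟨u, hu⟩ : 4 ∣ ((g⁻¹ • v44 k l t : leechLattice) : V) i :=
        ((ei _).1 (pr _ e' _ ((ei _).2 (v.imp (· ▸ z) (· ▸ z))))).elim
          (fun r => four_dvd (Code_compl hd) hd' (by rw [co_norm, norm_v44 ne]) r i)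
          fun r => four_dvd hd h (by rw [co_norm, norm_v44 ne]) r i
      have := co_dot_inv g (e8 i) (v44 k l t)
      rw [dotInt_comm, dot_e8, hu, ← hx, dot_v44] at this
      omega
    have a8 : ∀ k, 8 ∣ (x : V) k := fun k => by_contra fun r => by
      have hk : k ∈ E := by_contra fun q => r (by simp [s k q])
      have : ∑ j ∈ E, (16 : ℤ) ≤ ∑ j, (x : V) j ^ 2 := (sum_le_sum fun j hj => by
        obtain ⟨l, hl, ne⟩ := exists_mem_ne (s := E) (by omega) k
        have a := d8 k hk l hl ne.symm 1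
        have b := d8 k hk l hl ne.symm (-1)
        have : (x : V) j % 8 = 4 := by
          by_cases q : k = j
          · subst q; simp at a b; omega
          · have := d8 k hk j hj q 1; simp at a b this; omega
        rcases (by omega : 4 ≤ (x : V) j ∨ (x : V) j ≤ -4) with a | a <;> nlinarith).trans (sum_le_sum_of_subset_of_nonneg (subset_univ _) fun _ _ _ => sq_nonneg _)
      rw [sqNorm] at n
      simp [E12, n] at this
    obtain ⟨k, hk⟩ : ∃ k, (x : V) k ≠ 0 := by
      by_contra r; push Not at r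
      simp [sqNorm, r] at n
    rw [← hx]
    refine mem_stdCross.2 ⟨k, eq_e8_of_zero n fun j ne => by_contra fun r => ?_⟩
    have : ∑ l ∈ {j, k}, (x : V) l ^ 2 ≤ ∑ l, (x : V) l ^ 2 := sum_le_sum_of_subset_of_nonneg (subset_univ _) fun _ _ _ => sq_nonneg _
    rw [sum_pair ne, ← sqNorm, n] at this
    obtain ⟨a, ha⟩ := a8 j
    obtain ⟨b, hb⟩ := a8 k
    rw [ha] at r this; rw [hb] at hk this
    have : a ≠ 0 := by omega
    have : b ≠ 0 := by omega
    nlinarith [sq_pos_of_ne_zero ‹a ≠ 0›, sq_pos_of_ne_zero ‹b ≠ 0›]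
  refine mem_Nmon.2 fun v hv => ?_
  obtain ⟨i, rfl | rfl⟩ := mem_stdCross.1 hv
  · exact key i
  · obtain ⟨j, r | r⟩ := mem_stdCross.1 (key i)
    · exact mem_stdCross.2 ⟨j, .inr (by rw [smul_neg, r])⟩
    · exact mem_stdCross.2 ⟨j, .inl (by rw [smul_neg, r, neg_neg])⟩

end H23.CoT
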