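import Mathlib
import Cfsg.Agent.H23.GW1
import Cfsg.Agent.H02.Thompson
import Cfsg.Agent.H05.Burnside

/-!
# Groups whose elements outside a normal subgroup have prime power order (`H23.eppo`)
-/

set_option autoImplicit false
open Cfsg BG Subgroup H22 H23.GW

namespace H23
universe u v

theorem pp_mul {G : Type u} [Group G] {x y : G} (h : Commute x y) (hc : (orderOf x).Coprime (orderOf y))
    (hp : IsPrimePow (orderOf (x * y))) : x = 1 ∨ y = 1 := by
  rw [h.orderOf_mul_eq_mul_orderOf_of_coprime hc] at hp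
  rcases (hc.isPrimePow_dvd_mul hp).1 dvd_rfl with e | e
  · exact Or.inr (orderOf_eq_one_iff.1 (hc.symm.eq_one_of_dvd (dvd_of_mul_left_dvd e)))
  · exact Or.inl (orderOf_eq_one_iff.1 (hc.eq_one_of_dvd (dvd_of_mul_right_dvd e)))

theorem pp_map {G : Type u} {H : Type v} [Group G] [Group H] (f : G →* H) {x : G} (h1 : f x ≠ 1)
    (hp : IsPrimePow (orderOf x)) : IsPrimePow (orderOf (f x)) :=
  hp.dvd (orderOf_map_dvd f x) (mt orderOf_eq_one_iff.1 h1)

theorem eppo {X : Type v} [Group X] (hX : ¬ Group.IsSolvable X) (n : ℕ) : ∀ (G : Type u) [Group G] [Finite G],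
    Nat.card G = n → ∀ f : G →* X, Function.Surjective f → (∀ x, f x ≠ 1 → IsPrimePow (orderOf x)) →
    ∀ x, f x = 1 → (orderOf x).Prime → orderOf x = 2 := by
  induction n using Nat.strong_induction_on with
  | _ n ih =>
  rintro G _ _ rfl f hf h x0 hx0 hs
  by_contra h2
  obtain ⟨s, es⟩ : ∃ s, orderOf x0 = s := ⟨_, rfl⟩
  rw [es] at hs h2
  obtain ⟨N, hN⟩ : ∃ N, N = f.ker := ⟨_, rfl⟩
  have hm : ∀ {x}, x ∈ N ↔ f x = 1 := hN ▸ Iff.rfl
  have hNn : N.Normal := hN ▸ inferInstance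
  have hNt : N_(N) = ⊤ := normalizer_eq_top N
  have hG : ¬ Group.IsSolvable (⊤ : Subgroup G) := fun _ => hX
    (Group.isSolvable_of_surjective (f := f.comp (⊤ : Subgroup G).subtype) fun y => (hf y).elim fun x e => ⟨⟨x, trivial⟩, e⟩)
  have hb : ∀ L : Subgroup G, N_(L) = ⊤ → L ≠ ⊥ → L ≤ N → ∀ x ∈ N, x ∉ L → (orderOf x).Prime → orderOf x = 2 := by
    intro L hL h0 hLN x hx hxL hp
    have := normalizer_eq_top_iff.1 hL
    have e : orderOf (QuotientGroup.mk' L x) = orderOf x :=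
      (hp.eq_one_or_self_of_dvd _ (orderOf_map_dvd _ x)).resolve_left fun e =>
        hxL ((QuotientGroup.eq_one_iff _).1 (orderOf_eq_one_iff.1 e))
    rw [← e] at hp ⊢
    refine ih _ ?_ (G ⧸ L) rfl (QuotientGroup.lift L f fun x hx => hm.1 (hLN hx)) (fun y => (hf y).elim fun x e => ⟨x, e⟩)
      (fun y hy => ?_) _ (hm.1 hx) hp
    · rw [← L.index_eq_card, ← L.index_mul_card]
      exact lt_mul_of_one_lt_right (Nat.pos_of_ne_zero L.index_ne_zero_of_finite) (one_lt_card h0)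
    · obtain ⟨y, rfl⟩ := QuotientGroup.mk'_surjective L y
      exact pp_map _ (fun e => hy (by rw [e, map_one])) (h y hy)
  have h01 : x0 ≠ 1 := fun e => hs.one_lt.ne' (by rw [← es, e, orderOf_one])
  obtain ⟨R, hR, hxR⟩ := sylow_superset hs (pg_of_card_eq ((card_zpowers x0).trans es)) (zpowers_le.2 (hm.2 hx0))
  replace hxR := zpowers_le.1 hxR
  have hRn : N_(R) = ⊤ := by
    by_contra e
    have e1 := sylow_frattini hs hR le_top hNt.ge
    have := ih _ (by simpa using card_lt (lt_top_iff_ne_top.2 e)) N_(R) rfl (f.comp (Subgroup.subtype _)) (fun y => by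
      obtain ⟨x, rfl⟩ := hf y
      obtain ⟨k, hk, a, ha, rfl⟩ := (mem_sup_norm (le_top.trans hNt.ge)).1 (e1.ge (mem_top x))
      exact ⟨⟨a, ha.2⟩, by simp [hm.1 hk]⟩) (fun x hx => by simpa using h x hx) ⟨x0, le_norm R hxR⟩ hx0
      (by simpa [es] using hs)
    exact h2 (by simpa [es] using this)
  have hpr : ∀ r, r.Prime → r ∣ Nat.card N → r = 2 ∨ r = s := fun r hr hd => by
    obtain ⟨x, hx, rfl⟩ := exists_orderOf_eq_prime hr hd
    by_cases e : x ∈ R
    · exact Or.inr (pg_prime_eq hs (IsSylowIn.pg hR hs) hr (orderOf_dvd_card e))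
    · exact Or.inl (hb R hRn (ne_bot_of_mem hxR h01) hR.le x hx e hr)
  obtain ⟨p, hp, hd, hp2⟩ : ∃ p : ℕ, p.Prime ∧ p ∣ Nat.card (⊤ : Subgroup G) ∧ ¬ (p = 2 ∨ p = s) := by
    by_contra e
    exact hG (H05.isSolvable_of_prime_dvd _ Nat.prime_two hs fun r hr hd => by_contra fun e' => e ⟨r, hr, hd, e'⟩)
  obtain ⟨x, -, hx⟩ := exists_orderOf_eq_prime hp hd
  have hpN : ¬ p ∣ Nat.card N := fun e => hp2 (hpr p hp e)
  have key : ∀ {a y : G}, a ∉ N → y ∈ N → Commute a y → (orderOf a).Coprime (orderOf y) → y = 1 := fun ha hy hc e =>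
    (pp_mul hc e (h _ fun e => ha ((mul_mem_cancel_right hy).1 (hm.2 e)))).resolve_left fun e => ha (e ▸ one_mem N)
  have hnil : Group.IsNilpotent N := H02.isNilpotent_of_fpf hp (hNt.ge (mem_top x)) (hx ▸ pow_orderOf_eq_one x)
    (eq_bot_iff.2 fun y hy => key (fun e => hpN (hx ▸ orderOf_dvd_card e)) hy.1 (mem_cent1.1 hy.2).symm
      (hx ▸ (hp.coprime_iff_not_dvd.2 hpN).coprime_dvd_right (orderOf_dvd_card hy.1)))
  have h2N : ¬ 2 ∣ Nat.card N := fun e => by
    obtain ⟨T, hT⟩ := sylow_exists Nat.prime_two N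
    exact h2 (es ▸ hb T (eq_top_iff.2 (hNt.ge.trans (nil_hall_norm hnil hT))) (IsSylowIn.ne_bot' hT Nat.prime_two e) hT.le
      x0 (hm.2 hx0) (fun e => h2 (pg_prime_eq Nat.prime_two (IsSylowIn.pg hT Nat.prime_two) hs (es ▸ orderOf_dvd_card e)))
      (es ▸ hs))
  have hNs : IsPGroup s N := (isPi_singleton hs).1 fun r hr hd => (hpr r hr hd).resolve_left fun e => h2N (e ▸ hd)
  obtain ⟨W, hW⟩ : ∃ W, W = N ⊓ C_(N) := ⟨_, rfl⟩
  have hWN : W ≤ N := hW ▸ inf_le_left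
  have hNC : N ≤ C_(W) := cent_symm (hW ▸ inf_le_right)
  have hWt : ⊤ ≤ N_(W) := hW ▸ norm_inf hNt.ge (norm_cent hNt.ge)
  obtain ⟨w, hw, hw1⟩ := exists_mem_ne_one (hW ▸ nil_center_ne_bot hnil (ne_bot_of_mem (hm.2 hx0) h01) : W ≠ ⊥)
  have hCn : C_(W).Normal := normalizer_eq_top_iff.1 (eq_top_iff.2 (norm_cent hWt))
  have hC : ∀ a ∈ C_(W), (orderOf a).Coprime s → a = 1 := fun a ha e => by
    have e' : ∀ y ∈ N, (orderOf a).Coprime (orderOf y) := fun y hy => by
      obtain ⟨k, hk⟩ := pg_card hs hNs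
      exact (e.pow_right k).coprime_dvd_right (hk ▸ orderOf_dvd_card hy)
    by_cases h : a ∈ N
    · exact orderOf_eq_one_iff.1 ((Nat.coprime_self _).1 (e' a h))
    · exact absurd (key h (hWN hw) (mem_cent.1 ha w hw).symm (e' w (hWN hw))) hw1
  obtain ⟨a, -, ha⟩ := exists_orderOf_eq_prime Nat.prime_two (by_contra fun e => hG (ft e))
  have hi : ∀ b : G, orderOf b = 2 → ∀ v ∈ W, b * v * b⁻¹ = v⁻¹ := fun b hb v hv => by
    have h1 := conj_mem_of_norm (hWt (mem_top b)) hv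
    refine eq_inv_of_mul_eq_one_left (key (a := b) (fun e => h2N (hb ▸ orderOf_dvd_card e)) (hWN (mul_mem h1 hv)) ?_
      (hb ▸ (Nat.prime_two.coprime_iff_not_dvd.2 h2N).coprime_dvd_right (orderOf_dvd_card (hWN (mul_mem h1 hv)))))
    have h3 := mem_cent.1 (hNC (hWN hv)) _ h1
    rw [inv2 hb] at h3 ⊢
    calc b * (b * v * b * v) = v * b * v := by simp only [← mul_assoc, sq1 hb, one_mul]
      _ = b * v * b * v * b := by rw [h3]; simp only [mul_assoc, sq1 hb, mul_one]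
  have hc : Commute (QuotientGroup.mk' C_(W) x) (QuotientGroup.mk' C_(W) a) := by
    rw [← commutatorElement_eq_one_iff_commute, ← map_commutatorElement]
    refine (QuotientGroup.eq_one_iff _).2 (mem_cent.2 fun v hv => ?_)
    have h1 := hi _ ((BG.orderOf_conj x a).trans ha) _ (inv_mem hv)
    have h2 := hi a⁻¹ (by rw [orderOf_inv, ha]) v hv
    rw [inv_inv] at h1 h2
    rw [commutatorElement_def]
    calc _ = x * a * x⁻¹ * v⁻¹ * (x * a * x⁻¹)⁻¹ * (x * a * x⁻¹ * a⁻¹) := by rw [h1]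
      _ = x * a * x⁻¹ * (a⁻¹ * v * a) * a⁻¹ := by rw [h2]; group
      _ = _ := by group
  have hco : (orderOf (QuotientGroup.mk' C_(W) x)).Coprime (orderOf (QuotientGroup.mk' C_(W) a)) :=
    Nat.Coprime.coprime_dvd_left (orderOf_map_dvd _ x) (Nat.Coprime.coprime_dvd_right (orderOf_map_dvd _ a)
      (by rw [hx, ha]; exact (Nat.coprime_primes hp Nat.prime_two).2 fun e => hp2 (Or.inl e)))
  have h3 : QuotientGroup.mk' C_(W) x = 1 ∨ QuotientGroup.mk' C_(W) a = 1 := by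
    by_cases e : QuotientGroup.mk' C_(W) (x * a) = 1
    · rw [map_mul, ← orderOf_eq_one_iff, hc.orderOf_mul_eq_mul_orderOf_of_coprime hco] at e
      exact Or.inl (orderOf_eq_one_iff.1 (Nat.eq_one_of_mul_eq_one_right e))
    · exact pp_mul hc hco (map_mul (QuotientGroup.mk' C_(W)) x a ▸
        pp_map _ e (h _ fun e' => e ((QuotientGroup.eq_one_iff _).2 (hNC (hm.2 e')))))
  rcases h3 with e | e
  · exact hp.one_lt.ne' (by rw [← hx, hC x ((QuotientGroup.eq_one_iff _).1 e)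
      (hx ▸ (Nat.coprime_primes hp hs).2 fun e => hp2 (Or.inr e)), orderOf_one])
  · exact ne1 ha (hC a ((QuotientGroup.eq_one_iff _).1 e) (ha ▸ (Nat.coprime_primes Nat.prime_two hs).2 (Ne.symm h2)))

end H23
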