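import Mathlib
import Cfsg.Agent.H23.GW1
import Cfsg.Agent.H08.IsoElt
import Cfsg.Prelude.Def_SubgroupEmbedding

/-!
# A variant of the Z*-theorem

`H` an abelian 2-subgroup such that each conjugate of `H` lies in `Q H` for an `H`-invariant subgroup `Q` of odd order.
Then `O(G) H` is normal (`H23.EC.main`).
-/

set_option autoImplicit false
set_option linter.unusedSectionVars false
open Cfsg BG Subgroup H22 H23.GW

namespace H23.EC
universe u
variable {G : Type u} [Group G] [Finite G] {H Q Q' A M : Subgroup G} {v w x y a g h : G}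

/-- every conjugate of `H` lies in `Q H` with `Q` of odd order -/
def St (H : Subgroup G) : Prop := ∀ g : G, ∃ Q : Subgroup G, ¬ 2 ∣ Nat.card Q ∧ H ≤ N_(Q) ∧ cj g H ≤ Q ⊔ H

theorem mem_of_odd (hH : IsPGroup 2 H) (hQ : ¬ 2 ∣ Nat.card Q) (hn : H ≤ N_(Q)) (hx : x ∈ Q ⊔ H)
    (ho : ¬ 2 ∣ orderOf x) : x ∈ Q :=
  (hall_sup_left (π := {2}ᶜ) ((isPi_compl Nat.prime_two).2 hQ)
    (by rw [compl_compl]; exact (isPi_singleton Nat.prime_two).2 hH) hn).elt_mem (sup_le_norm_left hn) hx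
    (fun p hp hd e => ho (by rw [Set.mem_singleton_iff.1 e] at hd; exact hd))

theorem eq_one_of_mem (hH : IsPGroup 2 H) (hQ : ¬ 2 ∣ Nat.card Q) (hx : x ∈ H) (hx' : x ∈ Q) : x = 1 :=
  eq_one_of_mem_of_disj (pg_inf_eq_bot Nat.prime_two hH hQ) hx hx'

theorem pow_cong (hn : h ∈ N_(Q)) (hx : x * h⁻¹ ∈ Q) (n : ℕ) : x ^ n * (h ^ n)⁻¹ ∈ Q := by
  induction n with
  | zero => simp
  | succ n ih =>
    have := mul_mem ih (conj_mem_of_norm (pow_mem hn n) hx)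
    rwa [show x ^ n * (h ^ n)⁻¹ * (h ^ n * (x * h⁻¹) * (h ^ n)⁻¹) = x ^ (n + 1) * (h ^ (n + 1))⁻¹ by
      rw [pow_succ, pow_succ']; group] at this

theorem pow_odd {m : ℕ} (h : x * x = 1) (hm : ¬ 2 ∣ m) : x ^ m = x := by
  obtain ⟨k, rfl⟩ := Nat.odd_iff.2 (Nat.two_dvd_ne_zero.1 hm)
  rw [pow_succ, pow_mul, sq, h, one_pow, one_mul]

/-- the colour of an involution of `Q H` -/
theorem colour (hH : IsPGroup 2 H) (hQ : ¬ 2 ∣ Nat.card Q) (hn : H ≤ N_(Q)) (hy : y ∈ Q ⊔ H) (h2 : y * y = 1) :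
    ∃ h ∈ H, h * h = 1 ∧ y * h⁻¹ ∈ Q := by
  obtain ⟨q, hq, h, hh, rfl⟩ := (mem_sup_norm hn).1 hy
  have h1 : q * h * h⁻¹ ∈ Q := by simpa using hq
  refine ⟨h, hh, ?_, h1⟩
  have := pow_cong (hn hh) h1 2
  rw [sq, h2, one_mul, sq] at this
  exact inv_eq_one.1 (eq_one_of_mem hH hQ (inv_mem (mul_mem hh hh)) this)

theorem odd_of_colour (hQ : ¬ 2 ∣ Nat.card Q) (hn : w ∈ N_(Q)) (hw : w * w = 1) (hy : y * w⁻¹ ∈ Q) :
    ¬ 2 ∣ orderOf (w * y) := by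
  have := conj_mem_of_norm hn hy
  rw [show w * (y * w⁻¹) * w⁻¹ = w * y * (w * w)⁻¹ by group, hw, inv_one, mul_one] at this
  exact odd_of_mem hQ this

theorem key (hH : IsPGroup 2 H) (hab : H ≤ C_(H)) (hA : ¬ 2 ∣ Nat.card A) (hHA : H ≤ N_(A)) (hAv : A ≤ C_[v])
    (hC : ∀ e ∈ C_[v], cj e H ≤ A ⊔ H) (hQ : ¬ 2 ∣ Nat.card Q) (hHQ : H ≤ N_(Q)) (hQ' : ¬ 2 ∣ Nat.card Q')
    (hHQ' : H ≤ N_(Q')) (hv : v ∈ H) (hv2 : v * v = 1) (hw : w ∈ H) (hw2 : w * w = 1) (hy2 : y * y = 1)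
    (hy : y ∈ Q ⊔ H) (ha : a ∈ A) (hy' : a * y * a⁻¹ ∈ Q' ⊔ H) (ho : ¬ 2 ∣ orderOf (w * y)) :
    ¬ 2 ∣ orderOf (w * (a * y * a⁻¹)) := by
  have cm : ∀ {b c : G}, b ∈ H → c ∈ H → b * c = c * b := fun hb hc => le_cent_iff.1 hab _ hb _ hc
  have sq2 : ∀ {b : G}, b ∈ H → b * b = 1 → v * b * (v * b) = 1 := fun {b} hb h2 => by
    rw [mul_assoc, ← mul_assoc b, ← cm hv hb, mul_assoc, h2, mul_one, hv2]
  have iv : v⁻¹ = v := inv_eq_of_mul_eq_one_right hv2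
  have iy : y⁻¹ = y := inv_eq_of_mul_eq_one_right hy2
  obtain ⟨c, hc⟩ : ∃ c, c = v * w := ⟨_, rfl⟩
  have hcH : c ∈ H := hc ▸ mul_mem hv hw
  have hc2 : c * c = 1 := hc ▸ sq2 hw hw2
  have ic : c⁻¹ = c := inv_eq_of_mul_eq_one_right hc2
  have h1 : v * y * c⁻¹ ∈ Q := by
    have := conj_mem_of_norm (hHQ hcH) (mem_of_odd hH hQ hHQ (mul_mem (mem_sup_right hw) hy) ho)
    rwa [show c * (w * y) = v * (w * w) * y by rw [hc]; group, hw2, mul_one] at this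
  obtain ⟨m, hm⟩ : ∃ m, m = orderOf (v * y * (v * y)) := ⟨_, rfl⟩
  have hmo : ¬ 2 ∣ m := by
    have := pow_cong (hHQ hcH) h1 2
    rw [sq, sq, hc2, inv_one, mul_one] at this
    exact hm ▸ odd_of_mem hQ this
  obtain ⟨z, hz⟩ : ∃ z, z = (v * y) ^ m := ⟨_, rfl⟩
  have hz2 : z * z = 1 := by rw [hz, ← (Commute.refl (v * y)).mul_pow, hm, pow_orderOf_eq_one]
  have iz : z⁻¹ = z := inv_eq_of_mul_eq_one_right hz2
  have hzv : z ∈ C_[v] := by
    have : v * z * v⁻¹ = z⁻¹ := by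
      rw [hz, ← conj_pow, ← inv_pow, mul_inv_rev, iy, iv, ← mul_assoc, hv2, one_mul]
    rw [iz] at this
    exact mem_cent1.2 (mul_inv_eq_iff_eq_mul.1 this).symm
  have h2 : z * c⁻¹ ∈ Q := by
    have := pow_cong (hHQ hcH) h1 m
    rwa [← hz, pow_odd hc2 hmo] at this
  have h3 : z * c⁻¹ ∈ A := by
    refine mem_of_sq_mem (odd_of_mem hQ h2) (mem_of_odd hH hA hHA ?_ (odd_of_mem hQ (mul_mem h2 h2)))
    have := mul_mem (hC z hzv (conj_mem_cj z hcH)) (mem_sup_right hcH)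
    rwa [iz, show z * c * z * c = z * c⁻¹ * (z * c⁻¹) by rw [ic]; group] at this
  obtain ⟨h, hh, hh2, h4⟩ := colour hH hQ' hHQ' hy' (by
    rw [show a * y * a⁻¹ * (a * y * a⁻¹) = a * (y * y) * a⁻¹ by group, hy2]; group)
  have h5 : a * z * a⁻¹ * (v * h)⁻¹ ∈ Q' := by
    have h6 : v * (a * y * a⁻¹) * (v * h)⁻¹ ∈ Q' := by
      have := conj_mem_of_norm (hHQ' hv) h4
      rwa [show v * (a * y * a⁻¹ * h⁻¹) * v⁻¹ = v * (a * y * a⁻¹) * (v * h)⁻¹ by group] at this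
    have := pow_cong (hHQ' (mul_mem hv hh)) h6 m
    rwa [pow_odd (sq2 hh hh2) hmo, show v * (a * y * a⁻¹) = a * (v * y) * a⁻¹ by
      rw [← mul_assoc, ← mul_assoc, ← mem_cent1.1 (hAv ha)]; group, conj_pow, ← hz] at this
  have h7 : a * z * a⁻¹ * c⁻¹ ∈ A := by
    have := mul_mem (mul_mem ha h3) (conj_mem_of_norm (hHA hcH) (inv_mem ha))
    rwa [show a * (z * c⁻¹) * (c * a⁻¹ * c⁻¹) = a * z * a⁻¹ * c⁻¹ by group] at this
  have h8 : c * (v * h)⁻¹ ∈ H := mul_mem hcH (inv_mem (mul_mem hv hh))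
  have h9 : a * z * a⁻¹ * (v * h)⁻¹ ∈ A := mem_of_odd hH hA hHA (by
    have := mul_mem (mem_sup_left h7 : _ ∈ A ⊔ H) (mem_sup_right h8)
    rwa [show a * z * a⁻¹ * c⁻¹ * (c * (v * h)⁻¹) = a * z * a⁻¹ * (v * h)⁻¹ by group] at this) (odd_of_mem hQ' h5)
  have h10 : c * (v * h)⁻¹ = 1 := eq_one_of_mem hH hA h8 (by
    have := mul_mem (inv_mem h7) h9
    rwa [show (a * z * a⁻¹ * c⁻¹)⁻¹ * (a * z * a⁻¹ * (v * h)⁻¹) = c * (v * h)⁻¹ by group] at this)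
  obtain rfl : w = h := mul_left_cancel (hc ▸ mul_inv_eq_one.1 h10)
  exact odd_of_colour hQ' (hHQ' hw) hw2 h4

/-- the elements preserving the colours -/
def TT (H : Subgroup G) : Subgroup G where
  carrier := {g | ∀ w ∈ H, w * w = 1 → ∀ u : G, ∀ y ∈ cj u H, y * y = 1 → ¬ 2 ∣ orderOf (w * y) →
    ¬ 2 ∣ orderOf (w * (g * y * g⁻¹))}
  one_mem' := fun w _ _ u y _ _ h => by simpa using h
  mul_mem' := fun {a b} ha hb w hw h2 u y hy hy2 h => by
    have := ha w hw h2 (b * u) (b * y * b⁻¹) (cj_cj b u H ▸ conj_mem_cj b hy) (by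
      rw [show b * y * b⁻¹ * (b * y * b⁻¹) = b * (y * y) * b⁻¹ by group, hy2]; group) (hb w hw h2 u y hy hy2 h)
    rwa [show a * (b * y * b⁻¹) * a⁻¹ = a * b * y * (a * b)⁻¹ by group] at this
  inv_mem' := fun {a} ha w hw h2 u y hy hy2 h => by
    have key : ∀ n : ℕ, ¬ 2 ∣ orderOf (w * (a ^ n * y * (a ^ n)⁻¹)) := fun n => by
      induction n with
      | zero => simpa using h
      | succ n ih =>
        have := ha w hw h2 (a ^ n * u) (a ^ n * y * (a ^ n)⁻¹) (cj_cj (a ^ n) u H ▸ conj_mem_cj _ hy) (by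
          rw [show a ^ n * y * (a ^ n)⁻¹ * (a ^ n * y * (a ^ n)⁻¹) = a ^ n * (y * y) * (a ^ n)⁻¹ by group, hy2]
          group) ih
        rwa [show a * (a ^ n * y * (a ^ n)⁻¹) * a⁻¹ = a ^ (n + 1) * y * (a ^ (n + 1))⁻¹ by
          rw [pow_succ']; group] at this
    have e : a ^ (orderOf a - 1) = a⁻¹ := eq_inv_of_mul_eq_one_left (by
      rw [← pow_succ, Nat.sub_add_cancel (orderOf_pos a), pow_orderOf_eq_one])
    exact e ▸ key (orderOf a - 1)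

theorem cent_le_TT : C_(H) ≤ TT H := fun g hg w hw _ u y _ _ h => by
  rwa [show w * (g * y * g⁻¹) = g * (w * y) * g⁻¹ by rw [← mul_assoc, ← mul_assoc, mem_cent.1 hg w hw]; group,
    BG.orderOf_conj]

theorem cent_le_TT' (hH : IsPGroup 2 H) (hab : H ≤ C_(H)) (hs : St H) (hv : v ∈ H) (hv2 : v * v = 1)
    (hC : ∀ e ∈ C_[v], cj e H ≤ oo C_[v] ⊔ H) (hQ : ¬ 2 ∣ Nat.card Q) (hn : H ≤ N_(Q)) : Q ⊓ C_[v] ≤ TT H := by
  have hHv : H ≤ C_[v] := hab.trans (cent_le_cent1 hv)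
  have hA : H ≤ N_(oo C_[v]) := hHv.trans (le_norm_pcore _ _)
  have h1 : oo C_[v] ≤ TT H := fun a ha w hw h2 u y hy hy2 h => by
    obtain ⟨Q, q1, q2, q3⟩ := hs u
    obtain ⟨Q', r1, r2, r3⟩ := hs (a * u)
    exact key hH hab (oo_odd _) hA (pcore_le _ _) hC q1 q2 r1 r2 hv hv2 hw h2 hy2 (q3 hy) ha
      (r3 (cj_cj a u H ▸ conj_mem_cj a hy)) h
  have hn' : H ≤ N_(Q ⊓ C_[v]) := norm_inf hn (norm_of_le hHv)
  rw [← coprime_comm_sup_cent hn' (pg_coprime Nat.prime_two hH (not_dvd_of_le hQ inf_le_left))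
    (Or.inl (pg_sol Nat.prime_two hH))]
  refine sup_le (le_trans (commutator_le.2 fun a ha b hb => ?_) h1) (inf_le_right.trans cent_le_TT)
  refine mem_of_odd hH (oo_odd _) hA (mul_mem (hC a ha.2 (conj_mem_cj a hb)) (mem_sup_right (inv_mem hb))) ?_
  exact odd_of_mem hQ (inf_le_left (b := C_[v]) (comm_le_left hn' (commutator_mem_commutator ha hb)))

theorem cj_le_TT (hH : IsPGroup 2 H) (hab : H ≤ C_(H)) (hs : St H)
    (hC : ∀ v ∈ H, orderOf v = 2 → ∀ e ∈ C_[v], cj e H ≤ oo C_[v] ⊔ H) (g : G) : cj g H ≤ TT H := by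
  by_cases h4 : ∃ v ∈ H, ∃ w ∈ H, Four v w
  · obtain ⟨v, hv, w, hw, hF⟩ := h4
    obtain ⟨Q, q1, q2, q3⟩ := hs g
    have k : ∀ x ∈ H, orderOf x = 2 → Q ⊓ C_[x] ≤ TT H := fun x hx h2 =>
      cent_le_TT' hH hab hs hx (sq1 h2) (hC x hx h2) q1 q2
    exact q3.trans (sup_le (hF.gen q1 (q2 hv) (q2 hw) (k v hv hF.ht) (k w hw hF.hv) (k _ (mul_mem hv hw) hF.hm))
      (hab.trans cent_le_TT))
  · intro a _ w hw h2 u y hy hy2 h
    obtain ⟨Q, q1, q2, q3⟩ := hs (a * u)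
    have e2 : a * y * a⁻¹ * (a * y * a⁻¹) = 1 := by
      rw [show a * y * a⁻¹ * (a * y * a⁻¹) = a * (y * y) * a⁻¹ by group, hy2]; group
    obtain ⟨k, hk, hk2, hk3⟩ := colour hH q1 q2 (q3 (cj_cj a u H ▸ conj_mem_cj a hy)) e2
    by_cases hw1 : w = 1
    · subst hw1
      rw [one_mul] at h ⊢
      rwa [BG.orderOf_conj]
    have hy1 : y ≠ 1 := by
      rintro rfl
      exact h (by rw [mul_one, ord2 h2 hw1])
    have hk1 : k ≠ 1 := by
      rintro rfl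
      rw [inv_one, mul_one] at hk3
      exact odd_of_mem q1 hk3 (by rw [BG.orderOf_conj, ord2 hy2 hy1])
    obtain rfl : w = k := by
      by_contra hne
      exact h4 ⟨w, hw, k, hk, ⟨ord2 h2 hw1, ord2 hk2 hk1, Ne.symm hne, le_cent_iff.1 hab _ hw _ hk⟩⟩
    exact odd_of_colour q1 (q2 hw) h2 hk3

theorem step (hH : IsPGroup 2 H) (hab : H ≤ C_(H)) (hs : St H) (hO : oddCore G = ⊥)
    (ih : ∀ M : Subgroup G, M ≠ ⊤ → H ≤ M → ∀ g ∈ M, cj g H ≤ oo M ⊔ H)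
    (hv : ∀ v ∈ H, orderOf v = 2 → C_[v] ≠ ⊤) (g : G) : cj g H ≤ H := by
  by_cases h0 : H = ⊥
  · rw [h0, cj_bot]
  obtain ⟨w, hw, h2⟩ := exists_orderOf_eq_prime Nat.prime_two (pg_dvd Nat.prime_two hH h0)
  obtain ⟨L, hL⟩ : ∃ L, L = normalClosure (H : Set G) := ⟨_, rfl⟩
  have : L.Normal := hL ▸ normalClosure_normal
  have hHL : H ≤ L := hL ▸ le_normalClosure
  have hLT : L ≤ TT H := by
    rw [hL]
    refine (closure_le _).2 fun x hx => ?_
    obtain ⟨y, hy, hc⟩ := Group.mem_conjugatesOfSet_iff.1 hx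
    obtain ⟨c, rfl⟩ := isConj_iff.1 hc
    exact cj_le_TT hH hab hs (fun v hv' h2 => ih _ (hv v hv' h2) (hab.trans (cent_le_cent1 hv'))) c (conj_mem_cj c hy)
  have hOL : H02.pPrimeCoreOf 2 L = ⊥ := eq_bot_mono hO (H02.pPrimeCoreOf_le_pPrimeCore L)
  have hLw : L ≤ C_[w] := fun a ha => by
    have := H08.zstar_in (hHL hw) (pg_zp2 h2) (fun b hb hc => by
      have h1 := hLT hb w hw (sq1 h2) 1 w (by simpa using hw) (sq1 h2) (by rw [sq1 h2]; simp)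
      have h3 : b * w * b⁻¹ * (b * w * b⁻¹) = 1 := by
        rw [show b * w * b⁻¹ * (b * w * b⁻¹) = b * (w * w) * b⁻¹ by group, sq1 h2]; group
      have h4 := eq_one_of_sq h1 (by rw [hc.symm.mul_mul_mul_comm, sq1 h2, h3, one_mul])
      exact (eq_inv_of_mul_eq_one_right h4).trans (inv2 h2)) ha
    rw [hOL, mem_bot, mul_inv_eq_one, mul_inv_eq_iff_eq_mul] at this
    exact mem_cent1.2 this
  have hLN : L ≤ N_(H) := fun a ha => mem_norm_of_cj_le (by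
    have := ih L (fun e => hv w hw h2 (top_le_iff.1 (e ▸ hLw))) hHL a ha
    rwa [← oo_eq, show (oddCore L).map L.subtype = ⊥ from hOL, bot_sup_eq] at this)
  obtain ⟨Q, q1, q2, q3⟩ := hs g
  exact (hall_sup_right (π := {2}) ((isPi_compl Nat.prime_two).2 q1) ((isPi_singleton Nat.prime_two).2 hH) q2).le_of_norm'
    ((isPi_singleton Nat.prime_two).2 (isPGroup_cj.2 hH)) q3
    ((cj_le_of_mem_norm hHL (by rw [normalizer_eq_top]; trivial)).trans hLN)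

theorem St.sub (hs : St H) (hM : H ≤ M) : St (H.subgroupOf M) := fun g => by
  obtain ⟨Q, q1, q2, q3⟩ := hs g
  have hn : H.subgroupOf M ≤ N_(Q.subgroupOf M) := le_norm_iff.2 fun a ha k hk =>
    mem_subgroupOf.2 (conj_mem_of_norm (q2 ha) hk)
  refine ⟨Q.subgroupOf M, fun h => q1 (h.trans (card_comap_dvd_of_injective Q M.subtype M.subtype_injective)), hn,
    fun x hx => ?_⟩
  obtain ⟨q, hq, k, hk, e⟩ := (mem_sup_norm q2).1 (q3 (x := x) (mem_cj.2 (mem_subgroupOf.1 (mem_cj.1 hx))))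
  exact (mem_sup_norm hn).2 ⟨x * (⟨k, hM hk⟩ : M)⁻¹, by
    rw [mem_subgroupOf]; simpa [← e] using hq, ⟨k, hM hk⟩, hk, by simp⟩

theorem St.map {G' : Type u} [Group G'] [Finite G'] (hs : St H) (f : G →* G') (hf : Function.Surjective f) :
    St (H.map f) := fun g => by
  obtain ⟨g, rfl⟩ := hf g
  obtain ⟨Q, q1, q2, q3⟩ := hs g
  refine ⟨Q.map f, fun h => q1 (h.trans (card_map_dvd Q f)), map_le_norm f q2, fun x hx => ?_⟩
  obtain ⟨_, ⟨k, hk, rfl⟩, rfl⟩ := mem_cj'.1 hx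
  rw [← Subgroup.map_sup, ← map_inv, ← map_mul, ← map_mul]
  exact mem_map_of_mem f (q3 (conj_mem_cj g hk))

theorem main (hH : IsPGroup 2 H) (hab : H ≤ C_(H)) (hs : St H) (g : G) : cj g H ≤ oddCore G ⊔ H := by
  induction hn : Nat.card G using Nat.strong_induction_on generalizing G with
  | _ n ih =>
  subst hn
  have hq : ∀ (N : Subgroup G) [N.Normal], N ≠ ⊥ → (∀ c : G, (c : G ⧸ N) ∈ oddCore (G ⧸ N) → c ∈ oddCore G ⊔ H) →
      cj g H ≤ oddCore G ⊔ H := fun N _ h1 h2 x hx => by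
    have hab' : H.map (QuotientGroup.mk' N) ≤ C_(H.map (QuotientGroup.mk' N)) := le_cent_iff.2 (by
      rintro _ ⟨a, ha, rfl⟩ _ ⟨b, hb, rfl⟩
      rw [← map_mul, ← map_mul, le_cent_iff.1 hab a ha b hb])
    have := ih _ (H02.card_quotient_lt h1) (hH.map _) hab' (hs.map _ (QuotientGroup.mk'_surjective N)) (g : G ⧸ N) rfl
      (x := (x : G ⧸ N)) (mem_cj.2 ⟨_, mem_cj.1 hx, rfl⟩)
    obtain ⟨o, ho, _, ⟨k, hk, rfl⟩, e⟩ := (mem_sup_norm le_normalizer_of_normal).1 this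
    have h3 := h2 (x * k⁻¹) (by
      rw [QuotientGroup.mk_mul, QuotientGroup.mk_inv, ← e]; simpa using ho)
    simpa using mul_mem h3 (mem_sup_right hk)
  by_cases hO : oddCore G = ⊥
  swap
  · refine hq _ hO fun c hc => mem_sup_left ?_
    rwa [show oddCore (G ⧸ oddCore G) = ⊥ from H02.pPrimeCore_quotient_pPrimeCore 2 G, mem_bot,
      QuotientGroup.eq_one_iff] at hc
  by_cases hv : ∀ v ∈ H, orderOf v = 2 → C_[v] ≠ ⊤
  · refine (step hH hab hs hO (fun M hM hHM a ha x hx => ?_) hv g).trans le_sup_right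
    have hxM : x ∈ M := cj_le_of_mem hHM ha hx
    have := ih _ (by rw [← card_top (G := G)]; exact card_lt (lt_top_iff_ne_top.2 hM)) (G := M)
      (hH.comap_subtype) (le_cent_iff.2 fun a ha b hb => Subtype.ext (le_cent_iff.1 hab _ ha _ hb)) (hs.sub hHM)
      ⟨a, ha⟩ rfl (x := ⟨x, hxM⟩) (mem_cj.2 (mem_subgroupOf.2 (mem_cj.1 hx)))
    obtain ⟨o, ho, k, hk, e⟩ := (mem_sup_norm le_normalizer_of_normal).1 this
    rw [← oo_eq, show x = o * k from (congrArg Subtype.val e).symm]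
    exact mul_mem (mem_sup_left (mem_map_of_mem _ ho)) (mem_sup_right hk)
  · push Not at hv
    obtain ⟨v, hv, h2, hc⟩ := hv
    have hz : zpowers v ≤ center G := zpowers_le.2 (mem_center_iff.2 fun a => mem_cent1.1 (hc ▸ mem_top a))
    have : (zpowers v).Normal := ⟨fun n hn g => by
      rw [mem_center_iff.1 (hz hn) g, mul_inv_cancel_right]; exact hn⟩
    exact hq _ (BG.zpowers_ne_bot (ne1 h2)) fun c hc =>
      mem_sup_right (zpowers_le.2 hv (H08.mem_of_mem_comap_core hO _ hz hc))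

theorem st_of_ec (hH : IsPGroup 2 H) (hab : H ≤ C_(H)) (h : IsExtremelyClosed H) : St H := fun g => by
  have : Fact (Nat.Prime 2) := ⟨Nat.prime_two⟩
  have h1 : (H ⊔ cj g H) ⊓ N_(H) = H := h g
  have hS : IsSylowIn 2 H (H ⊔ cj g H) := IsSylowIn.of_norm_le (sylow_self Nat.prime_two hH) Nat.prime_two le_sup_left h1.le
  have := H01.sdprod_of_hasNPC hS (by
    obtain ⟨P, hP⟩ := IsSylowIn.exists_sylow hS Nat.prime_two
    refine H03.hasNPC_of_normalizer_le_centralizer P fun x hx y hy => Subtype.ext ?_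
    have hx' : (x : G) ∈ H := h1.le ⟨x.2, (congrArg (fun X : Subgroup G => N_(X)) hP).le
      (le_normalizer_map _ (mem_map_of_mem _ hx))⟩
    exact le_cent_iff.1 hab _ (hP.le (mem_map_of_mem _ hy)) _ hx')
  exact ⟨_, pcore_not_dvd Nat.prime_two _, le_sup_left.trans (le_norm_pcore _ _), le_sup_right.trans this.sup.ge⟩

theorem norm_sup (hH : IsPGroup 2 H) (hab : H ≤ C_(H)) (hs : St H) : N_(H) ⊔ oddCore G = ⊤ := by
  have hn : H ≤ N_(oddCore G) := le_normalizer_of_normal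
  have hS : IsSylowIn 2 H (oddCore G ⊔ H) :=
    hall_sup_right (π := {2}) ((isPi_compl Nat.prime_two).2 (H02.not_dvd_card_pPrimeCore Nat.prime_two))
      ((isPi_singleton Nat.prime_two).2 hH) hn
  have := sylow_frattini (M := ⊤) Nat.prime_two hS le_top (le_norm_of_cj_le fun a _ => by
    rw [cj_sup]; exact sup_le ((cj_of_mem_norm (by rw [normalizer_eq_top]; trivial)).le.trans le_sup_left)
      (main hH hab hs a))
  rw [← this, top_inf_eq]
  exact le_antisymm (sup_le le_sup_right (le_sup_left.trans le_sup_left))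
    (sup_le (sup_le le_sup_right ((le_norm H).trans le_sup_left)) le_sup_left)

end H23.EC
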