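import Mathlib
import Cfsg.Agent.BG.Api3

/-!
# Fusion induced from a subgroup (`H23.FP`)
* `Ind H P g`: conjugation by `g` on `P` is induced by an element of `H`
* `alperin`, `exists_bad`: a fully normalised `U` with an automorphism not induced from `H`, extremal
* `exists_pair`: two elements of a class-closed set `D` with `N(R) ≤ M` for a Sylow subgroup `R` of `⟨d, e⟩`
-/

set_option autoImplicit false
open Cfsg BG Subgroup

namespace H23.FP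
universe u
variable {p : ℕ} {G : Type u} [Group G] {H K P Q S : Subgroup G} {g : G}

/-- conjugation by `g` on `P` is induced by an element of `H` -/
def Ind (H P : Subgroup G) (g : G) : Prop := ∃ h ∈ H, ∀ a ∈ P, g * a * g⁻¹ = h * a * h⁻¹

theorem Ind.of_mem (h : g ∈ H) : Ind H P g := ⟨g, h, fun _ _ => rfl⟩

theorem Ind.mono (h : Ind H P g) (hQ : Q ≤ P) : Ind H Q g := let ⟨x, hx, e⟩ := h; ⟨x, hx, fun a ha => e a (hQ ha)⟩

theorem Ind.of_cent (h : g ∈ C_(P)) : Ind H P g := ⟨1, one_mem _, fun a ha => by rw [← mem_cent.1 h a ha]; group⟩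

theorem Ind.mul {a b : G} (ha : Ind H P a) (hb : Ind H (cj a P) b) : Ind H P (b * a) := by
  obtain ⟨x, hx, e⟩ := ha
  obtain ⟨y, hy, f⟩ := hb
  refine ⟨y * x, mul_mem hy hx, fun c hc => ?_⟩
  calc b * a * c * (b * a)⁻¹ = b * (a * c * a⁻¹) * b⁻¹ := by group
    _ = y * (x * c * x⁻¹) * y⁻¹ := by rw [f _ (conj_mem_cj a hc), e c hc]
    _ = _ := by group

theorem Ind.inv {a : G} (ha : Ind H P a) : Ind H (cj a P) a⁻¹ := by
  obtain ⟨x, hx, e⟩ := ha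
  refine ⟨x⁻¹, inv_mem hx, fun c hc => ?_⟩
  obtain ⟨d, hd, rfl⟩ := mem_cj'.1 hc
  calc a⁻¹ * (a * d * a⁻¹) * a⁻¹⁻¹ = x⁻¹ * (x * d * x⁻¹) * x⁻¹⁻¹ := by group
    _ = _ := by rw [e d hd]

/-- the elements of `N(U)` induced from `H` -/
def indSub (H U : Subgroup G) : Subgroup G where
  carrier := {g | g ∈ N_(U) ∧ Ind H U g}
  one_mem' := ⟨one_mem _, Ind.of_mem (one_mem _)⟩
  mul_mem' := fun ha hb => ⟨mul_mem ha.1 hb.1, hb.2.mul (by rw [cj_of_mem_norm hb.1]; exact ha.2)⟩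
  inv_mem' := fun ha => ⟨inv_mem ha.1, by have := ha.2.inv; rwa [cj_of_mem_norm ha.1] at this⟩

theorem mem_indSub {U : Subgroup G} : g ∈ indSub H U ↔ g ∈ N_(U) ∧ Ind H U g := Iff.rfl

variable [Finite G]

theorem Ind.of_mul (hp : p.Prime) (hS : IsSylowIn p S ⊤) (hH : S ≤ H) (hK : S ≤ K)
    (ih : ∀ P ≤ S, ∀ g ∈ K, cj g P ≤ S → Ind H P g) (hP : P ≤ S) {h c : G} (hh : h ∈ H) (hc : c ∈ K)
    (e : cj (h * c) P ≤ S) : Ind H P (h * c) := by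
  have h1 : cj c P ≤ H ⊓ K := by
    refine le_inf ?_ (cj_le_of_mem (hP.trans hK) hc)
    rw [← cj_cj, cj_le_iff] at e
    exact e.trans (cj_le_of_mem hH (inv_mem hh))
  obtain ⟨k, hk, h2⟩ := sylow_Jsub hp (hS.sub (le_inf hH hK) le_top)
    (isPGroup_cj.2 (pg_le (IsSylowIn.pg hS hp) hP)) h1
  rw [cj_cj] at h2
  have := (ih P hP _ (mul_mem hk.2 hc) h2).mul (Ind.of_mem (mul_mem hh (inv_mem hk.1)))
  rwa [show h * k⁻¹ * (k * c) = h * c by group] at this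

theorem exists_full (hp : p.Prime) (hS : IsSylowIn p S ⊤) (hP : P ≤ S) :
    ∃ T y, IsSylowIn p T N_(P) ∧ S ⊓ N_(P) ≤ T ∧ cj y T = S ⊓ N_(cj y P) ∧ cj y P ≤ S ∧
      IsSylowIn p (S ⊓ N_(cj y P)) N_(cj y P) := by
  have hSp := IsSylowIn.pg hS hp
  obtain ⟨T, hT, h1⟩ := sylow_superset hp (pg_le hSp (inf_le_left : S ⊓ N_(P) ≤ S)) inf_le_right
  obtain ⟨y, -, hy⟩ := sylow_Jsub hp hS (IsSylowIn.pg hT hp) le_top
  have h2 : IsSylowIn p (cj y T) N_(cj y P) := by rw [← cj_norm]; exact hT.cj y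
  have h3 : S ⊓ N_(cj y P) = cj y T :=
    IsSylowIn.eq_of_pg h2 hp (pg_le hSp inf_le_left) (le_inf hy h2.le) inf_le_right
  exact ⟨T, y, hT, h1, h3.symm, (cj_mono y ((le_inf hP (le_norm P)).trans h1)).trans hy, h3 ▸ h2⟩

theorem alperin (hp : p.Prime) (hS : IsSylowIn p S ⊤) {n : ℕ}
    (h : ∀ D ≤ S, n ≤ Nat.card D → IsSylowIn p (S ⊓ N_(D)) N_(D) → ∀ g ∈ N_(D), Ind H D g) (P : Subgroup G) :
    P ≤ S → n ≤ Nat.card P → ∀ g, cj g P ≤ S → Ind H P g := by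
  have hSp := IsSylowIn.pg hS hp
  induction' hk : Nat.card S - Nat.card P using Nat.strong_induction_on with k ih generalizing P
  intro hP hn g hg
  by_cases e : P = S
  · subst e
    exact h P le_rfl hn (by rw [inf_eq_left.2 (le_norm P)]; exact hS.sub (le_norm P) le_top) g (mem_norm_of_cj_le hg)
  have key : ∀ Q : Subgroup G, Q ≤ S → Nat.card Q = Nat.card P → ∀ w, cj w (S ⊓ N_(Q)) ≤ S → Ind H Q w := by
    intro Q hQ hc w hw
    have hlt : Q < S := lt_of_le_of_ne hQ fun e' => e (eq_of_le_of_card_le hP (by rw [← hc, e']))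
    have h1 := nil_lt_norm (pg_nil hp hSp) hlt
    have h2 := card_lt h1
    have h3 : Nat.card ↥(S ⊓ N_(Q)) ≤ Nat.card S := BG.card_le inf_le_left
    exact (ih _ (by omega) _ rfl inf_le_left (by omega) w hw).mono h1.le
  obtain ⟨T, y, hT, h1, h2, h3, h4⟩ := exists_full hp hS hP
  obtain ⟨T', hT', h5⟩ := sylow_superset hp (pg_le hSp (inf_le_left : S ⊓ N_(cj g P) ≤ S)) inf_le_right
  have h6 : IsSylowIn p (cj g⁻¹ T') N_(P) := by
    have := hT'.cj g⁻¹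
    rwa [cj_norm, cj_inv_cj] at this
  obtain ⟨m, hm, h7⟩ := sylow_trans hp h6 hT
  have i1 := key P hP rfl y ((cj_mono y h1).trans (h2.le.trans inf_le_left))
  have i2 := key (cj g P) hg (card_cj _ _) (y * m * g⁻¹) (by
    refine (cj_mono _ h5).trans ?_
    rw [← cj_cj, ← cj_cj, ← h7, h2]; exact inf_le_left)
  have hn' : y * m * y⁻¹ ∈ N_(cj y P) := by rw [← cj_norm]; exact conj_mem_cj y hm
  have i3 := h _ h3 (by rwa [card_cj]) h4 _ hn'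
  have i4 := i2.inv
  rw [cj_cj, show y * m * g⁻¹ * g = y * m * y⁻¹ * y by group] at i4
  have := (i1.mul i3).mul i4
  rwa [show (y * m * g⁻¹)⁻¹ * (y * m * y⁻¹ * y) = g by group] at this

theorem exists_bad (hp : p.Prime) (hS : IsSylowIn p S ⊤) (hN : N_(S) ≤ H) (hP : P ≤ S) (hg : cj g P ≤ S)
    (hb : ¬ Ind H P g) : ∃ U ≤ S, IsSylowIn p (S ⊓ N_(U)) N_(U) ∧ ¬ N_(U) ≤ indSub H U ∧
      ∀ D ≤ S, (Nat.card ↥(S ⊓ N_(U)) < Nat.card ↥(S ⊓ N_(D)) ∨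
        (Nat.card ↥(S ⊓ N_(U)) ≤ Nat.card ↥(S ⊓ N_(D)) ∧ Nat.card U < Nat.card D)) → ∀ g ∈ N_(D), Ind H D g := by
  have hSp := IsSylowIn.pg hS hp
  obtain ⟨B, hB⟩ : ∃ B : Set (Subgroup G), B = {D | D ≤ S ∧ IsSylowIn p (S ⊓ N_(D)) N_(D) ∧ ¬ N_(D) ≤ indSub H D} :=
    ⟨_, rfl⟩
  have hne : B.Nonempty := by
    by_contra e
    refine hb (alperin (n := 0) hp hS (fun D hD _ h1 g hg => ?_) P hP (Nat.zero_le _) g hg)
    by_contra e'
    exact e ⟨D, hB ▸ ⟨hD, h1, fun h => e' (h hg).2⟩⟩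
  obtain ⟨U, hU, hm⟩ := Set.exists_max_image B
    (fun D => toLex (Nat.card ↥(S ⊓ N_(D)), Nat.card D)) (Set.toFinite _) hne
  have hm' : ∀ D ≤ S, IsSylowIn p (S ⊓ N_(D)) N_(D) → (Nat.card ↥(S ⊓ N_(U)) < Nat.card ↥(S ⊓ N_(D)) ∨
      (Nat.card ↥(S ⊓ N_(U)) ≤ Nat.card ↥(S ⊓ N_(D)) ∧ Nat.card U < Nat.card D)) → ∀ g ∈ N_(D), Ind H D g := by
    intro D hD h1 h2 g hg
    by_contra e
    have := Prod.Lex.toLex_le_toLex.1 (hm D (hB ▸ ⟨hD, h1, fun h => e (h hg).2⟩))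
    simp only at this
    omega
  rw [hB] at hU
  refine ⟨U, hU.1, hU.2.1, hU.2.2, fun D hD h1 g hg => ?_⟩
  have f1 := alperin (H := H) (n := Nat.card ↥(S ⊓ N_(U))) hp hS (fun D hD h2 h3 g hg => by
    by_cases e : D = S
    · exact Ind.of_mem (hN (e ▸ hg))
    · exact hm' D hD h3 (Or.inl (h2.trans_lt (card_lt (nil_lt_norm (pg_nil hp hSp) (lt_of_le_of_ne hD e))))) g hg)
  obtain ⟨T, y, -, h2, h3, h4, h5⟩ := exists_full hp hS hD
  have h6 : Nat.card ↥(S ⊓ N_(D)) ≤ Nat.card ↥(S ⊓ N_(cj y D)) := by rw [← h3, card_cj]; exact BG.card_le h2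
  have i1 := (f1 _ inf_le_left (by omega) y ((cj_mono y h2).trans (h3.le.trans inf_le_left))).mono
    (le_inf hD (le_norm D))
  have hn' : y * g * y⁻¹ ∈ N_(cj y D) := by rw [← cj_norm]; exact conj_mem_cj y hg
  have i3 := hm' _ h4 h5 (by rw [card_cj]; omega) _ hn'
  have i4 := i1.inv
  rw [show cj y D = cj (y * g * y⁻¹ * y) D by rw [← cj_cj, cj_of_mem_norm hn']] at i4
  have := (i1.mul i3).mul i4
  rwa [show y⁻¹ * (y * g * y⁻¹ * y) = g by group] at this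

theorem exists_norm_elt (hp : p.Prime) {T A : Subgroup G} (hT : IsPGroup p T) {D : Set G}
    (hD : ∀ x ∈ T, ∀ d ∈ D, x * d * x⁻¹ ∈ D) (hA : A ≤ T) (hA' : A ≤ closure (D ∩ A))
    (hne : ¬ closure (D ∩ T) ≤ A) : ∃ d ∈ D, d ∈ T ∧ d ∉ A ∧ d ∈ N_(A) := by
  obtain ⟨P, ⟨h1, h2, h3⟩, hm⟩ := Set.exists_max_image {P : Subgroup G | A ≤ P ∧ P ≤ T ∧ ∀ d ∈ D, d ∈ P → d ∈ A}
    (fun P => Nat.card P) (Set.toFinite _) ⟨A, le_rfl, hA, fun _ _ h => h⟩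
  have h4 := nil_lt_norm (pg_nil hp hT) (lt_of_le_of_ne h2 fun e => hne ((closure_le _).2 fun d hd =>
    h3 d hd.1 (e ▸ hd.2)))
  by_contra e
  push Not at e
  refine absurd (hm (T ⊓ N_(P)) ⟨h1.trans h4.le, inf_le_left, fun d hd hd' => ?_⟩) (not_le.2 (card_lt h4))
  by_contra e'
  refine e d hd hd'.1 e' (mem_norm_of_cj_le (cj_le_iff.2 (hA'.trans ((closure_le _).2 fun a ha => ?_))))
  exact mem_cj_inv.2 (h3 _ (hD d hd'.1 a ha.1) (conj_mem_of_norm hd'.2 (h1 ha.2)))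

theorem exists_pair (hp : p.Prime) {X M T : Subgroup G} (hT : IsSylowIn p T X) (hTM : T ≤ M) (hMX : M ≤ X)
    (hne : ¬ X ≤ M) {D : Set G} (hD : ∀ x ∈ X, ∀ d ∈ D, x * d * x⁻¹ ∈ D) (hN : X ⊓ N_(closure (D ∩ T)) ≤ M) :
    ∃ d ∈ D, ∃ e ∈ D, ∃ R, d ∈ R ∧ e ∈ X ∧ e ∉ M ∧ R ≤ T ∧ IsSylowIn p R (closure {d, e}) ∧
      closure {d, e} ⊓ N_(R) ≤ M := by
  have hTp := IsSylowIn.pg hT hp
  have hTM' : IsSylowIn p T M := hT.sub hTM hMX
  have gen : ∀ A : Subgroup G, A ≤ closure (D ∩ A) → ∀ x ∈ X, cj x A ≤ closure (D ∩ cj x A) := fun A hA x hx =>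
    cj_le_iff.2 (hA.trans ((closure_le _).2 fun a ha =>
      mem_cj_inv.2 (subset_closure ⟨hD x hx a ha.1, conj_mem_cj x ha.2⟩)))
  obtain ⟨y₀, hy₀, hy₀'⟩ := SetLike.not_le_iff_exists.1 hne
  obtain ⟨A, ⟨h1, h2, y, hy, hyM, h3⟩, hm⟩ := Set.exists_max_image
    {A : Subgroup G | A ≤ T ∧ A ≤ closure (D ∩ A) ∧ ∃ y ∈ X, y ∉ M ∧ cj y A ≤ M}
    (fun P => Nat.card P) (Set.toFinite _) ⟨⊥, bot_le, bot_le, y₀, hy₀, hy₀', by simp⟩
  have uq : ∀ A' : Subgroup G, IsPGroup p A' → A' ≤ closure (D ∩ A') → Nat.card A < Nat.card A' →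
      ∀ x ∈ X, ∀ z ∈ X, cj x A' ≤ M → cj z A' ≤ M → z * x⁻¹ ∈ M := by
    intro A' k1 k2 k3 x hx z hz k4 k5
    obtain ⟨m, hm', k6⟩ := sylow_Jsub hp hTM' (isPGroup_cj.2 k1) k4
    rw [cj_cj] at k6
    have hmx := mul_mem (hMX hm') hx
    by_contra e
    have := hm (cj (m * x) A') ⟨k6, gen A' k2 _ hmx, z * (m * x)⁻¹, mul_mem hz (inv_mem hmx), fun h => e (by
      have := mul_mem h hm'; rwa [show z * (m * x)⁻¹ * m = z * x⁻¹ by group] at this), by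
        rwa [cj_cj, inv_mul_cancel_right]⟩
    simp only [card_cj] at this
    omega
  have nW : ∀ A' : Subgroup G, A' ≤ T → ∀ y ∈ X, y ∉ M → cj y A' ≤ M → ¬ closure (D ∩ T) ≤ A' := by
    intro A' k1 y hy k2 k3 k4
    have k5 : closure (D ∩ T) ≤ T := (closure_le _).2 fun _ h => h.2
    obtain ⟨m, hm', k6⟩ := sylow_Jsub hp hTM' (isPGroup_cj.2 (pg_le hTp k5)) ((cj_mono y k4).trans k3)
    rw [cj_cj] at k6
    have hmx := mul_mem (hMX hm') hy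
    have := hN ⟨hmx, mem_norm_of_cj_le ((gen _ ((closure_le _).2 fun a ha => subset_closure ⟨ha.1, subset_closure ha⟩) _
      hmx).trans (closure_mono fun a ha => ⟨ha.1, k6 ha.2⟩))⟩
    exact k2 ((M.mul_mem_cancel_left hm').1 this)
  have ext : ∀ d ∈ D, d ∉ A → A ⊔ zpowers d ≤ closure (D ∩ (A ⊔ zpowers d : Subgroup G)) ∧
      Nat.card A < Nat.card ↥(A ⊔ zpowers d) := fun d hd hdA =>
    ⟨sup_le (h2.trans (closure_mono fun a ha => ⟨ha.1, mem_sup_left ha.2⟩))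
      (zpowers_le.2 (subset_closure ⟨hd, mem_sup_right (mem_zpowers d)⟩)),
      card_lt (lt_of_le_of_ne le_sup_left fun e => hdA (e ▸ mem_sup_right (mem_zpowers d)))⟩
  have hD' : ∀ x ∈ T, ∀ d ∈ D, x * d * x⁻¹ ∈ D := fun x hx => hD x (hT.le hx)
  obtain ⟨d, hd, hdT, hdA, hdN⟩ := exists_norm_elt hp hTp hD' h1 h2 (nW A h1 y hy hyM h3)
  obtain ⟨m, hm', k6⟩ := sylow_Jsub hp hTM' (isPGroup_cj.2 (pg_le hTp h1)) h3
  rw [cj_cj] at k6
  obtain ⟨z, hz⟩ : ∃ z, z = m * y := ⟨_, rfl⟩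
  rw [← hz] at k6
  have hzX : z ∈ X := hz ▸ mul_mem (hMX hm') hy
  have hzM : z ∉ M := fun h => hyM ((M.mul_mem_cancel_left hm').1 (hz ▸ h))
  obtain ⟨e', he', heT, heA, heN⟩ := exists_norm_elt hp hTp hD' k6 (gen A h2 z hzX)
    (nW _ k6 z⁻¹ (inv_mem hzX) (fun h => hzM (inv_mem_iff.1 h)) (by rw [cj_inv_cj]; exact h1.trans hTM))
  obtain ⟨e, he⟩ : ∃ e, e = z⁻¹ * e' * z := ⟨_, rfl⟩
  have heD : e ∈ D := by have := hD _ (inv_mem hzX) _ he'; rwa [inv_inv, ← he] at this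
  have heX : e ∈ X := he ▸ mul_mem (mul_mem (inv_mem hzX) (hT.le heT)) hzX
  have heA' : e ∉ A := fun h => heA (mem_cj.2 (he ▸ h))
  have heN' : e ∈ N_(A) := by rw [← cj_norm, mem_cj, ← he] at heN; exact heN
  have h4 : cj z (A ⊔ zpowers e) ≤ T := by
    rw [cj_sup, cj_zpowers, he, show z * (z⁻¹ * e' * z) * z⁻¹ = e' by group]
    exact sup_le k6 (zpowers_le.2 heT)
  have heM : e ∉ M := fun h => hzM (by
    simpa using uq _ (isPGroup_cj.1 (pg_le hTp h4)) (ext e heD heA').1 (ext e heD heA').2 1 (one_mem _) z hzX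
      (by rw [cj_one]; exact sup_le (h1.trans hTM) (zpowers_le.2 h)) (h4.trans hTM))
  have hH : closure {d, e} ≤ X ⊓ N_(A) := (closure_le _).2 (by
    rintro _ (rfl | rfl)
    exacts [⟨hT.le hdT, hdN⟩, ⟨heX, heN'⟩])
  obtain ⟨R, hR, hdR⟩ := sylow_superset hp (pg_le hTp (zpowers_le.2 hdT))
    (zpowers_le.2 (subset_closure (Set.mem_insert d {e})))
  have hAR : IsPGroup p ↥(A ⊔ R) := pg_sup (pg_le hTp h1) (IsSylowIn.pg hR hp) (hR.le.trans (hH.trans inf_le_right))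
  have u1 : ∀ x ∈ X, cj x (A ⊔ zpowers d) ≤ M → x ∈ M := fun x hx h => by
    simpa using uq _ (pg_le hAR (sup_le_sup_left hdR A)) (ext d hd hdA).1 (ext d hd hdA).2 1 (one_mem _) x hx
      (by rw [cj_one]; exact sup_le (h1.trans hTM) (zpowers_le.2 (hTM hdT))) h
  obtain ⟨x, hx, h5⟩ := sylow_Jsub hp hT hAR (sup_le (h1.trans hT.le) (hR.le.trans (hH.trans inf_le_left)))
  have hxM := u1 x hx ((cj_mono x (sup_le_sup_left hdR A)).trans (h5.trans hTM))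
  have hARM : A ⊔ R ≤ M := by
    have := cj_le_of_mem (h5.trans hTM) (inv_mem hxM)
    rwa [cj_inv_cj] at this
  have hc : closure {x * d * x⁻¹, x * e * x⁻¹} = cj x (closure {d, e}) := by
    rw [cj_eq_map, MonoidHom.map_closure, Set.image_pair]; rfl
  refine ⟨_, hD x hx d hd, _, hD x hx e heD, cj x R, conj_mem_cj x (hdR (mem_zpowers d)),
    mul_mem (mul_mem hx heX) (inv_mem hx), fun h => heM ?_, (cj_mono x le_sup_right).trans h5, hc ▸ hR.cj x, ?_⟩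
  · exact (M.mul_mem_cancel_left hxM).1 ((M.mul_mem_cancel_right (inv_mem hxM)).1 h)
  · rw [hc, ← cj_norm, ← cj_inf]
    refine cj_le_of_mem (fun n hn => u1 n (hH hn.1).1 ((cj_mono n (sup_le_sup_left hdR A)).trans ?_)) hxM
    rw [cj_sup, cj_of_mem_norm (hH hn.1).2, cj_of_mem_norm hn.2]
    exact hARM

end H23.FP
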