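import Mathlib
import Cfsg.Agent.H23.FP1
import Cfsg.Agent.H17.Quad
import Cfsg.Agent.H17.Sec

/-!
# Two quadratic elements: a plane over the prime field on which a Borel subgroup of `SL₂(p)` is induced
* `H23.FP.plane`, `H23.FP.cert`, `H23.FP.sec_f`, `H23.FP.eigen`
-/

set_option autoImplicit false
open Cfsg BG Subgroup Matrix H17 H09
open scoped MatrixGroups

namespace H23.FP
universe u
variable {p : ℕ} [hp : Fact p.Prime] {G : Type u} [Group G] [Finite G]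

theorem exists_dual {A : Type*} [CommGroup A] (h : ∀ a : A, a ^ p = 1) {v : A} (hv : v ≠ 1) :
    ∃ φ : A → ZMod p, (∀ a b, φ (a * b) = φ a + φ b) ∧ φ v ≠ 0 := by
  have : NeZero p := ⟨hp.out.ne_zero⟩
  have key : ∀ [Module (ZMod p) (Additive A)], ∃ φ : A → ZMod p, (∀ a b, φ (a * b) = φ a + φ b) ∧ φ v ≠ 0 := by
    intro _
    by_contra e
    push Not at e
    exact hv ((Module.forall_dual_apply_eq_zero_iff (ZMod p) (Additive.ofMul v)).1 fun φ =>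
      e (fun a => φ (Additive.ofMul a)) fun a b => map_add φ _ _)
  exact @key (AddCommGroup.zmodModule fun x => h x.toMul)

omit [Finite G] in
theorem exists_fun {K : Type*} [Field K] [Algebra (ZMod p) K] {V : Subgroup G} (hV : IsMulCommutative V)
    (hVp : ∀ a ∈ V, a ^ p = 1) {v : G} (hv : v ∈ V) (h1 : v ≠ 1) :
    ∃ f : G → K, (∀ a ∈ V, ∀ b ∈ V, f (a * b) = f a + f b) ∧ (∀ a, a ∉ V → f a = 0) ∧ f v ≠ 0 := by
  classical
  obtain ⟨φ, h2, hφ⟩ := @exists_dual p _ V { (inferInstance : Group V) with mul_comm := hV.1.1 }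
    (fun a => Subtype.ext (hVp _ a.2)) ⟨v, hv⟩ fun h => h1 (congrArg Subtype.val h)
  refine ⟨fun x => if h : x ∈ V then algebraMap _ K (φ ⟨x, h⟩) else 0, fun a ha b hb => ?_,
    fun a ha => dif_neg ha, ?_⟩
  · simp only [dif_pos ha, dif_pos hb, dif_pos (mul_mem ha hb)]
    rw [← map_add, ← h2]; rfl
  · simpa [dif_pos hv] using hφ

theorem plane {K : Type*} [Field K] [IsAlgClosed K] [Algebra (ZMod p) K] {V : Subgroup G} {d e : G}
    (hN : closure {d, e} ≤ N_(V)) (hV : IsMulCommutative V) (hVp : ∀ a ∈ V, a ^ p = 1)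
    (hq : ∀ x ∈ ({d, e} : Set G), ∀ v ∈ V, x⁻¹ * (x⁻¹ * v * x * v⁻¹) * x = x⁻¹ * v * x * v⁻¹) :
    (∀ g ∈ closure {d, e}, ∃ n, g ^ p ^ n ∈ C_(V)) ∨
      ∃ (l : K) (φ : closure {d, e} →* SL(2, K)) (π : G → Fin 2 → K), l ≠ 0 ∧
        (∀ h, φ ⟨d, h⟩ = up l) ∧ (∀ h, φ ⟨e, h⟩ = lo 1) ∧ (∀ a ∈ V, ∀ b ∈ V, π (a * b) = π a + π b) ∧
        (∃ v ∈ V, π v ≠ 0) ∧ ∀ g : closure {d, e}, ∀ v ∈ V,
          π (g * v * (g : G)⁻¹) = (φ g : Matrix (Fin 2) (Fin 2) K) *ᵥ π v := by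
  have : CharP K p := charP_of_injective_algebraMap (algebraMap (ZMod p) K).injective p
  let W : Submodule K (G → K) :=
    { carrier := {f | (∀ a ∈ V, ∀ b ∈ V, f (a * b) = f a + f b) ∧ ∀ a, a ∉ V → f a = 0}
      add_mem' := fun {f g} hf hg => ⟨fun a ha b hb => by
        simp only [Pi.add_apply, hf.1 a ha b hb, hg.1 a ha b hb]; ring, fun a ha => by simp [hf.2 a ha, hg.2 a ha]⟩
      zero_mem' := ⟨by simp, by simp⟩
      smul_mem' := fun c f hf => ⟨fun a ha b hb => by simp only [Pi.smul_apply, hf.1 a ha b hb, smul_add],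
        fun a ha => by simp [hf.2 a ha]⟩ }
  have hc : ∀ g : closure {d, e}, ∀ v ∈ V, (g : G)⁻¹ * v * g ∈ V := fun g v hv => conj_mem_of_norm' (hN g.2) hv
  let ρ : closure {d, e} →* Module.End K W :=
    { toFun := fun g =>
        { toFun := fun f => ⟨fun x => f.1 ((g : G)⁻¹ * x * g), fun a ha b hb => by
              rw [← f.2.1 _ (hc g a ha) _ (hc g b hb)]; congr 1; group,
            fun a ha => f.2.2 _ fun h => ha (by simpa [mul_assoc] using conj_mem_of_norm (hN g.2) h)⟩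
          map_add' := fun _ _ => rfl
          map_smul' := fun _ _ => rfl }
      map_one' := by ext f x; simp
      map_mul' := fun a b => by ext f x; simp [mul_assoc] }
  have hρ : ∀ g (f : W) x, (ρ g f).1 x = f.1 ((g : G)⁻¹ * x * g) := fun _ _ _ => rfl
  have hsub : ∀ f : W, ∀ a ∈ V, ∀ b ∈ V, f.1 (a * b⁻¹) = f.1 a - f.1 b := fun f a ha b hb => by
    have := f.2.1 _ (mul_mem ha (inv_mem hb)) _ hb
    rw [inv_mul_cancel_right] at this
    rw [this]; ring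
  have hext : ∀ f g : W, (∀ v ∈ V, f.1 v = g.1 v) → f = g := fun f g h => Subtype.ext (funext fun x => by
    by_cases hx : x ∈ V
    exacts [h x hx, (f.2.2 x hx).trans (g.2.2 x hx).symm])
  have hquad : ∀ x ∈ ({d, e} : Set G), ∀ h, (ρ ⟨x, h⟩ - 1) * (ρ ⟨x, h⟩ - 1) = 0 := fun x hx h => by
    have h1 : ∀ f : W, ∀ v ∈ V, ((ρ ⟨x, h⟩ - 1) f).1 v = f.1 (x⁻¹ * v * x * v⁻¹) := fun f v hv =>
      (hsub f _ (hc ⟨x, h⟩ v hv) v hv).symm
    refine LinearMap.ext fun f => hext _ _ fun v hv => ?_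
    rw [Module.End.mul_apply, h1 _ v hv, h1 f _ (mul_mem (hc ⟨x, h⟩ v hv) (inv_mem hv)), hq x hx v hv,
      hsub f _ (mul_mem (hc ⟨x, h⟩ v hv) (inv_mem hv)) _ (mul_mem (hc ⟨x, h⟩ v hv) (inv_mem hv)), sub_self]
    rfl
  have hd : d ∈ closure {d, e} := subset_closure (by simp)
  have he : e ∈ closure {d, e} := subset_closure (by simp)
  have hgen : closure ({⟨d, hd⟩, ⟨e, he⟩} : Set (closure {d, e})) = ⊤ := by
    rw [← closure_closure_coe_preimage (k := {d, e})]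
    congr 1; ext x; simp [Subtype.ext_iff]
  have hn := (orderOf_pos ((⟨d, hd⟩ * ⟨e, he⟩ : closure {d, e}))).ne'
  rcases quad_core ρ hgen (hquad d (by simp) hd) (hquad e (by simp) he) (IsAlgClosed.splits (Polynomial.X ^ _ - Polynomial.C 1))
    (Polynomial.X_pow_sub_C_ne_zero hn.bot_lt 1) (by
      rw [map_sub, map_pow, Polynomial.aeval_X, ← map_pow, pow_orderOf_eq_one, map_one, Polynomial.C_1, map_one, sub_self]) with h | ⟨l, hl, ι, φ, hι, h1, h2, h3⟩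
  · refine Or.inl fun g hg => ?_
    obtain ⟨n, hn⟩ := pow_eq_one_of_nilpotent_sub_one hp.out (R := Module.End K W) (by
      ext1 f; rw [Module.End.natCast_apply, ← Nat.cast_smul_eq_nsmul K, CharP.cast_eq_zero, zero_smul]; rfl) (h ⟨g, hg⟩)
    refine ⟨n, mem_cent.2 fun v hv => ?_⟩
    rw [← map_pow] at hn
    have hv' := hc (⟨g, hg⟩ ^ p ^ n) v hv
    by_contra hne
    obtain ⟨f, f1, f2, f3⟩ := exists_fun (p := p) (K := K) hV hVp (mul_mem hv' (inv_mem hv)) (fun h => hne (by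
      rw [mul_inv_eq_one, mul_assoc, inv_mul_eq_iff_eq_mul] at h; simpa using h))
    refine f3 ((hsub ⟨f, f1, f2⟩ _ hv' v hv).trans ?_)
    rw [← hρ, hn]; exact sub_self _
  · refine Or.inr ⟨l, φ, fun x => ![(ι ![0, 1]).1 x, -(ι ![1, 0]).1 x], hl, fun _ => h1, fun _ => h2,
      fun a ha b hb => ?_, ?_, fun g v hv => ?_⟩
    · ext i; fin_cases i <;> simp [(ι _).2.1 a ha b hb, add_comm]
    · by_contra hz
      push Not at hz
      have : ι ![0, 1] = ι 0 := by rw [map_zero]; exact hext _ _ fun v hv => congrFun (hz v hv) 0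
      simpa using congrFun (hι this) 1
    · have e1 : ∀ x : Fin 2 → K, ι x = x 0 • ι ![1, 0] + x 1 • ι ![0, 1] := fun x => by
        rw [← map_smul, ← map_smul, ← map_add]; congr 1; ext i; fin_cases i <;> simp
      have e2 : ∀ x, (ι x).1 (g * v * (g : G)⁻¹) =
          (ι (((φ g)⁻¹ : SL(2, K)) *ᵥ x)).1 v := fun x => by
        rw [← map_inv, ← h3, hρ]; simp
      have e3 := e2 ![0, 1]
      have e4 := e2 ![1, 0]
      rw [e1 (_ *ᵥ _)] at e3 e4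
      ext i
      fin_cases i <;> simp [e3, e4, Matrix.mulVec, dotProduct, Fin.sum_univ_two, Matrix.SpecialLinearGroup.coe_inv,
        Matrix.adjugate_fin_two]
      ring

theorem le_of_coprime {Q J L : Subgroup G} (hQ : IsSylowIn p Q J) (h1 : Q ≤ L)
    (h2 : ∀ g ∈ J, (orderOf g).Coprime p → g ∈ L) : J ≤ L := le_of_sylows fun q hq _ => by
  by_cases e : q = p
  · exact ⟨Q, e ▸ hQ, h1⟩
  obtain ⟨P, hP⟩ := sylow_exists hq J
  refine ⟨P, hP, fun g hg => h2 g (hP.le hg) ?_⟩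
  obtain ⟨n, hn⟩ := pg_card hq (IsSylowIn.pg hP hq)
  exact Nat.Coprime.coprime_dvd_left (hn ▸ BG.orderOf_dvd_card hg) (((Nat.coprime_primes hq hp.out).2 e).pow_left n)

theorem le_of_pow {Q J L : Subgroup G} (hQ : IsSylowIn p Q J) (h1 : Q ≤ L)
    (h2 : ∀ g ∈ J, ∃ n, g ^ p ^ n ∈ L) : J ≤ L := le_of_coprime hQ h1 fun g hg hc => by
  obtain ⟨n, hn⟩ := h2 g hg
  obtain ⟨m, hm⟩ := exists_pow_eq_self_of_coprime (hc.symm.pow_left n)
  exact hm ▸ pow_mem hn m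

/-- elements acting quadratically on `B` -/
def QD {G : Type u} [Group G] (B : Subgroup G) : Set G :=
  {x | ∀ v ∈ B, x⁻¹ * (x⁻¹ * v * x * v⁻¹) * x = x⁻¹ * v * x * v⁻¹}

omit hp [Finite G] in
theorem QD.conj {B : Subgroup G} {x d : G} (hx : x ∈ N_(B)) (hd : d ∈ QD B) : x * d * x⁻¹ ∈ QD B := fun v hv => by
  have := hd _ (conj_mem_of_norm' hx hv)
  calc _ = x * (d⁻¹ * (d⁻¹ * (x⁻¹ * v * x) * d * (x⁻¹ * v * x)⁻¹) * d) * x⁻¹ := by group
    _ = _ := by rw [this]; group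

theorem borel {K : Type*} [Field K] [IsAlgClosed K] [CharP K p] (h2 : p ≠ 2) {P : Subgroup G} (hP : IsSylowIn p P ⊤)
    (φ : G →* SL(2, K)) {l : K} (hl : l ≠ 0) (hd : up l ∈ φ.range) (he : lo 1 ∈ φ.range)
    (hu : ∀ r ∈ P, φ r 1 0 = 0 ∧ φ r 0 0 = 1) : ∃ M : SL(2, K), M 1 0 = 0 ∧ ∀ s : SL(2, ZMod p),
      ∃ g, φ g = M * slMap p K s * M⁻¹ ∧ (s 1 0 = 0 → g ∈ N_(P)) := by
  have : Finite φ.range := Finite.of_surjective _ φ.rangeRestrict_surjective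
  obtain ⟨M, hM⟩ := dickson_up_lo p h2 φ.range hl one_ne_zero hd he
  obtain ⟨x, hx⟩ := hM (up 1)
  obtain ⟨Q, hQ⟩ := sylow_exists hp.out (zpowers x)
  have hxp : φ x ^ p = 1 := by rw [hx, conj_pow, ← map_pow, up_pow]; simp [up_zero]
  obtain ⟨k, hk, q, hq, e⟩ := (mem_sup_norm le_normalizer_of_normal).1 (le_of_pow (L := φ.ker ⊔ Q) hQ le_sup_right
    (fun g ⟨i, hi⟩ => ⟨1, mem_sup_left (by
      rw [MonoidHom.mem_ker, ← hi, pow_one, map_pow, map_zpow, ← zpow_natCast, zpow_comm, zpow_natCast, hxp,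
        _root_.one_zpow])⟩)
    (mem_zpowers x))
  obtain ⟨y, -, hy⟩ := sylow_Jsub hp.out hP (IsSylowIn.pg hQ hp.out) le_top
  obtain ⟨h3, h4⟩ := hu _ (hy (conj_mem_cj y hq))
  have h5 : φ (y * q * y⁻¹) * (φ y * M) = φ y * M * slMap p K (up 1) := by
    have : φ q = M * slMap p K (up 1) * M⁻¹ := by rw [← hx, ← e, map_mul, φ.mem_ker.1 hk, one_mul]
    simp [this, mul_assoc]
  have h6 : (φ y * M) 1 0 = 0 := by
    have := congrArg (fun m : SL(2, K) => m 1 1) h5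
    simp only [SL2.mul_apply (φ (y * q * y⁻¹)), SL2.mul_apply (φ y * M), h3, upper_11 h3, h4, slMap_apply] at this
    simpa using this
  refine ⟨φ y * M, h6, fun s => ?_⟩
  obtain ⟨g, hg⟩ : φ y * M * slMap p K s * (φ y * M)⁻¹ ∈ φ.range := by
    have := mul_mem (mul_mem (⟨y, rfl⟩ : φ y ∈ φ.range) (hM s)) (inv_mem ⟨y, rfl⟩)
    simpa [mul_assoc] using this
  by_cases hs : s 1 0 = 0
  swap
  · exact ⟨g, hg, fun h => absurd h hs⟩
  have h7 : φ g 1 0 = 0 := by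
    have := congrArg (fun m : SL(2, K) => m 1 0) (eq_mul_inv_iff_mul_eq.1 hg)
    simp only [SL2.mul_apply (φ g), SL2.mul_apply (φ y * M), h6, slMap_apply, hs] at this
    rw [map_zero, mul_zero, mul_zero, zero_mul, add_zero, add_zero] at this
    exact (mul_eq_zero.1 this).resolve_right (upper_ne h6)
  let U : Subgroup G :=
    { carrier := {r | φ r 1 0 = 0 ∧ φ r 0 0 = 1}
      one_mem' := by simp [one_10, one_00]
      mul_mem' := fun {a b} ha hb => by simp [SL2.mul_apply, ha.1, ha.2, hb.1, hb.2]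
      inv_mem' := fun {a} ha => by
        have := eq_up ha.1 ha.2
        show φ a⁻¹ 1 0 = 0 ∧ φ a⁻¹ 0 0 = 1
        rw [map_inv, this, up_inv]; simp }
  have h8 : U ≤ φ.ker ⊔ P := le_of_pow (hP.sub hu le_top) le_sup_right fun r hr => ⟨1, mem_sup_left (by
    rw [MonoidHom.mem_ker, pow_one, map_pow, eq_up hr.1 hr.2, up_pow]; simp [up_zero])⟩
  have h9 : cj g P ≤ U := fun r hr => by
    obtain ⟨a, ha, rfl⟩ := mem_cj'.1 hr
    show φ _ 1 0 = 0 ∧ φ _ 0 0 = 1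
    rw [map_mul, map_mul, map_inv, eq_up (hu a ha).1 (hu a ha).2, conj_up_of_upper h7]; simp
  obtain ⟨j, hj, h10⟩ := sylow_trans hp.out ((hP.cj_of_mem (mem_top g)).sub (h9.trans h8) le_top)
    (hP.sub le_sup_right le_top)
  rw [sup_comm] at hj
  obtain ⟨r, hr, k', hk', rfl⟩ := (mem_sup_norm' le_normalizer_of_normal).1 hj
  refine ⟨k' * g, by rw [map_mul, φ.mem_ker.1 hk', one_mul, hg], fun _ => ?_⟩
  rw [cj_cj, eq_comm, cj_eq_self_iff, mul_assoc] at h10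
  exact (Subgroup.mul_mem_cancel_left _ (le_norm P hr)).1 h10

theorem cert (h2 : p ≠ 2) {X M T B : Subgroup G} (hT : IsSylowIn p T X) (hTM : T ≤ M) (hMX : M ≤ X) (hne : ¬ X ≤ M)
    (hB : X ≤ N_(B)) (hBc : IsMulCommutative B) (hBp : ∀ b ∈ B, b ^ p = 1) {y : G} (hy : y ∈ B) (hyT : T ≤ C_[y])
    (hyM : X ⊓ C_[y] ≤ M) (hN : X ⊓ N_(closure (QD B ∩ T)) ≤ M) :
    ∃ V ≤ B, ∃ σ : G → Fin 2 → ZMod p, y ∈ V ∧ (∀ a ∈ V, ∀ b ∈ V, σ (a * b) = σ a + σ b) ∧ σ y 1 = 0 ∧ σ y 0 ≠ 0 ∧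
      (∀ w, ∃ v ∈ V, σ v = w) ∧ ∀ s : SL(2, ZMod p), s 1 0 = 0 → ∃ g ∈ M, g ∈ N_(V) ∧
        ∀ x ∈ V, σ (g * x * g⁻¹) = (s : Matrix (Fin 2) (Fin 2) (ZMod p)) *ᵥ σ x := by
  obtain ⟨d, hd, e, he, R, hdR, heX, heM, hRT, hR, hNR⟩ := exists_pair hp.out hT hTM hMX hne
    (fun x hx d hd => QD.conj (hB hx) hd) hN
  have hHX : closure {d, e} ≤ X := (closure_le _).2 (by
    rintro _ (rfl | rfl)
    exacts [hT.le (hRT hdR), heX])
  obtain ⟨V, hV⟩ : ∃ V, V = closure {x | ∃ g ∈ closure {d, e}, x = g * y * g⁻¹} := ⟨_, rfl⟩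
  have hVB : V ≤ B := hV ▸ (closure_le _).2 (by rintro _ ⟨g, hg, rfl⟩; exact conj_mem_of_norm (hB (hHX hg)) hy)
  have hm : ∀ g ∈ closure {d, e}, g * y * g⁻¹ ∈ V := fun g hg => hV ▸ subset_closure ⟨g, hg, rfl⟩
  have hyV : y ∈ V := by simpa using hm 1 (one_mem _)
  have hHV : closure {d, e} ≤ N_(V) := fun g hg => mem_norm_of_cj_le (cj_le_iff.2 (hV.le.trans ((closure_le _).2 (by
    rintro _ ⟨a, ha, rfl⟩
    have := hm _ (mul_mem hg ha)
    exact mem_cj_inv.2 (by simpa [mul_assoc] using this)))))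
  have hdH : d ∈ closure {d, e} := subset_closure (by simp)
  have heH : e ∈ closure {d, e} := subset_closure (by simp)
  let K := AlgebraicClosure (ZMod p)
  rcases plane (p := p) (K := K) hHV (abelian_of_le hBc hVB) (fun a ha => hBp a (hVB ha)) (by
    rintro x (rfl | rfl) v hv
    exacts [hd v (hVB hv), he v (hVB hv)]) with h | ⟨l, φ, π, hl, h1, h3, hadd, ⟨v, hv, hv0⟩, hπ⟩
  · exact absurd (hyM ⟨heX, le_of_pow hR (hRT.trans hyT) (fun g hg => (h g hg).imp fun n hn =>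
      cent_le_cent1 hyV hn) heH⟩) heM
  have h0 : ∀ {A : Type} [AddGroup A] (f : G → A), (∀ a ∈ V, ∀ b ∈ V, f (a * b) = f a + f b) → f 1 = 0 :=
    fun f hf => by simpa using hf 1 (one_mem _) 1 (one_mem _)
  have hy0 : π y ≠ 0 := fun h => hv0 (by
    suffices ∀ x ∈ closure {x | ∃ g ∈ closure {d, e}, x = g * y * g⁻¹}, π x = 0 from this v (hV ▸ hv)
    intro x hx
    induction hx using closure_induction with
    | mem x hx => obtain ⟨g, hg, rfl⟩ := hx; rw [hπ ⟨g, hg⟩ y hyV, h, mulVec_zero]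
    | one => exact h0 π hadd
    | mul a b ha hb h1 h2 => rw [hadd a (hV ▸ ha) b (hV ▸ hb), h1, h2, add_zero]
    | inv a ha h1 =>
      have := hadd a (hV ▸ ha) a⁻¹ (hV ▸ inv_mem ha)
      rwa [mul_inv_cancel, h0 π hadd, h1, zero_add, eq_comm] at this)
  have hfix : ∀ r : closure {d, e}, (r : G) ∈ R → (φ r : Matrix (Fin 2) (Fin 2) K) *ᵥ π y = π y := fun r hr => by
    rw [← hπ r y hyV, mem_cent1.1 (hyT (hRT hr)), mul_inv_cancel_right]
  have hy1 : π y 1 = 0 := by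
    have := congrFun (hfix ⟨d, hdH⟩ hdR) 0
    rw [h1] at this
    simpa [Matrix.mulVec, dotProduct, Fin.sum_univ_two, hl] using this
  have hy2 : π y 0 ≠ 0 := fun h => hy0 (by ext i; fin_cases i; exacts [h, hy1])
  obtain ⟨P, hP⟩ := IsSylowIn.exists_sylow hR hp.out
  obtain ⟨N, hN1, hN2⟩ := borel h2 (isSylowIn_top hp.out P) φ hl ⟨_, h1 hdH⟩ ⟨_, h3 heH⟩ (fun r hr => by
    have := hfix r (hP ▸ mem_map_of_mem _ hr)
    have a0 := congrFun this 0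
    have a1 := congrFun this 1
    simp only [Matrix.mulVec, dotProduct, Fin.sum_univ_two, hy1, mul_zero, add_zero] at a0 a1
    exact ⟨(mul_eq_zero.1 a1).resolve_right hy2, (mul_left_eq_self₀.1 a0).resolve_right hy2⟩)
  obtain ⟨τ, hτ⟩ : ∃ τ : G → Fin 2 → K, ∀ x, τ x = ((N⁻¹ : SL(2, K)) : Matrix (Fin 2) (Fin 2) K) *ᵥ π x := ⟨_, fun _ => rfl⟩
  have hτ1 : τ y 1 = 0 := by
    simp [hτ, Matrix.mulVec, dotProduct, Fin.sum_univ_two, hy1, Matrix.adjugate_fin_two, hN1]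
  have hτ0 : τ y 0 ≠ 0 := by
    simp [hτ, Matrix.mulVec, dotProduct, Fin.sum_univ_two, hy1, Matrix.adjugate_fin_two, hy2, upper_11 hN1, upper_ne hN1]
  obtain ⟨ψ, hψ⟩ : ∃ ψ : Module.Dual (ZMod p) K, ψ (τ y 0) ≠ 0 := by
    by_contra e
    push Not at e
    exact hτ0 ((Module.forall_dual_apply_eq_zero_iff (ZMod p) _).1 e)
  have key : ∀ s : SL(2, ZMod p), ∃ g ∈ closure {d, e}, (s 1 0 = 0 → g ∈ N_(R)) ∧ ∀ x ∈ V,
      (fun i => ψ (τ (g * x * g⁻¹) i)) = (s : Matrix (Fin 2) (Fin 2) (ZMod p)) *ᵥ fun i => ψ (τ x i) := by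
    intro s
    obtain ⟨g, hg, hg'⟩ := hN2 s
    refine ⟨g, g.2, fun hs => hP ▸ le_normalizer_map _ (mem_map_of_mem _ (hg' hs)), fun x hx => ?_⟩
    have : τ (g * x * (g : G)⁻¹) = (slMap p K s : Matrix (Fin 2) (Fin 2) K) *ᵥ τ x := by
      rw [hτ, hτ, hπ g x hx, hg, mulVec_mulVec, mulVec_mulVec]
      congr 1
      exact congrArg Subtype.val (show N⁻¹ * (N * slMap p K s * N⁻¹) = slMap p K s * N⁻¹ by group)
    have hc : ∀ (a : ZMod p) (k : K), ψ (ZMod.castHom (dvd_refl p) K a * k) = a * ψ k := fun a k => by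
      rw [← smul_eq_mul a, ← map_smul, Algebra.smul_def, Subsingleton.elim (ZMod.castHom (dvd_refl p) K) (algebraMap _ _)]
    ext i
    rw [this]
    simp only [Matrix.mulVec, dotProduct, Fin.sum_univ_two, map_add]
    exact congrArg₂ _ (hc _ _) (hc _ _)
  have hadd' : ∀ a ∈ V, ∀ b ∈ V, (fun i => ψ (τ (a * b) i)) = (fun i => ψ (τ a i)) + fun i => ψ (τ b i) :=
    fun a ha b hb => by ext i; simp [hτ, hadd a ha b hb, mulVec_add]
  refine ⟨V, hVB, fun x i => ψ (τ x i), hyV, hadd', by simp [hτ1], hψ, fun w => ?_, fun s hs => ?_⟩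
  · by_cases hw : w = 0
    · exact ⟨1, one_mem _, (h0 (fun x i => ψ (τ x i)) hadd').trans hw.symm⟩
    obtain ⟨c, hc⟩ : ∃ c, c = ψ (τ y 0) := ⟨_, rfl⟩
    rw [← hc] at hψ
    obtain ⟨s, hs0, hs1⟩ : ∃ s : SL(2, ZMod p), s 0 0 * c = w 0 ∧ s 1 0 * c = w 1 := by
      by_cases h : w 0 = 0
      · have h' : w 1 ≠ 0 := fun h' => hw (by ext i; fin_cases i <;> simp [h, h'])
        exact ⟨sl2 0 (-(c / w 1)) (w 1 / c) 0 (by field_simp; ring), by simp [h], by simp [hψ]⟩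
      · exact ⟨sl2 (w 0 / c) 0 (w 1 / c) (c / w 0) (by field_simp; ring), by simp [hψ], by simp [hψ]⟩
    obtain ⟨g, hg, -, h⟩ := key s
    refine ⟨_, hm g hg, (h y hyV).trans ?_⟩
    ext i
    fin_cases i <;> simp [Matrix.mulVec, dotProduct, Fin.sum_univ_two, hτ1, ← hc, hs0, hs1]
  · obtain ⟨g, hg, h4, h⟩ := key s
    exact ⟨g, hNR ⟨hg, h4 hs⟩, hHV hg, h⟩

theorem eigen {E : Subgroup G} (hE : IsMulCommutative E) (hEp : IsPGroup p E) {h : G} (hh : h ∈ N_(E)) (f : G → ZMod p)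
    (hf : ∀ a ∈ E, ∀ b ∈ E, f (a * b) = f a + f b) {y : G} (hy : y ∈ E) (hy0 : f y ≠ 0) (l : ℕ)
    (hl : ∀ x ∈ E, f (h * x * h⁻¹) = l * f x) : ∃ x ∈ E, orderOf x = p ∧ h * x * h⁻¹ = x ^ l := by
  have h0 : f 1 = 0 := by simpa using hf 1 (one_mem _) 1 (one_mem _)
  have hpow : ∀ x ∈ E, ∀ n : ℕ, f (x ^ n) = n * f x := fun x hx n => by
    induction n with
    | zero => simpa using h0
    | succ n ih => rw [pow_succ, hf _ (pow_mem hx n) x hx, ih]; push_cast; ring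
  let θ : E → E := fun x => ⟨h * x * h⁻¹ * ((x : G) ^ l)⁻¹, mul_mem (conj_mem_of_norm hh x.2) (inv_mem (pow_mem x.2 l))⟩
  have h1 : ¬ Function.Surjective θ := fun hs => by
    obtain ⟨x, hx⟩ := hs ⟨y, hy⟩
    have := hf _ (θ x).2 _ (pow_mem x.2 l)
    rw [show (θ x : G) * (x : G) ^ l = h * x * h⁻¹ from inv_mul_cancel_right _ _, hl x x.2, hpow x x.2, hx] at this
    exact hy0 (by simpa using this)
  rw [← Finite.injective_iff_surjective, Function.not_injective_iff] at h1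
  obtain ⟨a, b, e, hne⟩ := h1
  have e' : h * a * h⁻¹ * ((a : G) ^ l)⁻¹ = h * b * h⁻¹ * ((b : G) ^ l)⁻¹ := congrArg Subtype.val e
  have c : Commute (a : G) (b : G)⁻¹ := mul_comm_of_abelian hE a.2 (inv_mem b.2)
  have h2 : h * (a * (b : G)⁻¹) * h⁻¹ = (a * (b : G)⁻¹) ^ l := by
    have c' := mul_comm_of_abelian hE (conj_mem_of_norm hh b.2) (mul_mem (inv_mem (pow_mem b.2 l)) (pow_mem a.2 l))
    have c'' := mul_comm_of_abelian hE (inv_mem (pow_mem b.2 l)) (pow_mem a.2 l)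
    rw [c.mul_pow, inv_pow]
    calc h * (a * (b : G)⁻¹) * h⁻¹ = h * a * h⁻¹ * ((a : G) ^ l)⁻¹ * (a : G) ^ l * (h * b * h⁻¹)⁻¹ := by group
      _ = h * b * h⁻¹ * (((b : G) ^ l)⁻¹ * (a : G) ^ l) * (h * b * h⁻¹)⁻¹ := by rw [e']; group
      _ = _ := by rw [c', mul_inv_cancel_right]; exact c''
  have hm : (a : G) * (b : G)⁻¹ ∈ E := mul_mem a.2 (inv_mem b.2)
  obtain ⟨x, ⟨i, rfl⟩, hx⟩ := exists_orderOf_eq_prime hp.out (pg_dvd hp.out (pg_le hEp (zpowers_le.2 hm))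
    (zpowers_ne_bot fun h => hne (Subtype.ext (mul_inv_eq_one.1 h))))
  refine ⟨_, zpow_mem hm i, hx, ?_⟩
  show h * _ ^ i * h⁻¹ = (_ ^ i) ^ l
  rw [← conj_zpow, h2, ← zpow_natCast, ← zpow_natCast, zpow_comm]

theorem exists_aff_of_mem_f {M : SL(3, ZMod p)} (h : M ∈ fOver (ZMod p)) :
    ∃ x, ∃ s : SL(2, ZMod p), s 1 0 = 0 ∧ M = aff x s := by
  obtain ⟨x, s, rfl⟩ := exists_aff_of_mem_qd (closure_mono (fun _ h => h.2) h)
  refine ⟨x, s, ?_, rfl⟩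
  suffices ∀ M ∈ fOver (ZMod p), M.1 1 0 = 0 ∧ M.1 2 0 = 0 from (this _ h).1
  intro M hM
  induction hM using closure_induction with
  | mem M hM => exact ⟨hM.1, hM.2.1⟩
  | one => simp
  | mul a b _ _ ha hb => simp [Matrix.mul_apply, Fin.sum_univ_three, ha.1, ha.2, hb.1, hb.2]
  | inv a _ ha => simp [Matrix.adjugate_fin_three, ha.1, ha.2]

theorem sec_f (h2 : p ≠ 2) {V H : Subgroup G} (hV : IsPGroup p V) (hVH : V ≤ H) (σ : G → Fin 2 → ZMod p)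
    (hadd : ∀ a ∈ V, ∀ b ∈ V, σ (a * b) = σ a + σ b) (hs : ∀ w, ∃ v ∈ V, σ v = w)
    (hB : ∀ s : SL(2, ZMod p), s 1 0 = 0 → ∃ g ∈ H, g ∈ N_(V) ∧
      ∀ x ∈ V, σ (g * x * g⁻¹) = (s : Matrix (Fin 2) (Fin 2) (ZMod p)) *ᵥ σ x) : Sec (fOver (ZMod p)) H := by
  have h0 : σ 1 = 0 := by simpa using hadd 1 (one_mem _) 1 (one_mem _)
  have hinv : ∀ a ∈ V, σ a⁻¹ = -σ a := fun a ha => by
    rw [eq_neg_iff_add_eq_zero, ← hadd _ (inv_mem ha) a ha, inv_mul_cancel, h0]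
  have hsi : ∀ (s : SL(2, ZMod p)) (x : Fin 2 → ZMod p), (s : Matrix (Fin 2) (Fin 2) (ZMod p)) *ᵥ
      (((s⁻¹ : SL(2, ZMod p)) : Matrix (Fin 2) (Fin 2) (ZMod p)) *ᵥ x) = x := fun s x => by
    have : (s : Matrix (Fin 2) (Fin 2) (ZMod p)) * ((s⁻¹ : SL(2, ZMod p)) : Matrix (Fin 2) (Fin 2) (ZMod p)) = 1 :=
      congrArg Subtype.val (mul_inv_cancel s)
    rw [mulVec_mulVec, this, one_mulVec]
  let Γ : Subgroup (G × SL(2, ZMod p)) :=
    { carrier := {z | z.1 ∈ H ⊓ N_(V) ∧ z.2 1 0 = 0 ∧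
        ∀ x ∈ V, σ (z.1 * x * z.1⁻¹) = (z.2 : Matrix (Fin 2) (Fin 2) (ZMod p)) *ᵥ σ x}
      one_mem' := ⟨one_mem _, one_10, by simp⟩
      mul_mem' := fun {a b} ha hb => ⟨mul_mem ha.1 hb.1, by simp [SL2.mul_apply, ha.2.1, hb.2.1], fun x hx => by
        show _ = (a.2.1 * b.2.1) *ᵥ _
        rw [← mulVec_mulVec, ← hb.2.2 x hx,
          ← ha.2.2 _ (conj_mem_of_norm hb.1.2 hx), Prod.fst_mul]; congr 1; group⟩
      inv_mem' := fun {a} ha => ⟨inv_mem ha.1, by simp [Matrix.adjugate_fin_two, ha.2.1], fun x hx => by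
        have := ha.2.2 _ (conj_mem_of_norm' ha.1.2 hx)
        rw [show a.1 * (a.1⁻¹ * x * a.1) * a.1⁻¹ = x by group] at this
        have e := hsi a.2⁻¹ (σ (a.1⁻¹ * x * a.1))
        rw [inv_inv, ← this] at e
        rw [Prod.snd_inv, e, Prod.fst_inv, inv_inv]⟩ }
  have two : Nat.Prime 2 := Nat.prime_two
  obtain ⟨Y, hY⟩ : ∃ Y, Y = Γ ⊓ (center SL(2, ZMod p)).comap (MonoidHom.snd _ _) := ⟨_, rfl⟩
  obtain ⟨T, hT⟩ := sylow_exists two Y
  have hYΓ : Y ≤ Γ := hY ▸ inf_le_left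
  have hfr := sylow_frattini two hT hYΓ (hY ▸ norm_inf (le_norm Γ) le_normalizer_of_normal)
  obtain ⟨t, ht, ht1⟩ : ∃ t ∈ T, t.2 = -1 := by
    obtain ⟨g, hg, hg', h⟩ := hB (-1) (by simp [neg_apply', one_10])
    have : Fact (Nat.Prime 2) := ⟨two⟩
    have h1 : Y ≤ (MonoidHom.snd G SL(2, ZMod p)).ker ⊔ T := le_of_pow hT le_sup_right fun z hz => ⟨1, mem_sup_left (by
      rw [hY] at hz
      rw [MonoidHom.mem_ker, map_pow]
      rcases SL2.mem_center_iff'.1 hz.2 with h | h <;> rw [h] <;> simp)⟩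
    obtain ⟨k, hk, t, ht, e⟩ := (mem_sup_norm le_normalizer_of_normal).1 (h1 (x := (g, -1))
      (hY ▸ ⟨⟨⟨hg, hg'⟩, by simp [neg_apply', one_10], h⟩, SL2.neg_one_mem_center⟩))
    refine ⟨t, ht, ?_⟩
    have := congrArg Prod.snd e
    rwa [Prod.snd_mul, show k.2 = 1 from hk, one_mul] at this
  have htΓ := hYΓ (hT.le ht)
  have hsurj : ∀ s : SL(2, ZMod p), s 1 0 = 0 → ∃ n ∈ Γ ⊓ N_(T), n.2 = s := fun s h => by
    obtain ⟨g, hg, hg', h'⟩ := hB s h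
    obtain ⟨y, hy, n, hn, e⟩ := (mem_sup_norm (inf_le_left.trans (hY ▸ norm_inf (le_norm Γ) le_normalizer_of_normal))).1
      (hfr.ge (x := (g, s)) ⟨⟨hg, hg'⟩, h, h'⟩)
    have e' : y.2 * n.2 = s := congrArg Prod.snd e
    rw [hY] at hy
    rcases SL2.mem_center_iff'.1 hy.2 with h | h
    · exact ⟨n, hn, by rw [← e', show y.2 = 1 from h, one_mul]⟩
    · exact ⟨t * n, mul_mem ⟨htΓ, le_norm T ht⟩ hn, by rw [← e', show y.2 = -1 from h, Prod.snd_mul, ht1]⟩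
  have hdisj : ∀ n ∈ Γ ⊓ N_(T), n.1 ∈ V → σ n.1 = 0 := fun n hn hv => by
    have h6 : n * t * n⁻¹ * t⁻¹ ∈ T := mul_mem (conj_mem_of_norm hn.2 ht) (inv_mem ht)
    have h7 : n.1 * (t.1 * n.1⁻¹ * t.1⁻¹) ∈ V := mul_mem hv (conj_mem_of_norm htΓ.1.2 (inv_mem hv))
    have h8 : n.1 * (t.1 * n.1⁻¹ * t.1⁻¹) = 1 := eq_one_of_mem_of_disj (BG.inf_eq_bot_of_coprime
      (pg_coprime_ne hp.out two hV ((IsSylowIn.pg hT two).map (MonoidHom.fst _ _)) h2)) h7 ⟨_, h6, by simp [mul_assoc]⟩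
    have h9 := hadd _ hv _ (conj_mem_of_norm htΓ.1.2 (inv_mem hv))
    rw [h8, h0, htΓ.2.2 _ (inv_mem hv), ht1, hinv _ hv,
      show ((-1 : SL(2, ZMod p)) : Matrix (Fin 2) (Fin 2) (ZMod p)) = -1 from rfl, neg_mulVec, one_mulVec, neg_neg, ← two_smul (ZMod p), eq_comm, smul_eq_zero] at h9
    exact h9.resolve_left (two_ne_zero_of_charP' _ p h2)
  have hmul : ∀ (a b : G) (n m : G × SL(2, ZMod p)), a * n.1 * (b * m.1) = a * (n.1 * b * n.1⁻¹) * (n * m).1 :=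
    fun a b n m => by simp [mul_assoc]
  let Δ : Subgroup (G × fOver (ZMod p)) :=
    { carrier := {z | ∃ v ∈ V, ∃ n ∈ Γ ⊓ N_(T), z.1 = v * n.1 ∧ (z.2 : SL(3, ZMod p)) = aff (σ v) n.2}
      one_mem' := ⟨1, one_mem _, 1, one_mem _, by simp, by rw [h0]; exact aff_zero_one.symm⟩
      mul_mem' := by
        rintro a b ⟨x, hx, n, hn, ha, ha'⟩ ⟨y, hy, m, hm, hb, hb'⟩
        have := conj_mem_of_norm hn.1.1.2 hy
        refine ⟨_, mul_mem hx this, n * m, mul_mem hn hm, by rw [Prod.fst_mul, ha, hb, hmul], ?_⟩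
        rw [Prod.snd_mul, Subgroup.coe_mul, ha', hb', aff_mul, hadd _ hx _ this, hn.1.2.2 y hy, Prod.snd_mul]
      inv_mem' := by
        rintro a ⟨x, hx, n, hn, ha, ha'⟩
        have hn' := inv_mem hn
        refine ⟨_, conj_mem_of_norm hn'.1.1.2 (inv_mem hx), n⁻¹, hn', by simp [ha], ?_⟩
        rw [Prod.snd_inv, Subgroup.coe_inv, ha', inv_eq_iff_mul_eq_one, aff_mul, hn'.1.2.2 _ (inv_mem hx), Prod.snd_inv,
          hsi, hinv x hx, add_neg_cancel, mul_inv_cancel, aff_zero_one] }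
  refine Sec.of_hom (((MonoidHom.fst G _).comp Δ.subtype).codRestrict H ?_) ?_ ((MonoidHom.snd G _).comp Δ.subtype) ?_
  · rintro ⟨z, x, hx, n, hn, hz, -⟩
    exact (show z.1 ∈ H from hz ▸ mul_mem (hVH hx) hn.1.1.1)
  · rw [injective_iff_map_eq_one]
    rintro ⟨z, x, hx, n, hn, hz, hz'⟩ h
    have h6 : z.1 = 1 := congrArg Subtype.val h
    rw [h6, eq_comm, mul_eq_one_iff_eq_inv] at hz
    have h7 := hdisj n⁻¹ (inv_mem hn) (by rw [Prod.fst_inv, ← hz]; exact hx)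
    have h8 : n.2 = 1 := Subtype.ext (Matrix.ext_of_mulVec_single fun i => by
      obtain ⟨v, hv, e'⟩ := hs (Pi.single i 1)
      have h9 : n.1 ∈ V := by rw [← inv_mem_iff, ← hz]; exact hx
      have := hn.1.2.2 v hv
      rw [hadd _ (mul_mem h9 hv) _ (inv_mem h9), hadd _ h9 v hv, hinv _ h9, add_neg_cancel_comm, e'] at this
      rw [← this]; exact (one_mulVec _).symm)
    rw [hz, show σ n.1⁻¹ = 0 from h7, h8, aff_zero_one] at hz'
    exact Subtype.ext (Prod.ext h6 (Subtype.ext hz'))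
  · rintro ⟨M, hM⟩
    obtain ⟨x, s, h1, rfl⟩ := exists_aff_of_mem_f hM
    obtain ⟨n, hn, rfl⟩ := hsurj s h1
    obtain ⟨v, hv, rfl⟩ := hs x
    exact ⟨⟨(v * n.1, ⟨_, hM⟩), v, hv, n, hn, rfl, rfl⟩, rfl⟩

end H23.FP
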