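import Mathlib
import Cfsg.Agent.H23.OutSol1
import Cfsg.Agent.H01.Coprime2

/-!
# A perfect group centralising every involution of a 2-group centralises it (`H23.OS.cent_of_invol`)
-/

set_option autoImplicit false
set_option linter.unusedSectionVars false
open Cfsg BG Subgroup H22 H23.GW H04
open scoped commutatorElement

namespace H23.OS
universe u

/-- an anisotropic invariant quadratic map -/
structure Qd {V M : Type u} [CommGroup V] [CommGroup M] (K : Subgroup (MulAut V)) (Q : V → M) (b : V →* V →* M) :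
    Prop where
  irr : Irr K
  ne : K ≠ ⊥
  sq : ∀ v : V, v * v = 1
  hQ : ∀ v w, Q (v * w) = Q v * Q w * b v w
  inv : ∀ k ∈ K, ∀ v, Q (k v) = Q v
  an : ∀ v, Q v = 1 → v = 1

namespace Qd
variable {V M : Type u} [CommGroup V] [CommGroup M] [Finite V] [Finite M] {K : Subgroup (MulAut V)} {Q : V → M}
  {b : V →* V →* M} (h : Qd K Q b) {t g : MulAut V} {v w c : V}
include h

theorem one : Q 1 = 1 := by simpa using h.hQ 1 1
theorem binv (hg : g ∈ K) (v w : V) : b (g v) (g w) = b v w := by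
  have := h.hQ (g v) (g w)
  rw [← map_mul, h.inv g hg, h.inv g hg, h.inv g hg, h.hQ] at this
  exact (mul_left_cancel this).symm
theorem bsq (v w : V) : b v w * b v w = 1 := by rw [← map_mul, h.sq, map_one]
theorem vinv (v : V) : v⁻¹ = v := inv_eq_of_mul_eq_one_right (h.sq v)

theorem memI (hw : w ≠ 1) : (∀ v w', b v w' ∈ (b.flip w).range) ∧ ∀ v, Q v ∈ (b.flip w).range := by
  have h1 : ∀ v w', b v w' ∈ (b.flip w).range := by
    have := (h.irr (⨅ v, (b.flip w).range.comap (b v)) fun a ha x hx => mem_iInf.2 fun v => by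
      rw [mem_comap, ← a.apply_symm_apply v, h.binv ha]; exact mem_iInf.1 hx _).resolve_left
      (ne_bot_of_mem (mem_iInf.2 fun v => ⟨v, rfl⟩) hw)
    exact fun v w' => mem_iInf.1 (this.ge (mem_top w')) v
  refine ⟨h1, fun v => ?_⟩
  let f : V →* M ⧸ (b.flip w).range := MonoidHom.mk' (fun v => QuotientGroup.mk (Q v)) fun x y => by
    rw [h.hQ, QuotientGroup.mk_mul, (QuotientGroup.eq_one_iff _).2 (h1 x y), mul_one, QuotientGroup.mk_mul]
  have hf : ∀ a ∈ K, ∀ x, f (a x) = f x := fun a ha x => congrArg QuotientGroup.mk (h.inv a ha x)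
  rcases h.irr f.ker fun a ha x hx => (hf a ha x).trans hx with e | e
  · exact absurd (eq_bot_iff.2 fun a ha => MulEquiv.ext fun x => (MonoidHom.ker_eq_bot_iff f).1 e (hf a ha x)) h.ne
  · exact (QuotientGroup.eq_one_iff _).1 (e.ge (mem_top v))

theorem invol (ht : t ∈ K) (h2 : t * t = 1) (h1 : t ≠ 1) :
    (∀ c ∈ fixSub t, ∃ v, v * t v = c) ∧ (∀ w ∈ fixSub t, w ≠ 1 → ∀ v, b v w = 1 ↔ v ∈ fixSub t) ∧
    (∀ c ∈ fixSub t, ∀ d ∈ fixSub t, Q c = Q d → c = d) ∧ fixSub t ≠ ⊥ := by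
  let ρ : V →* V := MonoidHom.id V * t.toMonoidHom
  have hρ : ∀ v, ρ v = v * t v := fun _ => rfl
  have htt : ∀ v, t (t v) = v := fun v => by rw [← MulAut.mul_apply, h2, MulAut.one_apply]
  have hk : ρ.ker = fixSub t := by
    ext v; rw [MonoidHom.mem_ker, hρ, mul_eq_one_iff_inv_eq, h.vinv, eq_comm, mem_fixSub]
  have hR : ρ.range ≤ fixSub t := by
    rintro _ ⟨v, rfl⟩; rw [mem_fixSub, hρ, map_mul, htt, mul_comm]
  have hb : ∀ c ∈ fixSub t, ∀ r ∈ ρ.range, b c r = 1 := by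
    rintro c hc _ ⟨v, rfl⟩
    rw [hρ, map_mul, ← h.binv ht c v, mem_fixSub.1 hc, h.bsq]
  have hi : ∀ c ∈ fixSub t, ∀ r ∈ ρ.range, Q c = Q r → c = r := fun c hc r hr e => by
    have h3 := h.hQ r r
    rw [h.sq, h.one, hb r (hR hr) r hr] at h3
    rw [← h.vinv r, ← mul_eq_one_iff_eq_inv]
    exact h.an _ (by rw [h.hQ, e, hb c hc r hr, ← h3])
  have key : ∀ w ∈ ρ.range, w ≠ 1 → (b.flip w).ker = fixSub t ∧ fixSub t ≤ ρ.range := fun w hw hw1 => by
    obtain ⟨-, k2⟩ := h.memI hw1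
    have k3 : fixSub t ≤ (b.flip w).ker := fun c hc => hb c hc w hw
    let F : ρ.range → (b.flip w).range := fun r => ⟨Q r, k2 r⟩
    have hF : Function.Injective F := fun r s e => Subtype.ext (hi r (hR r.2) s s.2 (congrArg Subtype.val e))
    have c1 := Nat.card_le_card_of_injective F hF
    have c2 := card_mul_index (fixSub t)
    have c3 := card_mul_index (b.flip w).ker
    rw [index_ker] at c3
    rw [← hk, index_ker, hk] at c2
    have c4 := BG.card_le k3
    have c5 := card_pos (fixSub t)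
    have c6 := card_pos ρ.range
    have c7 : Nat.card (b.flip w).ker ≤ Nat.card (fixSub t) := by nlinarith
    refine ⟨(BG.eq_of_le_of_card_le k3 c7).symm, fun c hc => ?_⟩
    obtain ⟨r, hr⟩ := ((Nat.bijective_iff_injective_and_card F).2 ⟨hF, le_antisymm c1 (by nlinarith)⟩).2 ⟨Q c, k2 c⟩
    exact hi c hc r r.2 (congrArg Subtype.val hr).symm ▸ r.2
  obtain ⟨w, hw, hw1⟩ := exists_mem_ne_one (A := ρ.range) fun e => h1 (aut_eq_one_iff_fixSub.2
    (hk ▸ eq_top_iff.2 fun v _ => mem_bot.1 (e ▸ MonoidHom.mem_range.2 ⟨v, rfl⟩)))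
  have hC := (key w hw hw1).2
  exact ⟨hC, fun w hw hw1 v => by rw [← (key w (hC hw) hw1).1]; rfl, fun c hc d hd => hi c hc d (hC hd),
    ne_bot_of_mem (hR hw) hw1⟩

theorem sol : Group.IsSolvable K := by
  have hp := Nat.prime_two
  obtain ⟨T, hT⟩ := sylow_exists hp K
  have hT2 := IsSylowIn.pg hT hp
  suffices IsCyclic T by
    obtain ⟨P, rfl⟩ := IsSylowIn.exists_sylow hT hp
    exact H08.sol_of_cyclic_sylow P (isCyclic_of_surjective _
      (equivMapOfInjective (P : Subgroup K) _ K.subtype_injective).symm.surjective)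
  by_cases h0 : T = ⊥
  · rw [h0]; infer_instance
  obtain ⟨z, hz, hz2⟩ := exists_orderOf_eq_prime hp (pg_dvd hp (pg_le hT2 inf_le_left) (pg_center_ne_bot hp hT2 h0))
  have hz1 : z ≠ 1 := fun e => by simp [e] at hz2
  obtain ⟨k1, k2, k3, k4⟩ := h.invol (hT.le hz.1) (by rw [← pow_two, ← hz2, pow_orderOf_eq_one]) hz1
  obtain ⟨w, hw, hw1⟩ := exists_mem_ne_one k4
  have h1 : ∀ g ∈ T, fixSub z ≤ fixSub g := fun g hg c hc => k3 (g c) (by
    rw [mem_fixSub, ← MulAut.mul_apply, ← mem_cent.1 hz.2 g hg, MulAut.mul_apply, mem_fixSub.1 hc]) c hc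
    (h.inv g (hT.le hg) c)
  have h2 : ∀ g ∈ T, g * g = 1 := fun g hg => MulEquiv.ext fun v => by
    have := h1 g hg ((k2 w hw hw1 (v * g v)).1 (by
      rw [map_mul, MonoidHom.mul_apply, ← h.binv (hT.le hg) v w, mem_fixSub.1 (h1 g hg hw), h.bsq]))
    rw [mem_fixSub, map_mul, mul_comm] at this
    exact mul_right_cancel this
  have h3 : ∀ g ∈ T, g ≠ 1 → fixSub g = fixSub z := fun g hg hg1 => Subgroup.ext fun v => by
    rw [← (h.invol (hT.le hg) (h2 g hg) hg1).2.1 w (h1 g hg hw) hw1, k2 w hw hw1]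
  have h4 : ∀ g ∈ T, ∀ v, v * g v = w → Q w * b v w = 1 := fun g hg v e => by
    have := h.hQ v w
    rw [← e, ← mul_assoc, h.sq, one_mul, h.inv g (hT.le hg), e, mul_assoc] at this
    exact left_eq_mul.1 this
  refine cyclic_of_le (cyclic_zpowers z) fun g hg => ?_
  by_contra hn
  have hg1 : g ≠ 1 := fun e => hn (e ▸ one_mem _)
  have hgz : g * z ≠ 1 := fun e => hn (by rw [eq_inv_of_mul_eq_one_left e]; exact inv_mem (mem_zpowers z))
  obtain ⟨v1, e1⟩ := k1 w hw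
  obtain ⟨v2, e2⟩ := (h.invol (hT.le hg) (h2 g hg) hg1).1 w (h1 g hg hw)
  have h5 := h1 g hg ((k2 w hw hw1 (v1 * v2)).1 (by
    rw [map_mul, MonoidHom.mul_apply, mul_left_cancel ((h4 z hz.1 v1 e1).trans (h4 g hg v2 e2).symm), h.bsq]))
  have h6 : g v1 = z v1 := by
    rw [mem_fixSub, map_mul] at h5
    rw [eq_mul_inv_of_mul_eq h5, eq_inv_mul_of_mul_eq e1, ← e2, h.vinv, h.vinv, mul_assoc]
  have h7 : v1 ∈ fixSub (g * z) := by
    rw [mem_fixSub, MulAut.mul_apply, ← h6, ← MulAut.mul_apply, h2 g hg, MulAut.one_apply]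
  rw [h3 _ (mul_mem hg hz.1) hgz, mem_fixSub] at h7
  exact hw1 (by rw [← e1, h7, h.sq])

end Qd

variable {G : Type u} [Group G] [Finite G]

theorem cent_of_invol {K D : Subgroup G} (hK : ⁅K, K⁆ = K) (hD : IsPGroup 2 D) (hn : K ≤ N_(D))
    (h : ∀ d ∈ D, d * d = 1 → d ∈ C_(K)) : D ≤ C_(K) := by
  induction D using WellFoundedLT.induction with
  | ind D ih =>
  by_contra h0
  have hp := Nat.prime_two
  replace ih : ∀ E < D, K ≤ N_(E) → E ≤ C_(K) := fun E hE hn => ih E hE (pg_le hD hE.le) hn fun d hd => h d (hE.le hd)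
  have h1 : ⁅D, K⁆ = D := by
    by_contra e
    exact h0 (comm_eq_bot.1 (comm_eq_bot_of_perfect hK (comm_eq_bot.2
      (ih _ ((comm_le_left hn).lt_of_ne e) (right_le_norm_comm _ _)))))
  have h2 : frattiniOf D ≤ C_(K) := ih _ (phi_lt fun e => h0 (e ▸ bot_le)) (norm_phi hn)
  obtain ⟨U, hU⟩ : ∃ U, U = D ⊓ C_(K) := ⟨_, rfl⟩
  have hUD : U ≤ D := hU ▸ inf_le_left
  have hUK : U ≤ C_(K) := hU ▸ inf_le_right
  have hd : ⁅D, D⁆ ≤ U := hU ▸ le_inf (der_le D) ((der_le_phi hp hD).trans h2)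
  have hs : ∀ d : D, (d : G) * d ∈ U := fun d => hU ▸ ⟨(d * d).2, h2 (pow_two (d : G) ▸ pow_mem_phi hp hD d.2)⟩
  have hUC : U ≤ C_(D) := by
    rw [cent_comm, ← comm_eq_bot, ← h1]
    exact three_subgroup (by rw [comm_comm K, comm_eq_bot.2 hUK, commutator_bot_left])
      (comm_eq_bot.2 ((comm_mono hUD le_rfl).trans (hd.trans hUK)))
  have hc : ∀ u ∈ U, ∀ d ∈ D, d * u = u * d := fun u hu => mem_cent.1 (hUC hu)
  have hN : (U.subgroupOf D).Normal := (normal_subgroupOf_iff_le_normalizer hUD).2 (le_norm_of_cent (cent_symm hUC))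
  have hI : H27.Inv (H01.conjHom hn) (U.subgroupOf D) := fun a x hx =>
    conj_mem_of_norm (le_norm_of_cent (cent_symm hUK) a.2) hx
  have hcm : ∀ d e : D, ⁅(d : G)⁻¹, (e : G)⁆ ∈ U := fun d e => hd (commutator_mem_commutator (inv_mem d.2) e.2)
  let : CommGroup U := { (inferInstance : Group U) with mul_comm := fun a b => Subtype.ext (hc b b.2 a (hUD a.2)) }
  let : CommGroup (D ⧸ U.subgroupOf D) := { (inferInstance : Group (D ⧸ U.subgroupOf D)) with
    mul_comm := fun a b => by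
      obtain ⟨a, rfl⟩ := QuotientGroup.mk_surjective a
      obtain ⟨b, rfl⟩ := QuotientGroup.mk_surjective b
      exact QuotientGroup.eq.2 (by
        have := hcm b a⁻¹
        simpa [mem_subgroupOf, commutatorElement_def, mul_assoc] using this) }
  let π := QuotientGroup.mk' (powMonoidHom 2 : U →* U).range
  let q : D → U ⧸ (powMonoidHom 2 : U →* U).range := fun d => π ⟨_, hs d⟩
  let cm : D → D → U ⧸ (powMonoidHom 2 : U →* U).range := fun d e => π ⟨_, hcm d e⟩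
  have hq : ∀ d e, q (d * e) = q d * q e * cm d e := fun d e => by
    rw [← map_mul, ← map_mul]
    refine congrArg π (Subtype.ext ?_)
    show (d : G) * e * (d * e) = d * d * (e * e) * ⁅(d : G)⁻¹, (e : G)⁆
    rw [mul_assoc ((d : G) * d), hc _ (hcm d e) _ (mul_mem e.2 e.2), commutatorElement_def]; group
  have hcm2 : ∀ d e f, cm (d * e) f = cm d f * cm e f := fun d e f => by
    rw [← map_mul]
    refine congrArg π (Subtype.ext ?_)
    show ⁅((d : G) * e)⁻¹, (f : G)⁆ = ⁅(d : G)⁻¹, (f : G)⁆ * ⁅(e : G)⁻¹, (f : G)⁆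
    rw [commutatorElement_def (e : G)⁻¹, mul_assoc, mul_assoc, ← mul_assoc ⁅_, _⁆, ← hc _ (hcm d f) _ (inv_mem e.2),
      commutatorElement_def, commutatorElement_def]; group
  have hq1 : ∀ d, q d = 1 ↔ (d : G) ∈ U := fun d => by
    refine (QuotientGroup.eq_one_iff _).trans ⟨fun ⟨u, hu⟩ => ?_, fun hd => ⟨⟨d, hd⟩, Subtype.ext (pow_two _)⟩⟩
    have e : (u : G) ^ 2 = d * d := congrArg Subtype.val hu
    have := h (d * (u : G)⁻¹) (mul_mem d.2 (inv_mem (hUD u.2))) (by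
      rw [mul_assoc, ← mul_assoc _ (d : G), ← hc _ (inv_mem u.2) d d.2, ← mul_assoc, ← mul_assoc, ← e]; group)
    simpa using mul_mem (hU.ge (mem_inf.2 ⟨mul_mem d.2 (inv_mem (hUD u.2)), this⟩)) u.2
  let Q : D ⧸ U.subgroupOf D → _ := fun v => q v.out
  have hQ : ∀ d : D, Q (QuotientGroup.mk d) = q d := fun d => by
    obtain ⟨u, hu⟩ := QuotientGroup.mk_out_eq_mul (U.subgroupOf D) d
    show q (Quotient.out _) = _
    rw [hu, hq, (hq1 _).2 u.2, mul_one, show cm d u = 1 from (congrArg π (Subtype.ext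
      (commutatorElement_eq_one_iff_mul_comm.2 (hc _ u.2 _ (inv_mem d.2))))).trans (map_one π), mul_one]
  have hb : ∀ d e : D, Q (QuotientGroup.mk d * QuotientGroup.mk e) / (Q (QuotientGroup.mk d) * Q (QuotientGroup.mk e)) =
      cm d e := fun d e => by rw [← QuotientGroup.mk_mul, hQ, hQ, hQ, hq, mul_div_cancel_left]
  have hb2 : ∀ u v w, Q (u * v * w) / (Q (u * v) * Q w) = Q (u * w) / (Q u * Q w) * (Q (v * w) / (Q v * Q w)) := by
    intro u v w
    obtain ⟨u, rfl⟩ := QuotientGroup.mk_surjective u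
    obtain ⟨v, rfl⟩ := QuotientGroup.mk_surjective v
    obtain ⟨w, rfl⟩ := QuotientGroup.mk_surjective w
    rw [hb, hb, ← QuotientGroup.mk_mul, hb, hcm2]
  let b : D ⧸ U.subgroupOf D →* D ⧸ U.subgroupOf D →* _ := MonoidHom.mk' (fun v => MonoidHom.mk'
    (fun w => Q (v * w) / (Q v * Q w)) fun x y => by
      rw [mul_comm v, mul_comm (Q v), hb2, mul_comm x, mul_comm y, mul_comm (Q x), mul_comm (Q y)])
    fun x y => MonoidHom.ext fun w => by rw [MonoidHom.mul_apply]; exact hb2 x y w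
  let ψ := H27.quotAct (H01.conjHom hn) _ hI
  have hψ : ψ.range ≠ ⊥ := fun e => h0 (h1.ge.trans (le_trans (commutator_le.2 fun d hd k hk => ?_) hUK))
  · refine hψ (eq_bot_of_perfect_of_sol (by rw [MonoidHom.range_eq_map]; exact perf_map (subgroupOf_self K ▸ perfect_subgroupOf hK le_rfl) ψ)
      (Qd.sol (Q := Q) (b := b) ⟨fun E hE => ?_, hψ, fun v => ?_, fun v w => (mul_div_cancel _ _).symm, ?_, fun v hv => ?_⟩))
    · have h3 : K ≤ N_((E.comap (QuotientGroup.mk' _)).map D.subtype) := le_norm_iff.2 (by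
        rintro a ha _ ⟨d, hd, rfl⟩
        exact ⟨H01.conjHom hn ⟨a, ha⟩ d, hE _ ⟨⟨a, ha⟩, rfl⟩ _ hd, rfl⟩)
      rcases (map_subtype_le (E.comap (QuotientGroup.mk' (U.subgroupOf D)))).lt_or_eq with e | e
      · refine Or.inl (eq_bot_iff.2 fun v hv => ?_)
        obtain ⟨v, rfl⟩ := QuotientGroup.mk_surjective v
        exact (QuotientGroup.eq_one_iff _).2 (hU ▸ mem_inf.2 ⟨v.2, ih _ e h3 ⟨v, hv, rfl⟩⟩ : (v : G) ∈ U)
      · refine Or.inr (eq_top_iff.2 fun v _ => ?_)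
        obtain ⟨v, rfl⟩ := QuotientGroup.mk_surjective v
        obtain ⟨d, hd, e'⟩ := e.ge v.2
        exact (Subtype.ext e' : d = v) ▸ hd
    · obtain ⟨v, rfl⟩ := QuotientGroup.mk_surjective v
      exact (QuotientGroup.eq_one_iff _).2 (hs v)
    · rintro _ ⟨k, rfl⟩ v
      obtain ⟨v, rfl⟩ := QuotientGroup.mk_surjective v
      refine (hQ (H01.conjHom hn k v)).trans ((congrArg π (Subtype.ext ?_)).trans (hQ v).symm)
      show (k : G) * v * (k : G)⁻¹ * (k * v * (k : G)⁻¹) = v * v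
      rw [← mul_inv_cancel_right ((v : G) * v) k, ← mem_cent.1 (hUK (hs v)) k k.2]; group
    · obtain ⟨v, rfl⟩ := QuotientGroup.mk_surjective v
      exact (QuotientGroup.eq_one_iff _).2 ((hq1 v).1 ((hQ v).symm.trans hv))
  · have h3 : ψ ⟨k, hk⟩ = 1 := mem_bot.1 (e ▸ MonoidHom.mem_range.2 ⟨_, rfl⟩)
    have h4 : (QuotientGroup.mk (H01.conjHom hn ⟨k, hk⟩ ⟨d, hd⟩⁻¹) : D ⧸ U.subgroupOf D) = QuotientGroup.mk ⟨d, hd⟩⁻¹ :=
      DFunLike.congr_fun h3 (QuotientGroup.mk (⟨d, hd⟩ : D)⁻¹)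
    simpa [mem_subgroupOf, commutatorElement_def, mul_assoc] using QuotientGroup.eq.1 h4.symm

end H23.OS
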