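import Mathlib
import Cfsg.Agent.H23.OutSol2

/-!
# Solvability of `N(S)` in the automorphism group
-/

set_option autoImplicit false
set_option linter.unusedSectionVars false
open Cfsg BG Subgroup H22 H23.GW H04
open scoped commutatorElement

namespace H23.OS
universe u
variable {G : Type u} [Group G] [Finite G] {K L S : Subgroup G}

theorem le_cent_of_map {A : Subgroup G} (hA : A ≤ N_(S)) (hK : K ≤ A)
    (h : (K.subgroupOf A).map (H01.conjHom hA) = ⊥) : K ≤ C_(S) := fun k hk => by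
  rw [Subgroup.map_eq_bot_iff, H01.conjHom_ker] at h
  exact h (x := ⟨k, hK hk⟩) hk

theorem sub_norm {A : Subgroup G} {Y : Type*} [Group Y] (f : A →* Y) (_hK : K ≤ A) (hn : K ≤ N_(L)) :
    (K.subgroupOf A).map f ≤ N_((L.subgroupOf A).map f) :=
  map_le_norm f (le_norm_iff.2 fun _ ha _ hb => conj_mem_of_norm (K := L) (hn ha) hb)

theorem frat_le (hS : IsPGroup 2 S) (T : Finset S) (hT : closure (T : Set S) = ⊤) :
    ∃ r ≤ T.card, Nat.card (S ⧸ frattini S) = 2 ^ r := by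
  obtain ⟨r, hr⟩ := hS.index (frattini S)
  exact ⟨r, le_card_of_closure_eq_top hS hr T hT, hr⟩

theorem cent_of_frat (hS : IsPGroup 2 S) (hK : ⁅K, K⁆ = K) (hn : K ≤ N_(S))
    (h : (K.subgroupOf N_(S)).map ((quotAut (frattini S)).comp (H01.conjHom le_rfl)) = ⊥) : K ≤ C_(S) := by
  refine le_cent_of_map le_rfl hn (eq_bot_of_perfect_of_sol (perf_map (perfect_subgroupOf hK hn) _)
    (pg_sol Nat.prime_two (pg_le (isPGroup_trivialMod_frattini hS) ?_)))
  rwa [← Subgroup.map_map, Subgroup.map_eq_bot_iff, ker_quotAut] at h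

theorem case_a (hS : IsPGroup 2 S) (hK : ⁅K, K⁆ = K) (hn : K ≤ N_(S)) {a b : S} (h : closure ({a, b} : Set S) = ⊤) :
    K ≤ C_(S) := by
  classical
  obtain ⟨r, hr, e⟩ := frat_le hS {a, b} (by simpa using h)
  exact cent_of_frat hS hK hn (perf_small e (hr.trans Finset.card_le_two) (perf_map (perfect_subgroupOf hK hn) _))

theorem case_b (hS : IsSylowIn 2 S L) (hK : ⁅K, K⁆ = K) (hn : K ≤ N_(S)) (hL : K ≤ N_(L)) {a b c : S}
    (h : closure ({a, b, c} : Set S) = ⊤) {g : G} (hg : g ∈ L) (hgn : g ∈ N_(S)) (ho : Odd (orderOf g)) (hc : g ∉ C_(S)) :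
    K ≤ C_(S) := by
  classical
  have hp := Nat.prime_two
  have hS2 := IsSylowIn.pg hS hp
  obtain ⟨r, hr, e⟩ := frat_le hS2 {a, b, c} (by simpa using h)
  refine cent_of_frat hS2 hK hn (perf_eight e (hr.trans Finset.card_le_three) (fun hd => ?_) (fun e => hc ?_)
    (perf_map (perfect_subgroupOf hK hn) _) (sub_norm _ hn hL))
  · rw [← relIndex_ker] at hd
    refine IsSylowIn.not_dvd' (hS.sub (le_inf hS.le (le_norm S)) inf_le_left) hp (hd.trans ?_)
    rw [← relIndex_subgroupOf (inf_le_right : L ⊓ N_(S) ≤ _), inf_subgroupOf_right]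
    refine relIndex_dvd_left _ fun s hs => ?_
    rw [MonoidHom.mem_ker, MonoidHom.comp_apply, ← MonoidHom.mem_ker, mem_ker_quotAut]
    intro x
    obtain ⟨y, hy, e⟩ := der_le_phi hp hS2 (commutator_mem_commutator (show (s : G) ∈ S from hs) x.2)
    exact (Subtype.ext e : y = H01.conjHom le_rfl s x * x⁻¹) ▸ hy
  · rw [← Subgroup.map_map, Subgroup.map_eq_bot_iff, ker_quotAut] at e
    have h1 := e (mem_map_of_mem _ (show (⟨g, hgn⟩ : N_(S)) ∈ L.subgroupOf _ from hg))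
    obtain ⟨k, hk⟩ := isPGroup_trivialMod_frattini hS2 ⟨_, h1⟩
    have h2 : H01.conjHom le_rfl (⟨g, hgn⟩ : N_(S)) = 1 := by
      rw [← orderOf_eq_one_iff]
      exact Nat.eq_one_of_dvd_coprimes (ho.coprime_two_right.pow_right k)
        ((orderOf_map_dvd _ _).trans (orderOf_mk _ _).dvd) (orderOf_dvd_of_pow_eq_one (congrArg Subtype.val hk))
    rwa [← MonoidHom.mem_ker, H01.conjHom_ker] at h2

theorem case_c (hS : IsSylowIn 2 S L) (hK : ⁅K, K⁆ = K) (hn : K ≤ N_(S)) (hL : K ≤ N_(L))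
    (h1 : ∀ s ∈ S, ∀ t ∈ S, orderOf s = 2 → orderOf t = 2 → s * t = t * s)
    (h2 : ∀ s ∈ S, ∀ t ∈ S, orderOf s = 2 → orderOf t = 2 → ∃ g ∈ L, g * s * g⁻¹ = t) : K ≤ C_(S) := by
  have hp := Nat.prime_two
  have hS2 := IsSylowIn.pg hS hp
  have ho : ∀ s : G, s * s = 1 → s ≠ 1 → orderOf s = 2 := fun s h h' => orderOf_eq_prime (by rw [pow_two, h]) h'
  have h3 : ∀ s ∈ S, ∀ t ∈ S, s * s = 1 → t * t = 1 → s * t = t * s := fun s hs t ht e1 e2 => by
    by_cases e3 : s = 1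
    · simp [e3]
    by_cases e4 : t = 1
    · simp [e4]
    exact h1 s hs t ht (ho s e1 e3) (ho t e2 e4)
  obtain ⟨W, hW⟩ : ∃ W : Subgroup G, ∀ s, s ∈ W ↔ s ∈ S ∧ s * s = 1 :=
    ⟨{ carrier := {s | s ∈ S ∧ s * s = 1}
       one_mem' := ⟨one_mem _, mul_one 1⟩
       mul_mem' := fun {a b} ha hb => ⟨mul_mem ha.1 hb.1, by
         rw [mul_assoc, ← mul_assoc b, ← h3 a ha.1 b hb.1 ha.2 hb.2, mul_assoc, hb.2, mul_one, ha.2]⟩
       inv_mem' := fun {a} ha => ⟨inv_mem ha.1, by rw [← mul_inv_rev, ha.2, inv_one]⟩ }, fun _ => Iff.rfl⟩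
  have hWS : W ≤ S := fun s hs => ((hW s).1 hs).1
  have hW2 := pg_le hS2 hWS
  have hc : ∀ g, cj g W ≤ S → cj g W = W := fun g hg => BG.eq_of_le_of_card_le (fun s hs => (hW s).2 ⟨hg hs, by
    obtain ⟨y, hy, rfl⟩ := mem_cj'.1 hs
    rw [conj_mul, ((hW y).1 hy).2, mul_one, mul_inv_cancel]⟩) (card_cj g W).ge
  have hN : N_(S) ≤ N_(W) := fun g hg => cj_eq_self_iff.1 (hc g (cj_le_of_mem_norm hWS hg))
  have hab : W ≤ C_(W) := le_cent_iff.2 fun a ha b hb =>
    h3 a (hWS ha) b (hWS hb) ((hW a).1 ha).2 ((hW b).1 hb).2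
  have hKW := hn.trans hN
  refine cent_symm (cent_of_invol hK hS2 hn fun d hd e => cent_symm (le_cent_of_map le_rfl hKW ?_) ((hW d).2 ⟨hd, e⟩))
  obtain ⟨n, hn'⟩ := pg_card hp hW2
  have hK' := perf_map (perfect_subgroupOf hK hKW) (H01.conjHom le_rfl)
  have h4 := le_of_trans hn' (fun x y hx hy => ?_) hK' (sub_norm (L := L) _ hKW hL)
  · have h5 : IsSylowIn 2 S (L ⊓ N_(W)) := hS.sub (le_inf hS.le ((le_norm S).trans hN)) inf_le_left
    have h6 : IsSylowIn 2 (S.subgroupOf N_(W)) (L.subgroupOf N_(W)) := by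
      rw [← inf_subgroupOf_right L]
      exact isSylowIn_mk hp (subgroupOf_mono _ h5.le) hS2.comap_subtype (by
        rw [relIndex_subgroupOf inf_le_right]; exact IsSylowIn.not_dvd' h5 hp)
    have h7 := BG.Cfsg.IsPiHallOf.map h6 (H01.conjHom (le_refl N_(W)))
    have h8 := sub_norm (L := S) (H01.conjHom le_rfl) hKW hn
    generalize Subgroup.map (H01.conjHom (le_refl N_(W))) (S.subgroupOf N_(W)) = S' at h7 h8
    generalize Subgroup.map (H01.conjHom (le_refl N_(W))) (L.subgroupOf N_(W)) = L' at h7 h4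
    have h9 := h7.sub (le_inf h7.le (le_norm _)) inf_le_left
    obtain ⟨H, hH⟩ := h9.exists_compl inf_le_right
    refine eq_bot_of_perfect_of_sol hK' (sol_of_le (sol_sup (ft fun hd => IsSylowIn.not_dvd' h9 hp ?_)
      (pg_sol hp (IsSylowIn.pg h9 hp)) (hH.le_right.trans hH.normal)) ((le_inf h4 h8).trans hH.isComplIn.sup.ge))
    rwa [hH.relIndex_left]
  · have hx' := (hW x).1 x.2
    have hy' := (hW y).1 y.2
    obtain ⟨g, hg, e⟩ := h2 x hx'.1 y hy'.1 (ho _ hx'.2 fun e => hx (Subtype.ext e)) (ho _ hy'.2 fun e => hy (Subtype.ext e))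
    obtain ⟨T, hT, h5⟩ := sylow_superset hp hW2 (le_inf (hWS.trans hS.le) (hab.trans (cent_le_cent1 y.2)))
    obtain ⟨k, hk, h6⟩ := sylow_Jsub hp hT (isPGroup_cj.2 hW2 : IsPGroup 2 (cj g W))
      (le_inf (cj_le_of_mem (hWS.trans hS.le) hg) (e ▸ cj_cent1 g x ▸ cj_mono g (hab.trans (cent_le_cent1 x.2))))
    obtain ⟨m, -, h7⟩ := sylow_Jsub hp hS (IsSylowIn.pg hT hp) (hT.le.trans inf_le_left)
    have h8 := hc (m * (k * g)) (by rw [← cj_cj, ← cj_cj]; exact (cj_mono m h6).trans h7)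
    rw [← cj_cj, cj_eq_iff, ← cj_eq_iff.1 (hc m ((cj_mono m h5).trans h7))] at h8
    refine ⟨_, mem_map_of_mem _ (show (⟨k * g, cj_eq_self_iff.1 h8⟩ : N_(W)) ∈ L.subgroupOf _ from mul_mem hk.1 hg),
      Subtype.ext ?_⟩
    show k * g * x * (k * g)⁻¹ = y
    rw [← mul_inv_cancel_right (y : G) k, ← mem_cent1.1 hk.2, ← e]; group

end H23.OS
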