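import Mathlib
import Cfsg.Agent.H21.Quot
import Cfsg.Agent.H08.Signed

/-!
Smith–Tyrer, character part.  `π : E →* G` is a central extension with kernel a `p`-group,
`φ` a generalized character of `G` vanishing on `p`-singular elements.  `fz π ζ p φ` is the class function of `E`
which is `ζ z * φ (π y)` at `z * y` (`z ∈ ker π`, `y` regular) and `0` elsewhere; it is a generalized
character (`fz_gen`) of the same norm as `φ`.  `main` : the involution argument.
-/

set_option autoImplicit false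
set_option linter.unusedSectionVars false
set_option linter.unusedVariables false

namespace H23.ST
open H05 Cfsg H20 H21 H08 Classical
open scoped ComplexConjugate

variable {M : Ideal AlgInt} {p : ℕ} [hp : Fact p.Prime]

theorem ring_class_sum {E : Type*} [Group E] [Fintype E] [M.IsMaximal] {F : E → ℂ} (hF : IsClassFunction E F)
    (c : ℂ) (h : ∀ y, MemLocalRing M (c * ((Subgroup.centralizer ({y} : Set E)).index * F y))) :
    MemLocalRing M (c * ∑ y, F y) := by
  rw [← Finset.sum_fiberwise Finset.univ ConjClasses.mk F, Finset.mul_sum]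
  refine ring_sum fun C _ => ?_
  have : ∑ i with ConjClasses.mk i = C, F i = (Subgroup.centralizer ({C.out} : Set E)).index * F C.out := by
    rw [← hF.sum_ite_isConj, Finset.sum_filter]
    refine Finset.sum_congr rfl fun y _ => ?_
    exact if_congr (by rw [isConj_out_iff, eq_comm]) rfl rfl
  rw [this]
  exact h _

theorem ring_div_cent {G : Type*} [Group G] [Finite G] (hM : IsPModular p M) {φ : G → ℂ}
    (hφ : IsGeneralizedCharacter G φ) (h0 : ∀ g, p ∣ orderOf g → φ g = 0) {k : G} (hk : ¬ p ∣ orderOf k) :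
    MemLocalRing M (φ k / Nat.card (Subgroup.centralizer ({k} : Set G))) := by
  have := hM.2.1
  obtain ⟨Q⟩ : Nonempty (Sylow p (Subgroup.centralizer ({k} : Set G))) := inferInstance
  obtain ⟨N, hN⟩ : ∃ N : Subgroup G, N = (Q : Subgroup _).map (Subgroup.centralizer ({k} : Set G)).subtype := ⟨_, rfl⟩
  have := Fintype.ofFinite N
  have hNC : ∀ n ∈ N, Commute n k := by
    rw [hN]
    rintro _ ⟨x, -, rfl⟩
    exact Subgroup.mem_centralizer_singleton_iff.1 x.2
  have hNp : IsPGroup p N := hN ▸ Q.isPGroup'.map _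
  have hkN : k ∈ Subgroup.normalizer (N : Set G) := by
    apply Subgroup.centralizer_le_normalizer
    intro n hn
    exact (hNC n hn).eq
  have hs : ∑ n : N, φ (k * n) = φ k := by
    rw [Finset.sum_eq_single 1]
    · simp
    · intro n _ hn
      apply h0
      by_contra hc
      have h1 : ∃ j, orderOf (n : G) = p ^ j := by
        rw [Subgroup.orderOf_coe]; exact IsPGroup.iff_orderOf.1 hNp n
      have h2 := pPart_mul_of_commute h1 hk (hNC n n.2)
      rw [(hNC n n.2).eq, pPart_eq_one_iff.2 hc] at h2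
      exact hn (Subtype.ext h2.symm)
    · simp
  have hi : IsIntegral ℤ ((Nat.card N : ℂ)⁻¹ * φ k) := by
    obtain ⟨a, b, ha, hb, rfl⟩ := hφ
    rw [← hs]
    simp only [Pi.sub_apply, Finset.sum_sub_distrib, mul_sub]
    exact (isIntegral_avg_apply ha hkN).sub (isIntegral_avg_apply hb hkN)
  have hc : Nat.card N * (Q : Subgroup (Subgroup.centralizer ({k} : Set G))).index = Nat.card (Subgroup.centralizer ({k} : Set G)) := by
    rw [hN, Subgroup.card_map_of_injective (Subgroup.subtype_injective _), Subgroup.card_mul_index]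
  have : φ k / Nat.card (Subgroup.centralizer ({k} : Set G)) =
      ((Nat.card N : ℂ)⁻¹ * φ k) * (((Q : Subgroup (Subgroup.centralizer ({k} : Set G))).index : ℕ) : ℂ)⁻¹ := by
    rw [← hc]; push_cast; ring
  rw [this]
  exact ring_mul (ring_of_isIntegral hi) (ring_inv_natCast hM Q.not_dvd_index)

variable {E G : Type*} [Group E] [Fintype E] [Group G] [Fintype G] {π : E →* G}

theorem int_contrib (hM : IsPModular p M) (hQ : PQuot p π) {φ : G → ℂ}
    (hφ : IsGeneralizedCharacter G φ) (h0 : ∀ g, p ∣ orderOf g → φ g = 0) {ψ : E → ℂ}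
    (hψ : IsGeneralizedCharacter E ψ) :
    ∃ n : ℤ, (Nat.card π.ker : ℂ) * contrib p (fun g => φ (π g)) ψ = n := by
  have := hM.2.1
  obtain ⟨n, hn⟩ := exists_int_card_contrib hp.out (hφ.comp π) hψ
  refine exists_int_of_ring_of_pow_mul hM (k := (Nat.card E).factorization p) (n := Nat.card π.ker * n) ?_ ?_
  · push_cast; rw [← hn]; ring
  · rw [contrib, classInner_def, ← mul_assoc]
    refine ring_class_sum ((pRegularPart_isClassFunction (hφ.comp π).isClassFunction).mul
      hψ.isClassFunction.conj) _ fun y => ?_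
    simp only [Pi.mul_apply]
    by_cases hy : p ∣ orderOf y
    · rw [pRegularPart_of_dvd _ hy]; simpa using ring_zero
    · rw [pRegularPart_of_not_dvd _ hy]
      have h1 := (Subgroup.centralizer ({y} : Set E)).card_mul_index
      rw [hQ.card_centralizer hy] at h1
      have h2 : (Nat.card π.ker : ℂ) ≠ 0 := card_ne_zero_complex
      have h3 : (Nat.card (Subgroup.centralizer ({π y} : Set G)) : ℂ) ≠ 0 := card_ne_zero_complex
      have h4 : ((Subgroup.centralizer ({y} : Set E)).index : ℂ) ≠ 0 := by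
        exact_mod_cast Subgroup.index_ne_zero_of_finite
      have : (Nat.card π.ker : ℂ) * (Nat.card E : ℂ)⁻¹ * (((Subgroup.centralizer ({y} : Set E)).index : ℂ) *
          (φ (π y) * conj (ψ y))) = φ (π y) / Nat.card (Subgroup.centralizer ({π y} : Set G)) * conj (ψ y) := by
        rw [← h1]; push_cast; field_simp
      rw [this]
      exact ring_mul (ring_div_cent hM hφ h0 (not_dvd_orderOf_map π hy)) (ring_of_isIntegral (hψ.conj.isIntegral y))

/-- the twisted lift -/
noncomputable def fz (π : E →* G) (ζ : π.ker →* ℂˣ) (p : ℕ) (φ : G → ℂ) : E → ℂ :=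
  fun g => ∑ z : π.ker, (ζ z⁻¹ : ℂ) * pRegularPart p (fun g => φ (π g)) (z * g)

variable {ζ : π.ker →* ℂˣ} {φ : G → ℂ}

theorem fz_cls (hc : π.ker ≤ Subgroup.center E) (hφ : IsClassFunction G φ) : IsClassFunction E (fz π ζ p φ) := by
  intro g h
  refine Finset.sum_congr rfl fun z _ => ?_
  have : (z : E) * (h * g * h⁻¹) = h * (z * g) * h⁻¹ := by
    rw [← mul_assoc, ← mul_assoc, ← Subgroup.mem_center_iff.1 (hc z.2) h]; group
  rw [this, pRegularPart_isClassFunction (hφ.comp π)]

theorem fz_mul (hc : π.ker ≤ Subgroup.center E) (z : π.ker) (g : E) : fz π ζ p φ (z * g) = ζ z * fz π ζ p φ g := by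
  unfold fz
  rw [Finset.mul_sum]
  refine Fintype.sum_equiv (Equiv.mulRight z) _ _ fun w => ?_
  simp only [Equiv.coe_mulRight, mul_inv_rev, map_mul, map_inv, Units.val_mul, Subgroup.coe_mul, mul_assoc,
    Units.val_inv_eq_inv_val]
  rw [mul_inv_cancel_left₀ (Units.ne_zero _)]

theorem fz_reg (hQ : PQuot p π) {y : E} (hy : ¬ p ∣ orderOf y) : fz π ζ p φ y = φ (π y) := by
  unfold fz
  rw [Finset.sum_eq_single 1]
  · simp [pRegularPart_of_not_dvd _ hy]
  · intro z _ hz
    rw [pRegularPart_of_dvd, mul_zero]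
    by_contra hc
    have := hQ.pPart_mul hy z.2
    rw [hQ.cent y hy z z.2, pPart_eq_one_iff.2 hc] at this
    exact hz (Subtype.ext this.symm)
  · simp

theorem fz_sing {g : E} (hg : p ∣ orderOf (π g)) : fz π ζ p φ g = 0 := by
  refine Finset.sum_eq_zero fun z _ => ?_
  rw [pRegularPart_of_dvd, mul_zero]
  by_contra hc
  apply not_dvd_orderOf_map π hc
  rwa [map_mul, (MonoidHom.mem_ker).1 z.2, one_mul]

theorem fz_inner {h : E → ℂ} (μ : π.ker → ℂ) (hh : ∀ (z : π.ker) g, h (z * g) = μ z * h g) :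
    classInner (fz π ζ p φ) h = (∑ z : π.ker, (ζ z⁻¹ : ℂ) * conj (μ z⁻¹)) * contrib p (fun g => φ (π g)) h := by
  rw [contrib, classInner_def, classInner_def, mul_left_comm]
  congr 1
  simp only [fz, Finset.sum_mul]
  rw [Finset.sum_comm]
  refine Finset.sum_congr rfl fun z _ => ?_
  rw [Finset.mul_sum]
  refine Fintype.sum_equiv (Equiv.mulLeft (z : E)) _ _ fun g => ?_
  have := hh z⁻¹ (z * g)
  simp only [InvMemClass.coe_inv, inv_mul_cancel_left] at this
  simp only [Equiv.coe_mulLeft, this, map_mul]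
  ring

theorem fz_norm (hQ : PQuot p π) (hc : π.ker ≤ Subgroup.center E) (h0 : ∀ g, p ∣ orderOf g → φ g = 0) :
    classInner (fz π ζ p φ) (fz π ζ p φ) = classInner φ φ := by
  rw [fz_inner (fun z => (ζ z : ℂ)) (fz_mul hc)]
  simp only [monoidHom_mul_conj, Finset.sum_const, Finset.card_univ, nsmul_eq_mul, mul_one]
  have h1 : contrib p (fun g => φ (π g)) (fz π ζ p φ) = contrib p (fun g => φ (π g)) (fun g => φ (π g)) := by
    rw [contrib_def, contrib_def]
    congr 1
    exact Finset.sum_congr rfl fun y hy => by rw [fz_reg hQ (Finset.mem_filter.1 hy).2]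
  rw [h1, ← Nat.card_eq_fintype_card, hQ.contrib_comp, contrib]
  congr 1
  funext g
  rw [pRegularPart_apply]
  split_ifs with h
  · exact (h0 g h).symm
  · rfl

/-- inner product with an irreducible character -/
theorem fz_inner_irr (hc : π.ker ≤ Subgroup.center E) {ψ : E → ℂ} (hψ : IsIrrCharacter E ψ) :
    classInner (fz π ζ p φ) ψ = 0 ∨ (classInner (fz π ζ p φ) ψ = Nat.card π.ker * contrib p (fun g => φ (π g)) ψ ∧
      ∀ z : π.ker, (ζ z⁻¹ : ℂ) * conj (ψ (z⁻¹ : π.ker) / ψ 1) = 1) := by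
  have h1 := hψ.apply_one_ne_zero
  have hh : ∀ (z : π.ker) g, ψ (z * g) = ψ z / ψ 1 * ψ g := fun z g => hψ.apply_mul_of_mem_center (hc z.2) g
  let F : π.ker →* ℂ :=
    { toFun := fun z => (ζ z⁻¹ : ℂ) * conj (ψ (z⁻¹ : π.ker) / ψ 1)
      map_one' := by simp [h1]
      map_mul' := fun a b => by
        rw [mul_inv_rev, map_mul, Subgroup.coe_mul, hh, mul_div_assoc, map_mul]
        push_cast
        ring }
  have h2 := fz_inner (ζ := ζ) (p := p) (φ := φ) (fun z => ψ z / ψ 1) hh
  have h3 : ∑ z : π.ker, (ζ z⁻¹ : ℂ) * conj (ψ (z⁻¹ : π.ker) / ψ 1) = ∑ z, F z := rfl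
  rw [h3, sum_hom_units] at h2
  split_ifs at h2 with hF
  · refine Or.inr ⟨by rw [h2, Nat.card_eq_fintype_card], fun z => ?_⟩
    exact DFunLike.congr_fun hF z
  · left; simpa using h2

theorem fz_gen (hM : IsPModular p M) (hQ : PQuot p π) (hc : π.ker ≤ Subgroup.center E)
    (hφ : IsGeneralizedCharacter G φ) (h0 : ∀ g, p ∣ orderOf g → φ g = 0) :
    IsGeneralizedCharacter E (fz π ζ p φ) := by
  refine isGeneralizedCharacter_of_classInner (fz_cls hc hφ.isClassFunction) fun ψ hψ => ?_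
  rcases fz_inner_irr (ζ := ζ) (p := p) (φ := φ) hc hψ with h | ⟨h, -⟩
  · exact ⟨0, by simpa using h⟩
  · rw [h]; exact int_contrib hM hQ hφ h0 hψ.isGeneralizedCharacter

theorem span_of_principal (hM : IsPModular p M) (hQ : PQuot p π) {X : G → ℂ}
    (hB : ∀ η ∈ principalBlock M G, ∃ u v : ℂ, ∀ k, ¬ p ∣ orderOf k → (η : G → ℂ) k = u + v * X k)
    {ψ : IrrCharacter E} (hψ : ψ ∈ principalBlock M E) :
    ∃ u v : ℂ, ∀ y, ¬ p ∣ orderOf y → (ψ : E → ℂ) y = u + v * X (π y) := by
  have := hM.2.1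
  choose! u v huv using hB
  let c : IrrCharacter E → ℂ := fun χ => contrib p (ψ : E → ℂ) χ
  refine ⟨Nat.card π.ker * ∑ η with η ∈ principalBlock M G, u η * c (infl hQ.surj η),
    Nat.card π.ker * ∑ η with η ∈ principalBlock M G, v η * c (infl hQ.surj η), fun y hy => ?_⟩
  have h1 := card_ker_mul_sum_dom hQ.surj (principalBlock M E) c y
  have h2 := pRegularPart_eq_sum_contrib hM (int_block isPBlock_principal) hψ
  have h3 : ∀ z : π.ker, ∑ χ with χ ∈ principalBlock M E, (χ : E → ℂ) (y * z) * c χ =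
      pRegularPart p (ψ : E → ℂ) (y * z) := fun z => by
    rw [h2, Finset.sum_apply]
    exact Finset.sum_congr rfl fun χ _ => by simp [c, mul_comm]
  simp only [h3] at h1
  rw [Finset.sum_eq_single (1 : π.ker), hQ.dom_principal hM] at h1
  · simp only [OneMemClass.coe_one, mul_one, pRegularPart_of_not_dvd _ hy] at h1
    rw [← h1, mul_assoc, ← mul_add, Finset.sum_mul, ← Finset.sum_add_distrib]
    congr 1
    refine Finset.sum_congr rfl fun η hη => ?_
    rw [huv η (Finset.mem_filter.1 hη).2 _ (not_dvd_orderOf_map π hy)]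
    ring
  · intro z _ hz
    apply pRegularPart_of_dvd
    by_contra hc
    have := hQ.pPart_mul hy z.2
    rw [pPart_eq_one_iff.2 hc] at this
    exact hz (Subtype.ext this.symm)
  · simp

theorem span_of_sg (hM : IsPModular p M) (hQ : PQuot p π) (hc : π.ker ≤ Subgroup.center E) {χ : IrrCharacter G}
    (hχ : χ ∈ principalBlock M G) {ε : ℂ} {X : G → ℂ} (hX : X = ε • (χ : G → ℂ))
    (hB : ∀ η ∈ principalBlock M G, ∃ u v : ℂ, ∀ k, ¬ p ∣ orderOf k → (η : G → ℂ) k = u + v * X k)
    {z : π.ker} (hz : (z : E) ∈ commutator E) (hζ : ζ z ≠ 1) {a : E → ℂ} (ha : Sg a)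
    (h1 : classInner (fz π ζ p (1 - X)) a = 1) :
    a 1 ≠ 1 ∧ Nat.card π.ker * contrib p (fun g => (1 - X) (π g)) a = 1 ∧
      ∃ u v : ℂ, ∀ y, ¬ p ∣ orderOf y → a y = u + v * X (π y) := by
  have := hM.2.1
  have key : ∀ ψ, IsIrrCharacter E ψ → classInner (fz π ζ p (1 - X)) ψ ≠ 0 → ψ 1 ≠ 1 ∧
      classInner (fz π ζ p (1 - X)) ψ = Nat.card π.ker * contrib p (fun g => (1 - X) (π g)) ψ ∧
      ∃ u v : ℂ, ∀ y, ¬ p ∣ orderOf y → ψ y = u + v * X (π y) := by
    intro ψ hψ hne
    rcases fz_inner_irr (ζ := ζ) (p := p) (φ := 1 - X) hc hψ with h | ⟨h, h'⟩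
    · exact absurd h hne
    refine ⟨fun h2 => ?_, h, span_of_principal hM hQ hB (ψ := ⟨ψ, hψ⟩) ?_⟩
    · obtain ⟨l, rfl⟩ := hψ.isCharacter.exists_monoidHom h2
      have h3 : l (z : E) = 1 := Abelianization.commutator_subset_ker l hz
      have h4 := h' z⁻¹
      simp only [inv_inv, h3, map_one, Units.val_one, div_one, mul_one] at h4
      exact hζ (Units.val_eq_one.1 h4)
    · by_contra hn
      apply hne
      have h3 : (fun g => (1 - X) (π g)) = (irrOne E : E → ℂ) - ε • (infl hQ.surj χ : E → ℂ) := by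
        funext g; simp [hX]
      have h4 := contrib_eq_zero hM (int_block isPBlock_principal) (one_mem_principal (M := M) (G := E)) hn
      have h5 := contrib_eq_zero hM (int_block isPBlock_principal) (infl_mem_principal hQ.surj hχ) hn
      rw [contrib] at h4 h5
      rw [h, h3, contrib, pRegularPart_sub, pRegularPart_smul, classInner_sub_left, classInner_smul_left, h4, h5]
      simp
  obtain ⟨ψ, hψ, rfl | rfl⟩ := ha.cases
  · obtain ⟨h2, h3, h4⟩ := key a hψ (by rw [h1]; exact one_ne_zero)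
    exact ⟨h2, h3 ▸ h1, h4⟩
  · rw [classInner_neg_right] at h1
    obtain ⟨h2, h3, u, v, h4⟩ := key ψ hψ (by intro h; rw [h] at h1; simp at h1)
    refine ⟨fun h => ?_, ?_, -u, -v, fun y hy => by simp only [Pi.neg_apply, h4 y hy]; ring⟩
    · obtain ⟨n, hn, h5⟩ := hψ.exists_degree_pos
      simp only [Pi.neg_apply, h5] at h
      have : -(n : ℤ) = 1 := by exact_mod_cast h
      omega
    · rw [contrib, classInner_neg_right, ← contrib, mul_neg, ← h3, h1]

theorem alg {u v D A : ℂ} (huv : u - v = 1) (hD : D ≠ 0) (h1 : u + v * D ≠ 0) (h2 : v + u * D ≠ 0)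
    (h : (u + v * A) * (u + v * A) / (u + v * D) - (v + u * A) * (v + u * A) / (v + u * D) = 1 - A * A / D) :
    A = D ∨ u = 0 ∨ v = 0 ∨ D = 1 := by
  obtain rfl : u = v + 1 := by linear_combination huv
  field_simp at h
  have : (A - D) ^ 2 * ((v + 1) * v * (D - 1)) = 0 := by linear_combination -h
  simp only [mul_eq_zero, pow_eq_zero_iff, ne_eq, OfNat.ofNat_ne_zero, not_false_eq_true, sub_eq_zero] at this
  tauto

theorem reg_of_sq {H : Type*} [Group H] (hp2 : p ≠ 2) {x : H} (hx : x * x = 1) : ¬ p ∣ orderOf x := by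
  intro h
  have h1 : orderOf x ∣ 2 := orderOf_dvd_of_pow_eq_one (by rw [pow_two, hx])
  exact hp2 ((Nat.prime_dvd_prime_iff_eq hp.out Nat.prime_two).1 (h.trans h1))

theorem main (hp2 : p ≠ 2) (hM : IsPModular p M) (hQ : PQuot p π) (hc : π.ker ≤ Subgroup.center E)
    {χ : IrrCharacter G} (hχ : χ ∈ principalBlock M G) (hχ1 : (χ : G → ℂ) ≠ 1) {ε : ℤ} (hε : ε = 1 ∨ ε = -1)
    (hs : ∀ g, p ∣ orderOf g → (χ : G → ℂ) g = ε)
    (hB : ∀ η ∈ principalBlock M G, ∃ u v : ℂ, ∀ k, ¬ p ∣ orderOf k → (η : G → ℂ) k = u + v * (ε * (χ : G → ℂ) k))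
    {z : E} (hz1 : z ∈ π.ker) (hz : z ∈ commutator E) (hz0 : z ≠ 1) {t : G} (ht : t * t = 1) :
    (χ : G → ℂ) 1 = 1 ∨ (χ : G → ℂ) t = (χ : G → ℂ) 1 := by
  have hcomm : IsMulCommutative π.ker := ⟨⟨fun a b => Subtype.ext (Subgroup.mem_center_iff.1 (hc b.2) a)⟩⟩
  obtain ⟨ζ, hζ⟩ : ∃ ζ : π.ker →* ℂˣ, ζ ⟨z, hz1⟩ ≠ 1 := by
    let _ : CommGroup π.ker := { mul_comm := hcomm.is_comm.comm }
    exact CommGroup.exists_apply_ne_one_of_hasEnoughRootsOfUnity π.ker ℂ (fun h => hz0 (congrArg Subtype.val h))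
  obtain ⟨X, hX⟩ : ∃ X : G → ℂ, X = (ε : ℂ) • (χ : G → ℂ) := ⟨_, rfl⟩
  have hε2 : (ε : ℂ) * ε = 1 := by rcases hε with rfl | rfl <;> simp
  have hXa : ∀ k, X k = ε * (χ : G → ℂ) k := fun k => by simp [hX]
  have hXg : IsGeneralizedCharacter G X := hX ▸ χ.2.isGeneralizedCharacter.intCast_smul ε
  have hXX : classInner X X = 1 := by
    rw [hX, classInner_smul_left, classInner_intCast_smul_right, χ.2.classInner_self, mul_one, hε2]
  have hX1 : classInner X 1 = 0 := by
    rw [hX, classInner_smul_left, χ.2.classInner_of_ne isIrrCharacter_one hχ1, mul_zero]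
  have h1X : classInner 1 X = 0 := (classInner_eq_zero_comm _ _).1 hX1
  have h11 : classInner (1 : G → ℂ) 1 = 1 := isIrrCharacter_one.classInner_self
  have hφ : IsGeneralizedCharacter G (1 - X) := isGeneralizedCharacter_one.sub hXg
  have h0 : ∀ g, p ∣ orderOf g → (1 - X) g = 0 := fun g hg => by
    simp [hXa, hs g hg, hε2]
  have hB' : ∀ η ∈ principalBlock M G, ∃ u v : ℂ, ∀ k, ¬ p ∣ orderOf k → (η : G → ℂ) k = u + v * X k := by
    simpa only [hXa] using hB
  have hn : classInner (fz π ζ p (1 - X)) (fz π ζ p (1 - X)) = 2 := by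
    rw [fz_norm hQ hc h0, classInner_sub_left, classInner_sub_right, classInner_sub_right, h11, h1X, hX1, hXX]
    norm_num
  obtain ⟨a, b, ha, hb, hab, hf⟩ := exists_sg_two (fz_gen hM hQ hc hφ h0) hn
  have hba := (classInner_eq_zero_comm _ _).1 hab
  have key : ∀ c, Sg c → classInner (fz π ζ p (1 - X)) c = 1 →
      c 1 ≠ 1 ∧ ∃ u v : ℂ, u - v = 1 ∧ ∀ y, ¬ p ∣ orderOf y → c y = u + v * X (π y) := by
    intro c hc' h1
    obtain ⟨h2, h3, u, v, h4⟩ := span_of_sg hM hQ hc hχ hX hB' (z := ⟨z, hz1⟩) hz hζ hc' h1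
    refine ⟨h2, u, v, ?_, h4⟩
    have h5 : contrib p (fun g => (1 - X) (π g)) c =
        contrib p (fun g => (1 - X) (π g)) (fun g => (u • (1 : G → ℂ) + v • X) (π g)) := by
      rw [contrib_def, contrib_def]
      congr 1
      exact Finset.sum_congr rfl fun y hy => by simp [h4 y (Finset.mem_filter.1 hy).2]
    have h6 : pRegularPart p (1 - X) = 1 - X := by
      funext g
      rw [pRegularPart_apply]
      split_ifs with h
      · exact (h0 g h).symm
      · rfl
    rw [h5, hQ.contrib_comp, contrib, h6, classInner_add_right, classInner_smul_right, classInner_smul_right,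
      classInner_sub_left, classInner_sub_left, h11, h1X, hX1, hXX] at h3
    have h7 : conj (u - v) = 1 := by rw [map_sub]; linear_combination h3
    simpa using congrArg conj h7
  obtain ⟨ha1, u, v, huv, hav⟩ := key a ha (by rw [hf, classInner_add_left, ha.norm, hba, add_zero])
  obtain ⟨hb1, u', v', huv', hbv⟩ := key b hb (by rw [hf, classInner_add_left, hb.norm, hab, zero_add])
  have hr1 : ¬ p ∣ orderOf (1 : E) := by simpa using hp.out.one_lt.ne'
  have hdeg : ∀ e : ℤ, X 1 = e → (e = 1 ∨ e = -1) → (χ : G → ℂ) 1 = 1 := by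
    intro e h he
    obtain ⟨n, hn, h5⟩ := χ.2.exists_degree_pos
    rw [hXa, h5] at h
    have h6 : ε * n = e := by exact_mod_cast h
    have : n = 1 := by rcases hε with rfl | rfl <;> rcases he with rfl | rfl <;> omega
    rw [h5, this, Nat.cast_one]
  by_cases hD : X 1 = -1
  · exact Or.inl (hdeg (-1) (by simpa using hD) (Or.inr rfl))
  have hs0 : u' = -v := by
    have h1 := congrFun hf 1
    rw [fz_reg hQ hr1, Pi.add_apply, hav 1 hr1, hbv 1 hr1, map_one, Pi.sub_apply, Pi.one_apply] at h1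
    have h2 : (u' + v) * (X 1 + 1) = 0 := by linear_combination -h1 - huv + X 1 * huv'
    rcases mul_eq_zero.1 h2 with h | h
    · linear_combination h
    · exact absurd (by linear_combination h) hD
  have hs1 : v' = -u := by linear_combination hs0 - huv' + huv
  subst hs0 hs1
  obtain ⟨s, hs1, rfl⟩ := hQ.reg_surj (reg_of_sq hp2 ht)
  have hss : s * s = 1 := by
    refine hQ.reg_inj (fun h => hs1 (h.trans ?_)) hr1 (by rw [map_mul, ht, map_one])
    rw [← pow_two]; exact orderOf_pow_dvd 2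
  have hps : pairSum s s (fz π ζ p (1 - X)) = pairSum s s (1 - fun g => X (π g)) := by
    refine pairSum_congr fun x y hx hy => ?_
    show _ = (1 - X) (π (x * y))
    by_cases h : p ∣ orderOf (π (x * y))
    · rw [fz_sing h, h0 _ h]
    refine fz_reg hQ (pPart_eq_one_iff.1 ?_)
    have hx2 : x * x = 1 := by
      obtain ⟨c, rfl⟩ := isConj_iff.1 hx
      rw [show c * s * c⁻¹ * (c * s * c⁻¹) = c * (s * s) * c⁻¹ by group, hss]; simp
    have hy2 : y * y = 1 := by
      obtain ⟨c, rfl⟩ := isConj_iff.1 hy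
      rw [show c * s * c⁻¹ * (c * s * c⁻¹) = c * (s * s) * c⁻¹ by group, hss]; simp
    have h1 : pPart p (x * y) ∈ π.ker := by
      rw [MonoidHom.mem_ker, map_pPart, pPart_eq_one_iff.2 h]
    have h2 : x * (x * y) * x⁻¹ = (x * y)⁻¹ := by
      rw [← mul_assoc, hx2, one_mul, mul_inv_rev, eq_inv_of_mul_eq_one_left hy2, inv_inv]
      congr 1
      exact (inv_eq_of_mul_eq_one_left hy2)
    have h3 := pPart_conj p x (x * y)
    rw [h2, pPart_inv, Subgroup.mem_center_iff.1 (hc h1) x, mul_inv_cancel_right] at h3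
    have h4 := reg_of_sq hp2 (inv_eq_iff_mul_eq_one.1 h3)
    rw [← pPart_pPart, pPart_eq_one_iff.2 h4]
  have hXs : Sg (fun g => X (π g)) :=
    ⟨hXg.comp π, by rw [classInner_comp_of_surjective _ _ π hQ.surj, hXX]⟩
  have hX0 := hXs.one_ne
  have ha0 := ha.one_ne
  have hb0 := hb.one_ne
  rw [hf, pairSum_add, pairSum_sub, ha.pairSum, hb.pairSum, sg_one.pairSum, hXs.pairSum, ← mul_add, ← mul_sub,
    mul_right_inj' (pow_ne_zero 2 card_ne_zero_complex), hav s hs1, hbv s hs1] at hps
  rw [hav 1 hr1] at hps ha0 ha1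
  rw [hbv 1 hr1] at hps hb0 hb1
  simp only [map_one, Pi.one_apply] at hps ha0 ha1 hb0 hb1 hX0
  have hb0' : v + u * X 1 ≠ 0 := fun h => hb0 (by linear_combination -h)
  rcases alg (A := X (π s)) huv hX0 ha0 hb0' (by
    have : (-v + -u * X (π s)) * (-v + -u * X (π s)) / (-v + -u * X 1) =
      -((v + u * X (π s)) * (v + u * X (π s)) / (v + u * X 1)) := by
      rw [show -v + -u * X 1 = -(v + u * X 1) by ring, div_neg]; ring
    rw [this] at hps
    linear_combination hps) with h | h | h | h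
  · right
    rw [hXa, hXa] at h
    exact mul_left_cancel₀ (by rcases hε with rfl | rfl <;> simp) h
  · exact absurd (by rw [h]; linear_combination huv - h) hb1
  · exact absurd (by rw [h]; linear_combination huv + h) ha1
  · exact Or.inl (hdeg 1 (by simpa using h) (Or.inl rfl))

end H23.ST
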