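import Mathlib

/-!
Smith–Tyrer, the central extension: if the fusion in `P` is by `±1` and `P` has two independent maps to `ZMod p`,
`p ∤ |G : P|`, then `G` has a central extension by a `p`-group whose kernel meets the derived group (`exists_ext`).
-/

set_option autoImplicit false
set_option linter.unusedSectionVars false
set_option linter.unusedVariables false

namespace H23.ST
open Classical
open scoped commutatorElement

universe u
variable {G : Type u} [Group G] {F : Type} [CommRing F]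

/-- additive on `P` -/
def AddOn (P : Subgroup G) (f : G → F) : Prop := ∀ x ∈ P, ∀ y ∈ P, f (x * y) = f x + f y

theorem AddOn.one {P : Subgroup G} {f : G → F} (h : AddOn P f) : f 1 = 0 := by
  have := h 1 P.one_mem 1 P.one_mem
  rw [mul_one] at this
  linear_combination -this

theorem AddOn.inv {P : Subgroup G} {f : G → F} (h : AddOn P f) {x : G} (hx : x ∈ P) : f x⁻¹ = -f x := by
  have := h x hx x⁻¹ (P.inv_mem hx)
  rw [mul_inv_cancel, h.one] at this
  linear_combination -this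

theorem exists_phi (P : Subgroup G)
    (hs : ∀ g : G, (∀ y ∈ P, g⁻¹ * y * g ∈ P → g⁻¹ * y * g = y) ∨ (∀ y ∈ P, g⁻¹ * y * g ∈ P → g⁻¹ * y * g = y⁻¹)) :
    ∃ σ : G → F, (∀ g, σ g * σ g = 1) ∧ ∀ f : G → F, AddOn P f → ∃ Φ : G → F,
      (∀ g, ∀ x ∈ P, Φ (g * x) = Φ g + f x) ∧ ∀ g, ∀ y ∈ P, Φ (y * g) = Φ g + σ g * f y := by
  let S : Setoid G := ⟨fun a b => ∃ x ∈ P, ∃ y ∈ P, b = x * a * y,
    fun a => ⟨1, P.one_mem, 1, P.one_mem, by simp⟩,
    fun ⟨x, hx, y, hy, h⟩ => ⟨x⁻¹, P.inv_mem hx, y⁻¹, P.inv_mem hy, by rw [h]; group⟩,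
    fun ⟨x, hx, y, hy, h⟩ ⟨x', hx', y', hy', h'⟩ =>
      ⟨x' * x, P.mul_mem hx' hx, y * y', P.mul_mem hy hy', by rw [h', h]; group⟩⟩
  let r : G → G := fun g => (Quotient.mk S g).out
  have hr : ∀ g, ∃ x ∈ P, ∃ y ∈ P, g = x * r g * y := fun g => Quotient.mk_out (s := S) g
  have hr' : ∀ g, ∀ x ∈ P, ∀ y ∈ P, r (x * g * y) = r g := fun g x hx y hy => by
    have : Quotient.mk S g = Quotient.mk S (x * g * y) := Quotient.sound ⟨x, hx, y, hy, rfl⟩
    simp only [r, this]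
  choose a ha b hb hab using hr
  have hτ : ∀ g : G, ∃ τ : F, τ * τ = 1 ∧ ∀ f : G → F, AddOn P f → ∀ y ∈ P, g⁻¹ * y * g ∈ P →
      f (g⁻¹ * y * g) = τ * f y := fun g => by
    rcases hs g with h | h
    · exact ⟨1, by simp, fun f hf y hy hy' => by rw [h y hy hy', one_mul]⟩
    · exact ⟨-1, by simp, fun f hf y hy hy' => by rw [h y hy hy', hf.inv hy]; ring⟩
  choose τ hτ1 hτ using hτ
  refine ⟨fun g => τ (r g), fun g => hτ1 _, fun f hf => ?_⟩
  have key : ∀ g, ∀ x ∈ P, ∀ y ∈ P, g = x * r g * y →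
      τ (r g) * f (a g) + f (b g) = τ (r g) * f x + f y := by
    intro g x hx y hy h
    have h1 : (r g)⁻¹ * (x⁻¹ * a g) * r g = y * (b g)⁻¹ := by
      have h2 := (hab g).symm.trans h
      calc _ = (r g)⁻¹ * x⁻¹ * (a g * r g * b g) * (b g)⁻¹ := by group
        _ = _ := by rw [h2]; group
    have h2 := hτ (r g) f hf _ (P.mul_mem (P.inv_mem hx) (ha g)) (h1 ▸ P.mul_mem hy (P.inv_mem (hb g)))
    rw [h1, hf _ hy _ (P.inv_mem (hb g)), hf _ (P.inv_mem hx) _ (ha g), hf.inv hx, hf.inv (hb g)] at h2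
    linear_combination -h2
  refine ⟨fun g => τ (r g) * f (a g) + f (b g), fun g x hx => ?_, fun g y hy => ?_⟩
  · have h1 : r (g * x) = r g := by simpa using hr' g 1 P.one_mem x hx
    have := key (g * x) (a g) (ha g) (b g * x) (P.mul_mem (hb g) hx) (by
      rw [h1, ← mul_assoc, ← hab g])
    rw [hf _ (hb g) _ hx, h1] at this
    simp only [h1]
    linear_combination this
  · have h1 : r (y * g) = r g := by simpa using hr' g y hy 1 P.one_mem
    have := key (y * g) (y * a g) (P.mul_mem hy (ha g)) (b g) (hb g) (by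
      rw [h1, mul_assoc, mul_assoc, ← mul_assoc (a g), ← hab g])
    rw [hf _ hy _ (ha g), h1] at this
    simp only [h1]
    linear_combination this

/-- a normalized 2-cocycle -/
structure Coc (G : Type u) [Group G] (F : Type) [CommRing F] where
  c : G → G → F
  one_left : ∀ g, c 1 g = 0
  one_right : ∀ g, c g 1 = 0
  coc : ∀ g h k, c g h + c (g * h) k = c h k + c g (h * k)

@[ext] structure Coc.Ext (C : Coc G F) where
  a : F
  g : G

namespace Coc
variable (C : Coc G F)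

instance : Mul C.Ext := ⟨fun x y => ⟨x.a + y.a + C.c x.g y.g, x.g * y.g⟩⟩
instance : One C.Ext := ⟨⟨0, 1⟩⟩
instance : Inv C.Ext := ⟨fun x => ⟨-x.a - C.c x.g⁻¹ x.g, x.g⁻¹⟩⟩
@[simp] theorem mul_a (x y : C.Ext) : (x * y).a = x.a + y.a + C.c x.g y.g := rfl
@[simp] theorem mul_g (x y : C.Ext) : (x * y).g = x.g * y.g := rfl
@[simp] theorem one_a : (1 : C.Ext).a = 0 := rfl
@[simp] theorem one_g : (1 : C.Ext).g = 1 := rfl
@[simp] theorem inv_a (x : C.Ext) : (x⁻¹).a = -x.a - C.c x.g⁻¹ x.g := rfl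
@[simp] theorem inv_g (x : C.Ext) : (x⁻¹).g = x.g⁻¹ := rfl

instance : Group C.Ext := Group.ofLeftAxioms
  (fun x y z => by
    ext
    · simp only [mul_a, mul_g]; linear_combination C.coc x.g y.g z.g
    · simp [mul_assoc])
  (fun x => by ext <;> simp [C.one_left])
  (fun x => by
    ext
    · simp only [mul_a, inv_a, inv_g, one_a]; ring
    · simp)

instance [Finite F] [Finite G] : Finite C.Ext :=
  Finite.of_injective (fun x : C.Ext => (x.a, x.g)) fun x y h => by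
    ext
    · exact congrArg Prod.fst h
    · exact congrArg Prod.snd h

def pr : C.Ext →* G := MonoidHom.mk' (fun x => x.g) fun _ _ => rfl

theorem pr_surj : Function.Surjective C.pr := fun g => ⟨⟨0, g⟩, rfl⟩

theorem ker_le : C.pr.ker ≤ Subgroup.center C.Ext := fun z hz => by
  have h : z.g = 1 := hz
  rw [Subgroup.mem_center_iff]
  intro x
  ext <;> simp [h, C.one_left, C.one_right, add_comm]

theorem pow_a {z : C.Ext} (h : z.g = 1) (n : ℕ) : z ^ n = ⟨n * z.a, 1⟩ := by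
  induction n with
  | zero => ext <;> simp
  | succ n ih => rw [pow_succ, ih]; ext <;> simp [h, C.one_left]; ring

end Coc

theorem exists_coc [Finite G] (P : Subgroup G)
    (hs : ∀ g : G, (∀ y ∈ P, g⁻¹ * y * g ∈ P → g⁻¹ * y * g = y) ∨ (∀ y ∈ P, g⁻¹ * y * g ∈ P → g⁻¹ * y * g = y⁻¹))
    {f₁ f₂ : G → F} (h₁ : AddOn P f₁) (h₂ : AddOn P f₂) :
    ∃ C : Coc G F, ∀ x ∈ P, ∀ y ∈ P, C.c x y = P.index * (f₁ x * f₂ y) := by
  have := Fintype.ofFinite (G ⧸ P)
  obtain ⟨σ, hσ, h⟩ := exists_phi (F := F) P hs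
  obtain ⟨Φ₁, a₁, b₁⟩ := h f₁ h₁
  obtain ⟨Φ₂, a₂, b₂⟩ := h f₂ h₂
  let φ : (G → F) → G → G ⧸ P → F := fun Φ g w => Φ (g * w.out) - Φ w.out
  have e : ∀ {Φ f : G → F}, (∀ g, ∀ x ∈ P, Φ (g * x) = Φ g + f x) → ∀ g h (w : G ⧸ P),
      φ Φ g (h • w) = Φ (g * h * w.out) - Φ (h * w.out) := by
    intro Φ f a g h w
    obtain ⟨x, hx⟩ := QuotientGroup.mk_out_eq_mul P (h * w.out)
    have : h • w = ((h * w.out : G) : G ⧸ P) := by
      conv_lhs => rw [← QuotientGroup.out_eq' w]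
      rfl
    simp only [φ, this, hx]
    rw [← mul_assoc, a _ _ x.2, a _ _ x.2, mul_assoc]
    ring
  refine ⟨⟨fun g h => ∑ w, φ Φ₁ g (h • w) * φ Φ₂ h w, fun g => by simp [φ], fun g => by simp [φ],
    fun g h k => ?_⟩, fun x hx y hy => ?_⟩
  · rw [← Equiv.sum_comp (MulAction.toPerm k), ← Finset.sum_add_distrib, ← Finset.sum_add_distrib]
    refine Finset.sum_congr rfl fun w _ => ?_
    simp only [MulAction.toPerm_apply, ← mul_smul, e a₁, e a₂]
    simp only [φ, mul_assoc]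
    ring
  · simp only [e a₁]
    simp only [φ, b₁ _ _ (P.mul_mem hx hy), b₁ _ _ hy, b₂ _ _ hy, h₁ _ hx _ hy]
    rw [Finset.sum_congr rfl (g := fun _ => f₁ x * f₂ y) fun w _ => by linear_combination (f₁ x * f₂ y) * hσ w.out]
    simp [Subgroup.index, Nat.card_eq_fintype_card]

theorem exists_two_maps {p : ℕ} [hp : Fact p.Prime] [Finite G] {P : Subgroup G} (hP : IsPGroup p P)
    (hab : IsMulCommutative P) (hnc : ¬ IsCyclic P) :
    ∃ f₁ f₂ : G → ZMod p, AddOn P f₁ ∧ AddOn P f₂ ∧ ∃ x ∈ P, ∃ y ∈ P, f₁ x = 1 ∧ f₂ y = 1 ∧ f₁ y = 0 := by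
  let _ : CommGroup P := { mul_comm := hab.is_comm.comm }
  obtain ⟨ι, _, n, hn, ⟨e⟩⟩ := CommGroup.equiv_prod_multiplicative_zmod_of_finite P
  have hd : ∀ i, p ∣ n i := fun i => by
    have : NeZero (n i) := ⟨by have := hn i; omega⟩
    have h1 := (hP.of_equiv e).of_surjective (Pi.evalMonoidHom (fun i => Multiplicative (ZMod (n i))) i)
      (Function.surjective_eval i)
    obtain ⟨k, hk⟩ := IsPGroup.iff_card.1 h1
    simp only [Nat.card_eq_fintype_card, Fintype.card_multiplicative, ZMod.card] at hk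
    rcases k with _ | k
    · have := hn i; rw [pow_zero] at hk; omega
    · exact hk ▸ dvd_pow_self p k.succ_ne_zero
  obtain ⟨i, j, hij⟩ : ∃ i j : ι, i ≠ j := by
    by_contra hc
    push Not at hc
    apply hnc
    rcases isEmpty_or_nonempty ι with h | ⟨⟨i⟩⟩
    · have : Subsingleton P := e.toEquiv.subsingleton
      infer_instance
    · refine isCyclic_of_injective ((Pi.evalMonoidHom (fun i => Multiplicative (ZMod (n i))) i).comp e.toMonoidHom) ?_
      refine fun a b h => e.injective (funext fun j => ?_)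
      obtain rfl := hc i j
      exact h
  let f : ι → G → ZMod p := fun i g =>
    if h : g ∈ P then ZMod.castHom (hd i) (ZMod p) (Multiplicative.toAdd (e ⟨g, h⟩ i)) else 0
  have hf : ∀ i, AddOn P (f i) := fun i x hx y hy => by
    simp only [f, dif_pos hx, dif_pos hy, dif_pos (P.mul_mem hx hy)]
    rw [← map_add, ← toAdd_mul, ← Pi.mul_apply, ← map_mul]
    rfl
  have hv : ∀ i w, f i (e.symm w : P) = ZMod.castHom (hd i) (ZMod p) (Multiplicative.toAdd (w i)) := fun i w => by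
    simp only [f, dif_pos (e.symm w).2, Subtype.coe_eta, MulEquiv.apply_symm_apply]
  refine ⟨f i, f j, hf i, hf j, _, (e.symm (Pi.mulSingle i (Multiplicative.ofAdd 1))).2,
    _, (e.symm (Pi.mulSingle j (Multiplicative.ofAdd 1))).2, ?_, ?_, ?_⟩
  · rw [hv, Pi.mulSingle_eq_same, toAdd_ofAdd, map_one]
  · rw [hv, Pi.mulSingle_eq_same, toAdd_ofAdd, map_one]
  · rw [hv, Pi.mulSingle_eq_of_ne hij]; simp

theorem exists_ext {p : ℕ} [hp : Fact p.Prime] [Finite G] {P : Subgroup G} (hP : IsPGroup p P)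
    (hi : ¬ p ∣ P.index) (hab : IsMulCommutative P) (hnc : ¬ IsCyclic P)
    (hs : ∀ g : G, (∀ y ∈ P, g⁻¹ * y * g ∈ P → g⁻¹ * y * g = y) ∨ (∀ y ∈ P, g⁻¹ * y * g ∈ P → g⁻¹ * y * g = y⁻¹)) :
    ∃ (E : Type u) (_ : Group E) (_ : Finite E) (π : E →* G), Function.Surjective π ∧ IsPGroup p π.ker ∧
      π.ker ≤ Subgroup.center E ∧ ∃ z ∈ π.ker, z ∈ commutator E ∧ z ≠ 1 := by
  obtain ⟨f₁, f₂, h₁, h₂, x, hx, y, hy, e1, e2, e3⟩ := exists_two_maps hP hab hnc
  obtain ⟨C, hC⟩ := exists_coc P hs h₁ h₂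
  have hxy : x * y = y * x := congrArg Subtype.val (hab.is_comm.comm (⟨x, hx⟩ : P) ⟨y, hy⟩)
  refine ⟨C.Ext, inferInstance, inferInstance, C.pr, C.pr_surj, fun z => ⟨1, Subtype.ext ?_⟩, C.ker_le,
    ⁅(⟨0, x⟩ : C.Ext), (⟨0, y⟩ : C.Ext)⁆, ?_, Subgroup.commutator_mem_commutator trivial trivial, fun h => ?_⟩
  · rw [pow_one, SubgroupClass.coe_pow, C.pow_a z.2]
    ext <;> simp
  · rw [MonoidHom.mem_ker, map_commutatorElement, commutatorElement_eq_one_iff_mul_comm]
    exact hxy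
  · have h3 := congrArg Coc.Ext.a (commutatorElement_eq_one_iff_mul_comm.1 h)
    simp only [Coc.mul_a, hC x hx y hy, hC y hy x hx, e1, e2, e3, zero_add, mul_one, zero_mul, mul_zero] at h3
    exact hi ((ZMod.natCast_eq_zero_iff _ _).1 h3)

end H23.ST
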