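import Mathlib
import Cfsg.Agent.H23.ST1
import Cfsg.Agent.H23.ST2
import Cfsg.Agent.H19.Frob
import Cfsg.Agent.H17.Lift
import Cfsg.Agent.H24.PSolv
import Cfsg.Agent.H21.IntVec
import Cfsg.Agent.H21.Height

/-!
Smith–Tyrer theorem: an abelian non-cyclic Sylow `p`-subgroup, `p` odd, inverted by its normalizer: `G` is `p`-solvable.
-/

set_option autoImplicit false
set_option linter.unusedSectionVars false
set_option linter.unusedVariables false

namespace H23.ST
open H05 Cfsg H21 Classical Subgroup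

universe u
variable {p : ℕ} [hp : Fact p.Prime]

structure Inv {G : Type u} [Group G] (P : Subgroup G) : Prop where
  comm : IsMulCommutative P
  nc : ¬ IsCyclic P
  ex : ∃ t ∈ normalizer (P : Set G), ∀ x ∈ P, t⁻¹ * x * t = x⁻¹
  all : ∀ n ∈ normalizer (P : Set G), (∀ x ∈ P, n⁻¹ * x * n = x) ∨ (∀ x ∈ P, n⁻¹ * x * n = x⁻¹)

variable {G : Type u} [Group G] [Finite G] {P : Sylow p G}

theorem eq_one_of_inv (hp2 : p ≠ 2) {x : G} (hx : x ∈ (P : Subgroup G)) (h : x⁻¹ = x) : x = 1 := by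
  have h1 := reg_of_sq hp2 (inv_eq_iff_mul_eq_one.1 h)
  obtain ⟨k, hk⟩ := IsPGroup.iff_orderOf.1 P.isPGroup' ⟨x, hx⟩
  rw [Subgroup.orderOf_mk] at hk
  rw [← pPart_of_pow ⟨k, hk⟩, pPart_eq_one_iff.2 h1]

theorem cent_iff {n : G} {P : Subgroup G} : n ∈ centralizer (P : Set G) ↔ ∀ x ∈ P, n⁻¹ * x * n = x := by
  rw [mem_centralizer_iff]
  refine forall₂_congr fun x _ => ?_
  rw [mul_assoc, inv_mul_eq_iff_eq_mul]

namespace Inv
variable (I : Inv (P : Subgroup G))
include I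

theorem exists_ne : ∃ x ∈ (P : Subgroup G), x ≠ 1 := by
  by_contra h
  push Not at h
  apply I.nc
  have : Subsingleton (P : Subgroup G) := ⟨fun a b => Subtype.ext ((h _ a.2).trans (h _ b.2).symm)⟩
  infer_instance

theorem card_ge (hp2 : p ≠ 2) : 9 ≤ Nat.card (P : Subgroup G) := by
  obtain ⟨k, hk⟩ := IsPGroup.iff_card.1 P.isPGroup'
  have h3 : 3 ≤ p := by have := hp.out.two_le; omega
  rcases k with _ | _ | k
  · exact absurd (by have := (Nat.card_eq_one_iff_unique.1 (hk.trans (pow_zero p))).1; infer_instance) I.nc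
  · exact absurd (isCyclic_of_prime_card (p := p) (by simpa using hk)) I.nc
  · rw [hk]
    calc 9 = 3 ^ 2 := rfl
      _ ≤ p ^ 2 := Nat.pow_le_pow_left h3 2
      _ ≤ _ := Nat.pow_le_pow_right (by omega) (by omega)

theorem fusion (g : G) : (∀ y ∈ (P : Subgroup G), g⁻¹ * y * g ∈ (P : Subgroup G) → g⁻¹ * y * g = y) ∨
    (∀ y ∈ (P : Subgroup G), g⁻¹ * y * g ∈ (P : Subgroup G) → g⁻¹ * y * g = y⁻¹) := by
  have := I.comm
  have h : ∀ y ∈ (P : Subgroup G), g⁻¹ * y * g ∈ (P : Subgroup G) → g⁻¹ * y * g = y ∨ g⁻¹ * y * g = y⁻¹ := by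
    intro y hy hy'
    obtain ⟨n, hn, e⟩ := P.conj_eq_normalizer_conj_of_mem y g hy hy'
    rw [e]
    exact (I.all n hn).imp (fun h => h y hy) (fun h => h y hy)
  by_contra hc
  push Not at hc
  obtain ⟨⟨x, hx, hx', h1⟩, ⟨y, hy, hy', h2⟩⟩ := hc
  have h3 := (h x hx hx').resolve_left h1
  have h4 := (h y hy hy').resolve_right h2
  have h5 : g⁻¹ * (x * y) * g = x⁻¹ * y := by rw [← h3, ← h4]; nth_rewrite 1 [h4]; group
  rcases h (x * y) (mul_mem hx hy) (h5 ▸ mul_mem (inv_mem hx) hy) with h6 | h6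
  · rw [h5, mul_left_inj] at h6
    exact h1 (h3.trans h6)
  · have hxy : x * y = y * x := congrArg Subtype.val (this.is_comm.comm (⟨x, hx⟩ : (P : Subgroup G)) ⟨y, hy⟩)
    rw [h5, hxy, mul_inv_rev, mul_right_inj] at h6
    exact h2 (h4.trans h6)

theorem frob (hp2 : p ≠ 2) : H19.Frob P := by
  refine ⟨I.comm, fun y hy hy1 => le_antisymm (fun n hn => ?_) (le_inf ?_ (centralizer_le_normalizer _))⟩
  · rcases I.all n hn.2 with h | h
    · exact cent_iff.2 h
    · refine absurd (eq_one_of_inv hp2 hy ?_) hy1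
      rw [← h y hy, mul_assoc, ← mem_centralizer_singleton_iff.1 hn.1, inv_mul_cancel_left]
  · exact centralizer_le (Set.singleton_subset_iff.2 hy)

theorem idx (hp2 : p ≠ 2) : H19.frobIdx (P : Subgroup G) = 2 := by
  obtain ⟨t, ht, h⟩ := I.ex
  obtain ⟨x, hx, hx1⟩ := I.exists_ne
  refine relIndex_eq_two_iff.2 ⟨t, ht, fun b hb => ?_⟩
  rw [cent_iff, cent_iff]
  have e : ∀ y, (b * t)⁻¹ * y * (b * t) = t⁻¹ * (b⁻¹ * y * b) * t := fun y => by group
  rcases I.all b hb with h1 | h1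
  · refine Or.inr ⟨h1, fun h2 => hx1 (eq_one_of_inv hp2 hx ?_)⟩
    have h3 := h2 x hx
    rwa [e, h1 x hx, h x hx] at h3
  · refine Or.inl ⟨fun y hy => ?_, fun h2 => hx1 (eq_one_of_inv hp2 hx ?_)⟩
    · rw [e, h1 y hy, h _ (inv_mem hy), inv_inv]
    · rw [← h1 x hx, h2 x hx]

theorem exists_chi (hp2 : p ≠ 2) {M : Ideal AlgInt} (hM : IsPModular p M) :
    ∃ χ ∈ principalBlock M G, (χ : G → ℂ) ≠ 1 ∧ ∃ ε : ℤ, (ε = 1 ∨ ε = -1) ∧
      (∀ g, p ∣ orderOf g → (χ : G → ℂ) g = ε) ∧ ∀ η ∈ principalBlock M G, ∃ u v : ℂ,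
        ∀ k, ¬ p ∣ orderOf k → (η : G → ℂ) k = u + v * (ε * (χ : G → ℂ) k) := by
  have := Fintype.ofFinite G
  have h9 := I.card_ge hp2
  have h2 := I.idx hp2
  obtain ⟨d, δ, a, ζ, D⟩ := (I.frob hp2).exists_desc hM (by omega)
  have h1 := D.norm
  have h3 := D.card_Y
  rw [h2] at h3
  have h4 : (4 : ℤ) ≤ (H19.fY ζ).card := by omega
  rw [h2, ← Finset.add_sum_erase _ _ D.one_mem_X, D.a_one] at h1
  have h5 : 0 ≤ ∑ χ ∈ (H19.fX M ζ).erase (H21.irrOne G), a χ ^ 2 := Finset.sum_nonneg fun _ _ => sq_nonneg _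
  obtain rfl : d = 0 := by
    by_contra hd
    have : 1 ≤ d ^ 2 := by have := sq_pos_of_ne_zero hd; omega
    push_cast at h1
    nlinarith [sq_nonneg (d - δ)]
  have h6 : ∑ χ ∈ H19.fX M ζ, a χ * a χ = 2 := by
    rw [← Finset.add_sum_erase _ _ D.one_mem_X, D.a_one]
    simp only [← sq]
    rcases D.sign with rfl | rfl <;> push_cast at h1 <;> linarith
  obtain ⟨χ, hχ, hε, h7⟩ : ∃ χ ∈ (H19.fX M ζ).erase (H21.irrOne G), (a χ = 1 ∨ a χ = -1) ∧
      ∀ ξ ∈ (H19.fX M ζ).erase (H21.irrOne G), ξ ≠ χ → a ξ = 0 := by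
    obtain ⟨x, hx, y, hy, hxy, h1, h2, h3⟩ := H21.exists_of_norm_two h6
    have h4 : irrOne G = x ∨ irrOne G = y := by
      by_contra hc
      push Not at hc
      exact D.a_ne_zero D.one_mem_X (h3 _ D.one_mem_X hc.1 hc.2)
    rcases h4 with rfl | rfl
    · exact ⟨y, Finset.mem_erase.2 ⟨hxy.symm, hy⟩, h2, fun ξ hξ h =>
        h3 ξ (Finset.mem_erase.1 hξ).2 (Finset.mem_erase.1 hξ).1 h⟩
    · exact ⟨x, Finset.mem_erase.2 ⟨hxy, hx⟩, h1, fun ξ hξ h =>
        h3 ξ (Finset.mem_erase.1 hξ).2 h (Finset.mem_erase.1 hξ).1⟩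
  have h8 : (H19.fX M ζ).erase (H21.irrOne G) = {χ} := by
    ext ξ
    refine ⟨fun hξ => ?_, fun hξ => Finset.mem_singleton.1 hξ ▸ hχ⟩
    by_contra hc
    exact D.a_ne_zero (Finset.mem_of_mem_erase hξ) (h7 ξ hξ (by simpa using hc))
  have hX := Finset.mem_of_mem_erase hχ
  refine ⟨χ, (H19.mem_fX.1 hX).1, fun h => (Finset.mem_erase.1 hχ).1 (Subtype.ext h), a χ, hε, fun g hg => ?_,
    fun η hη => ?_⟩
  · obtain ⟨Q, hQ⟩ := (isPGroup_zpowers (orderOf_pPart (p := p) g)).exists_le_sylow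
    obtain ⟨c, rfl⟩ := MulAction.exists_smul_eq G P Q
    have h10 : pPart p (c⁻¹ * g * c⁻¹⁻¹) ∈ (P : Subgroup G) := by
      rw [pPart_conj]
      have := hQ (mem_zpowers _)
      rw [Sylow.coe_subgroup_smul, mem_pointwise_smul_iff_inv_smul_mem] at this
      simpa using this
    rw [← χ.2.isClassFunction g c⁻¹]
    refine D.apply_X hX (isPPart_pPart (p := p) _) h10 fun h => pPart_eq_one_iff.1 h ?_
    rwa [orderOf_conj']
  · by_cases hY : η ∈ H19.fY ζ
    · refine ⟨δ, δ, fun k hk => ?_⟩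
      have h10 := D.reg_aux hY hk
      rw [← Finset.add_sum_erase _ _ D.one_mem_X, D.a_one, h8] at h10
      simp only [Int.cast_one, irrOne_apply, mul_one, Finset.sum_singleton, Int.cast_zero, zero_mul, add_zero] at h10
      have h11 : (δ : ℂ) * δ = 1 := by rcases D.sign with rfl | rfl <;> simp
      linear_combination δ * h10 - (η : G → ℂ) k * h11
    · by_cases h10 : η = irrOne G
      · exact ⟨1, 0, fun k _ => by simp [h10]⟩
      · have h11 : η ∈ ({χ} : Finset _) := h8 ▸ Finset.mem_erase.2 ⟨h10, H19.mem_fX.2 ⟨hη, hY⟩⟩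
        rw [Finset.mem_singleton.1 h11]
        exact ⟨0, a χ, fun k _ => by rcases hε with h | h <;> simp [h]⟩

theorem psol_of_linear (hp2 : p ≠ 2) (l : G →* ℂˣ) (hl : l ≠ 1) {ε : ℂ} (h : ∀ g, p ∣ orderOf g → (l g : ℂ) = ε) :
    IsPSolvable p G := by
  obtain ⟨x, hx, hx1⟩ := I.exists_ne
  have hs : ∀ y ∈ (P : Subgroup G), ∃ k, orderOf y = p ^ k := fun y hy => by
    simpa using IsPGroup.iff_orderOf.1 P.isPGroup' ⟨y, hy⟩
  have hs' : ∀ y ∈ (P : Subgroup G), y ≠ 1 → p ∣ orderOf y := fun y hy hy1 => by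
    by_contra hc
    exact hy1 (by rw [← pPart_of_pow (hs y hy), pPart_eq_one_iff.2 hc])
  have hε : ε = 1 := by
    have h1 := h x (hs' x hx hx1)
    have h2 := h (x * x) (hs' _ (mul_mem hx hx) fun e => hx1 (eq_one_of_inv hp2 hx (inv_eq_iff_mul_eq_one.2 e)))
    rw [map_mul, Units.val_mul, h1] at h2
    exact (mul_eq_left₀ (h1 ▸ Units.ne_zero _)).1 h2
  subst hε
  have h' : ∀ g, p ∣ orderOf g → g ∈ l.ker := fun g hg => Units.val_eq_one.1 (h g hg)
  have hPK : (P : Subgroup G) ≤ l.ker := fun y hy => by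
    by_cases hy1 : y = 1
    · exact hy1 ▸ one_mem _
    · exact h' y (hs' y hy hy1)
  have hCK : centralizer ((P : Subgroup G) : Set G) ≤ l.ker := fun c hc => by
    by_cases h1 : p ∣ orderOf c
    · exact h' c h1
    · have h2 : p ∣ orderOf (x * c) := by
        by_contra h3
        exact hx1 (by rw [← pPart_mul_of_commute (hs x hx) h1 (hc x hx), pPart_eq_one_iff.2 h3])
      exact (Subgroup.mul_mem_cancel_left _ (hPK hx)).1 (h' _ h2)
  have hN : HasNormalPComplement p l.ker := by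
    refine H03.hasNPC_of_normalizer_le_centralizer (P.subtype hPK) fun g hg => ?_
    have h1 : g ∈ normalizer (((P : Subgroup G).subgroupOf l.ker : Subgroup _) : Set _) := hg
    rw [← subgroupOf_normalizer_eq hPK, mem_subgroupOf] at h1
    rcases I.all g h1 with h2 | h2
    · exact fun x hx => Subtype.ext (cent_iff.2 h2 x hx)
    exfalso
    have h3 : normalizer ((P : Subgroup G) : Set G) ≤ l.ker := fun n hn => by
      rcases I.all n hn with h4 | h4
      · exact hCK (cent_iff.2 h4)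
      · refine (Subgroup.mul_mem_cancel_right _ g.2).1 (hCK (cent_iff.2 fun y hy => ?_))
        rw [show (n * g)⁻¹ * y * (n * g) = (g : G)⁻¹ * (n⁻¹ * y * n) * g by group, h4 y hy, h2 _ (inv_mem hy), inv_inv]
    have h4 := P.normalizer_sup_eq_top' hPK
    have h5 : ⊤ ≤ l.ker := h4.ge.trans (sup_le h3 le_rfl)
    exact hl (MonoidHom.ext fun g => (h5 trivial : g ∈ l.ker))
  refine H24.PS.ext l.ker ?_ (H24.PS.of_coprime ?_)
  · obtain ⟨Q, N, hn, hc⟩ := hN
    refine H24.PS.ext N (H24.PS.of_coprime ?_) (H24.PS.of_pgroup ?_)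
    · rw [← hc.index_eq_card]
      exact ((Nat.Prime.coprime_iff_not_dvd hp.out).2 Q.not_dvd_index).symm
    · obtain ⟨k, hk⟩ := IsPGroup.iff_card.1 Q.isPGroup'
      exact IsPGroup.of_card (n := k) (by rw [← hk, ← hc.symm.index_eq_card]; rfl)
  · exact ((Nat.Prime.coprime_iff_not_dvd hp.out).2 fun h1 =>
      P.not_dvd_index (h1.trans (index_dvd_of_le hPK))).symm

theorem exists_invol (hp2 : p ≠ 2) : ∃ s : G, orderOf s = 2 := by
  obtain ⟨t, ht, h⟩ := I.ex
  obtain ⟨x, hx, hx1⟩ := I.exists_ne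
  have : Fact (Nat.Prime 2) := Nat.fact_prime_two
  refine exists_prime_orderOf_dvd_card' 2 ?_
  have := Fintype.ofFinite G
  have h1 := H19.card_normalizer (P : Subgroup G)
  rw [I.idx hp2] at h1
  exact (Dvd.intro_left _ h1.symm).trans (card_subgroup_dvd_card _)

theorem map {G' : Type u} [Group G'] [Finite G'] {f : G →* G'} (hf : Function.Surjective f)
    (hk : (Nat.card f.ker).Coprime p) : Inv ((P : Subgroup G).map f) := by
  have := I.comm
  have hN := H17.normalizer_map_of_coprime_ker hf hk P.isPGroup'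
  refine ⟨inferInstance, fun h => I.nc (isCyclic_of_injective (f.subgroupMap P) ?_), ?_, fun n hn => ?_⟩
  · rw [injective_iff_map_eq_one]
    intro x hx
    have h1 : (x : G) ∈ f.ker := congrArg Subtype.val hx
    exact Subtype.ext (H26.eq_one_of_mem_pGroup P.isPGroup' x.2 (hk.coprime_dvd_left (orderOf_dvd_natCard _ h1)))
  · obtain ⟨t, ht, h⟩ := I.ex
    refine ⟨f t, hN ▸ mem_map_of_mem f ht, ?_⟩
    rintro _ ⟨x, hx, rfl⟩
    rw [← map_inv, ← map_mul, ← map_mul, h x hx, map_inv]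
  · rw [← hN] at hn
    obtain ⟨n, hn, rfl⟩ := hn
    refine (I.all n hn).imp (fun h => ?_) (fun h => ?_) <;> rintro _ ⟨x, hx, rfl⟩ <;>
      simp only [← map_inv, ← map_mul, h x hx]

end Inv

theorem psol (hp2 : p ≠ 2) : ∀ (n : ℕ) (G : Type u) [Group G] [Finite G], Nat.card G = n →
    ∀ P : Sylow p G, Inv (P : Subgroup G) → IsPSolvable p G := by
  intro n
  induction n using Nat.strong_induction_on with
  | _ n ih =>
  intro G _ _ hn P I
  obtain ⟨M, hM⟩ := exists_isPModular hp.out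
  obtain ⟨χ, hχ, hχ1, ε, hε, hs, hB⟩ := I.exists_chi hp2 hM
  by_cases h1 : (χ : G → ℂ) 1 = 1
  · obtain ⟨l, hl⟩ := χ.2.isCharacter.exists_monoidHom h1
    refine I.psol_of_linear hp2 l (fun h => hχ1 ?_) (ε := ε) fun g hg => by rw [← hs g hg, hl]
    rw [hl, h]; rfl
  obtain ⟨E, _, _, π, hπ, hZ, hc, z, hz1, hz, hz0⟩ :=
    exists_ext P.isPGroup' P.not_dvd_index I.comm I.nc I.fusion
  have := Fintype.ofFinite E
  have := Fintype.ofFinite G
  have hQ : PQuot p π := ⟨hπ, hZ, fun g _ z hz => mem_center_iff.1 (hc hz) g⟩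
  obtain ⟨s, hs2⟩ := I.exists_invol hp2
  have h2 := (main hp2 hM hQ hc hχ hχ1 hε hs hB hz1 hz hz0 (t := s)
    (by rw [← pow_two, ← hs2, pow_orderOf_eq_one])).resolve_left h1
  have hK : (Nat.card (charKer (χ : G → ℂ))).Coprime p := by
    refine ((Nat.Prime.coprime_iff_not_dvd hp.out).2 fun h => ?_).symm
    obtain ⟨x, hx⟩ := exists_prime_orderOf_dvd_card' p h
    have h3 := χ.2.isCharacter.mem_charKer.1 x.2
    rw [hs x (by rw [Subgroup.orderOf_coe, hx])] at h3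
    obtain ⟨m, hm, h4⟩ := χ.2.exists_degree_pos
    rw [h4] at h3 h1
    have h5 : ε = m := by exact_mod_cast h3
    have : m = 1 := by rcases hε with rfl | rfl <;> omega
    exact h1 (by rw [this, Nat.cast_one])
  refine H24.PS.ext (charKer (χ : G → ℂ)) (H24.PS.of_coprime hK)
    (ih _ ?_ _ rfl (P.mapSurjective (QuotientGroup.mk'_surjective _))
      (I.map (QuotientGroup.mk'_surjective _) (by rwa [QuotientGroup.ker_mk'])))
  have h3 : 1 < Nat.card (charKer (χ : G → ℂ)) := by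
    refine (Subgroup.one_lt_card_iff_ne_bot _).2 fun h => ?_
    have h4 := χ.2.isCharacter.mem_charKer.2 h2
    rw [h, mem_bot] at h4
    simp [h4] at hs2
  rw [← hn, Subgroup.card_eq_card_quotient_mul_card_subgroup (charKer (χ : G → ℂ))]
  exact lt_mul_of_one_lt_right Nat.card_pos h3

end H23.ST
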